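import Cfsg.Agent.WQ.D1

/-! The semidihedral case: the action of the conjugates of `z`. -/

set_option autoImplicit false

namespace Cfsg.Lib.WQ

open Cfsg Cfsg.FusionSystem Subgroup Cfsg.Lib.Fus

variable {Ω : Type*} [Group Ω] {S : Subgroup Ω} [Finite S] {F : FusionSystem S} {m : ℕ}
  {a b w β : Ω}

omit [Finite S] in
open D1 in
theorem d0 (D : Dat F m a b) (h1 : PDi F m a b) (h2 : PX F m a)
    (h : ∀ w β, ¬ TFr F m a b w β) : PD F m a b := by
  intro w hw hne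
  have G := D.gb
  obtain ⟨f, hf, fz, hc⟩ := D.fb.ext w hw
  have hwS := isConjElt_mem_right hw
  have hz : zz m a ∈ CC S w := mem_CC.2 ⟨pow_mem D.hyp.aS _, (D.fb.zc w hwS).symm⟩
  have hwC : w ∈ CC S w := mem_CC.2 ⟨hwS, rfl⟩
  have k := (h1 (f w) (isConjElt_trans hw (hf.isConjElt hwC))
    (fun e => hne (f.injective (e.trans fz.symm))) hc).resolve_left fun ⟨β, t⟩ => h _ β t
  have k' : ∀ x ∈ RR a b, x * w = w * x → x = 1 ∨ x = zz m a := fun x hx e => by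
    have hxC : x ∈ CC S w := mem_CC.2 ⟨D.hyp.wc.1 hx, e⟩
    exact (k (f x) ((D.fb.fixz _ f hf hz fz x hxC).2 hx)
      (by rw [← hf.map_mul hxC hwC, e, hf.map_mul hwC hxC])).imp (hf.eq_one_iff hxC).1
      fun e => f.injective (e.trans fz.symm)
  have hwa : w * a * w⁻¹ = a⁻¹ := (h2 w hw).resolve_left fun e => a_ne_inv G (by
    rcases k' a (a_mem_RR a b) (mul_inv_eq_iff_eq_mul.1 e).symm with e | e
    · rw [e, inv_one]
    · exact eq_inv_of_mul_eq_one_left (by have := G.z2; rwa [← e] at this))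
  obtain ⟨-, j, -, -, hj⟩ := D.fb.act w hwS
  refine ⟨hwa, j, Int.not_even_iff_odd.1 fun ⟨l, hl⟩ => ?_, hj⟩
  rcases k' (a ^ l * b) ((G.mem _).2 ⟨l, Or.inr rfl⟩) (by
    rw [eq_comm, ← mul_inv_eq_iff_eq_mul, ← conj_mul, ← conj_zpow, hwa, hj, hl]; group) with e | e
  · exact G.ne l 0 (e.trans (zpow_zero a).symm)
  · exact G.ne l _ (e.trans (z_eq m a))

end Cfsg.Lib.WQ
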