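import Cfsg.Agent.WQ.Defs

/-! The semidihedral case: the conjugates of `z` lie in `⟨a, b, w⟩`. -/

set_option autoImplicit false

namespace Cfsg.Lib.WQ

open Cfsg Cfsg.FusionSystem Subgroup Cfsg.Lib.Fus

variable {Ω : Type*} [Group Ω] {S : Subgroup Ω} [Finite S] {F : FusionSystem S} {m : ℕ}
  {a b w β : Ω}

namespace D1

theorem sq_or_four {q : Ω} {e : ℕ} (h : q ^ 2 ^ e = 1) :
    q * q = 1 ∨ ∃ k : ℕ, q ^ k * q ^ k ≠ 1 ∧ q ^ k * q ^ k * (q ^ k * q ^ k) = 1 := by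
  induction e generalizing q with
  | zero => left; rw [pow_zero, pow_one] at h; rw [h, one_mul]
  | succ e ih =>
    by_cases h1 : q * q = 1
    · exact Or.inl h1
    · rcases @ih (q ^ 2) (by rw [← pow_mul, ← pow_succ', h]) with h2 | ⟨k, h2⟩
      · exact Or.inr ⟨1, by rwa [pow_one], by rwa [pow_one, ← pow_two q]⟩
      · exact Or.inr ⟨2 * k, by rwa [pow_mul]⟩

theorem a_ne_inv (G : GB m a b) : a ≠ a⁻¹ := fun h => by
  have h1 := (G.inj 1 (-1)).1 (by simpa using h)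
  have h2 := Int.le_of_dvd (by norm_num) h1.symm.dvd
  have h3 : (2 : ℤ) ^ 3 ≤ 2 ^ (m + 3) := pow_le_pow_right₀ (by norm_num) (by omega)
  omega

theorem z_eq (m : ℕ) (a : Ω) : zz m a = a ^ ((2 : ℤ) ^ (m + 2)) := by
  rw [zz, ← zpow_natCast]; push_cast; rfl

omit [Finite S] in
theorem sq_eq_one (G : GB m a b) {u : Ω} (hu : F.IsConjElt (zz m a) u) : u * u = 1 := by
  obtain ⟨f, hf, rfl⟩ := isConjElt_iff.1 hu
  rw [← hf.map_mul (mem_zpowers _) (mem_zpowers _), G.z2, hf.map_one]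

omit [Finite S] in
theorem conj_cls {z u s : Ω} (hs : s ∈ S) (hu : F.IsConjElt z u) : F.IsConjElt z (s * u * s⁻¹) :=
  isConjElt_trans hu ((Mor.conj F le_rfl hs).isConjElt (isConjElt_mem_right hu))

end D1

open D1 in
theorem d1 (D : Dat F m a b) (h : PD F m a b) (hw : F.IsConjElt (zz m a) w) (hne : w ≠ zz m a) :
    PZ F m a b w := by
  have G := D.gb
  have hzc := D.fb.zc
  have haS := D.hyp.aS
  have hwS := isConjElt_mem_right hw
  have hzS : zz m a ∈ S := pow_mem haS _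
  obtain ⟨hwa, j, hj, hwb⟩ := h w hw hne
  have hww := sq_eq_one G hw
  have hwi : w⁻¹ = w := inv_eq_of_mul_eq_one_left hww
  have hwa' : ∀ i : ℤ, w * a ^ i = a ^ (-i) * w := fun i => by
    rw [← mul_inv_eq_iff_eq_mul, ← conj_zpow, hwa, inv_zpow']
  have hbw : b * w * b⁻¹ = a ^ (-j) * w := by
    rw [mul_inv_eq_iff_eq_mul, mul_assoc, mul_inv_eq_iff_eq_mul.1 hwb]; group
  have hA : ∀ q, q * a = a * q → q * b = b * q → ∀ i i' : ℤ,
      F.IsConjElt (zz m a) (a ^ i * w * q) → F.IsConjElt (zz m a) (a ^ i' * w * q) := by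
    intro q h1 h2
    have k1 : ∀ i k : ℤ, F.IsConjElt (zz m a) (a ^ i * w * q) →
        F.IsConjElt (zz m a) (a ^ (k + k + i) * w * q) := fun i k hc => by
      have h3 := conj_cls (zpow_mem haS k) hc
      have e : a ^ k * (a ^ i * w * q) * (a ^ k)⁻¹ = a ^ k * a ^ i * (w * a ^ (-k)) * q := by
        rw [← zpow_neg, mul_assoc, mul_assoc _ q, (Commute.zpow_right h1 (-k)).eq]; group
      rw [e, hwa'] at h3
      convert h3 using 1; group
    intro i i' hc
    rcases Int.even_or_odd (i' - i) with ⟨k, hk⟩ | ⟨k, hk⟩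
    · rw [show i' = k + k + i by omega]; exact k1 i k hc
    · have h3 := conj_cls D.hyp.bS hc
      have e : b * (a ^ i * w * q) * b⁻¹ = a ^ (-i - j) * w * q := by
        rw [← conj_mul, ← conj_mul, hbw, G.bpow, ← h2]; group
      obtain ⟨l, rfl⟩ := hj
      rw [e] at h3
      rw [show i' = (k + i + l + 1) + (k + i + l + 1) + (-i - (2 * l + 1)) by omega]
      exact k1 _ _ h3
  have hE : ∀ (i : ℤ) (q : Ω), a ^ i * w * q = w → q = a ^ i := fun i q e => by
    have h1 := hwa' (-i)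
    rw [neg_neg] at h1
    rw [← h1, mul_assoc, mul_eq_left, zpow_neg, inv_mul_eq_one] at e
    exact e.symm
  have hB : ∀ u, F.IsConjElt (zz m a) u → F.IsConjElt (zz m a) (zz m a * u) → u * w = w * u →
      u ≠ w → zz m a * u ≠ w → False := fun u h1 h2 h3 h4 h5 => by
    obtain ⟨p, hp, hpw⟩ := D.fb.psi w hw
    have hz : zz m a ∈ CC S w := mem_CC.2 ⟨hzS, (hzc w hwS).symm⟩
    have hu : u ∈ CC S w := mem_CC.2 ⟨isConjElt_mem_right h1, h3⟩
    have k : ∀ v ∈ CC S w, F.IsConjElt (zz m a) v → v ≠ w → p v * a * (p v)⁻¹ = a⁻¹ :=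
      fun v hv h1 h2 => (h _ (isConjElt_trans h1 (hp.isConjElt hv))
        fun e => h2 (p.injective (e.trans hpw.symm))).1
    have k1 := k _ hz (isConjElt_refl F hzS) hne.symm
    have k2 := k _ hu h1 h4
    have k3 := k _ (mul_mem hz hu) h2 h5
    rw [hp.map_mul hz hu, mul_inv_rev, show ∀ x y : Ω, x * y * a * (y⁻¹ * x⁻¹) =
      x * (y * a * y⁻¹) * x⁻¹ from fun x y => by group, k2, ← conj_inv, k1, inv_inv] at k3
    exact a_ne_inv G k3
  intro u hu
  have haP : a ∈ closure {a, b, w} := subset_closure (by simp)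
  have hwP : w ∈ closure {a, b, w} := subset_closure (by simp)
  by_cases huz : u = zz m a
  · rw [huz]; exact pow_mem haP _
  obtain ⟨hua, j', hj', hub⟩ := h u hu huz
  obtain ⟨i, hi⟩ : Even (j' - j) := Odd.sub_odd hj' hj
  obtain ⟨q, rfl⟩ : ∃ q, u = a ^ i * w * q := ⟨(a ^ i * w)⁻¹ * u, by group⟩
  have hqS : q ∈ S := (mul_mem_cancel_left (mul_mem (zpow_mem haS i) hwS)).1
    (isConjElt_mem_right hu)
  have hcan : ∀ t x : Ω, t * q * x * (t * q)⁻¹ = t * x * t⁻¹ → q * x = x * q := fun t x e => by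
    have : q * x = t⁻¹ * (t * q * x * (t * q)⁻¹) * t * q := by group
    rw [this, e]; group
  have hqa : q * a = a * q := hcan (a ^ i * w) a (by
    rw [hua, show a ^ i * w * a * (a ^ i * w)⁻¹ = a ^ i * (w * a * w⁻¹) * (a ^ i)⁻¹ by group, hwa]
    group)
  have hqb : q * b = b * q := hcan (a ^ i * w) b (by
    rw [hub, show a ^ i * w * b * (a ^ i * w)⁻¹ = a ^ i * (w * b * w⁻¹) * (a ^ i)⁻¹ by group, hwb,
      ← zpow_neg, mul_assoc, mul_assoc, G.bpow, show j' = i + j + i by omega]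
    group)
  have h0 : F.IsConjElt (zz m a) (w * q) := by simpa using hA q hqa hqb i 0 hu
  have hwq : w * q * w⁻¹ = q⁻¹ := by
    rw [hwi, eq_inv_iff_mul_eq_one, mul_assoc, sq_eq_one G h0]
  have hwq' : ∀ k : ℕ, w * q ^ k * w⁻¹ = (q ^ k)⁻¹ := fun k => by rw [← conj_pow, hwq, inv_pow]
  have hk : ∀ (k : ℕ) (i : ℤ), F.IsConjElt (zz m a) (a ^ i * w * q ^ k) := fun k i => by
    refine hA _ (Commute.pow_left hqa k) (Commute.pow_left hqb k) 0 i ?_
    rw [zpow_zero, one_mul]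
    have e : ∀ t : ℕ, (q ^ t)⁻¹ * w = w * q ^ t := fun t => by
      rw [← hwq', mul_assoc, hwi, hww, mul_one]
    obtain ⟨t, rfl | rfl⟩ := Nat.even_or_odd' k
    · have h1 := conj_cls (inv_mem (pow_mem hqS t)) hw
      rw [e] at h1
      convert h1 using 1; group
    · have h1 := conj_cls (inv_mem (pow_mem hqS t)) h0
      rw [← mul_assoc, e] at h1
      convert h1 using 1; group
  have hzm : ∀ (i : ℤ) (y : Ω), zz m a * (a ^ i * w * y) = a ^ (2 ^ (m + 2) + i) * w * y :=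
    fun i y => by rw [z_eq]; group
  have K1 : ∀ k : ℕ, q ^ k * q ^ k = 1 → q ^ k = 1 ∨ q ^ k = zz m a := fun k h1 => by
    by_contra h2
    push Not at h2
    refine hB _ (hk k 0) (hzm _ _ ▸ hk k _) ?_ (fun e => h2.1 (by simpa using hE _ _ e))
      fun e => h2.2 (by rw [hzm] at e; simpa [z_eq] using hE _ _ e)
    have h3 := hwq' k
    rw [inv_eq_of_mul_eq_one_left h1, mul_inv_eq_iff_eq_mul] at h3
    rw [zpow_zero, one_mul, mul_assoc, h3]
  obtain ⟨e, he⟩ := D.hyp.pg ⟨q, hqS⟩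
  rcases sq_or_four (q := q) (e := e) (congrArg Subtype.val he) with h1 | ⟨k, h1, h2⟩
  · refine mul_mem (mul_mem (zpow_mem haP i) hwP) ?_
    rcases K1 1 (by rwa [pow_one]) with h2 | h2 <;> rw [pow_one] at h2 <;> rw [h2]
    exacts [one_mem _, pow_mem haP _]
  · exfalso
    have h3 := (K1 (k + k) (by rwa [pow_add])).resolve_left (by rwa [pow_add])
    rw [pow_add] at h3
    have k2 : ∀ i : ℤ, a ^ i * w * q ^ k ≠ w := fun i e => by
      have h4 := hE _ _ e
      have h5 := (Commute.pow_left hqb k).eq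
      rw [h4, G.bpow, mul_left_inj] at h5
      exact h1 (by rw [h4]; nth_rewrite 1 [h5]; group)
    refine hB _ (hk k (2 ^ (m + 1))) (hzm _ _ ▸ hk k _) ?_ (k2 _) (hzm _ _ ▸ k2 _)
    have h4 : a ^ ((2 : ℤ) ^ (m + 1)) * a ^ ((2 : ℤ) ^ (m + 1)) = q ^ k * q ^ k := by
      rw [h3, z_eq, ← zpow_add]; congr 1; ring
    have h5 := hwq' k
    rw [hwi] at h5
    have h6 := (Commute.zpow_right (Commute.pow_left hqa k) (2 ^ (m + 1))).eq
    rw [mul_assoc, mul_assoc, ← mul_assoc w, h5, ← mul_assoc, ← mul_assoc, hwa', mul_assoc _ w w,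
      hww, mul_one, zpow_neg, mul_inv_eq_iff_eq_mul, mul_assoc, ← h4, inv_mul_cancel_left]

end Cfsg.Lib.WQ
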