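import Cfsg.Agent.WQ.D1

/-! The semidihedral case: the group `⟨a, b, w⟩`. -/

set_option autoImplicit false

namespace Cfsg.Lib.WQ

open Cfsg Cfsg.FusionSystem Subgroup Cfsg.Lib.Fus

variable {Ω : Type*} [Group Ω] {S : Subgroup Ω} [Finite S] {F : FusionSystem S} {m : ℕ}
  {a b w β : Ω}

open D1 in
theorem d2 (G : GB m a b) (h1 : orderOf a = 2 ^ (m + 3)) {j : ℤ} (hj : Odd j) (hw : w * w = 1)
    (hwa : w * a * w⁻¹ = a⁻¹) (hwb : w * b * w⁻¹ = a ^ j * b) :
    IsQuasiDihedral (closure {a, b, w} : Subgroup Ω) ∧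
      ∀ x, x ∈ closure {a, b, w} ↔ ∃ r ∈ RR a b, x = r ∨ x = r * w := by
  have hwi : w⁻¹ = w := inv_eq_of_mul_eq_one_left hw
  have ha := a_mem_RR a b
  have hb := b_mem_RR a b
  have hn : ∀ r ∈ RR a b, w * r * w ∈ RR a b := fun r hr => by
    conv => enter [2, 2]; rw [← hwi]
    obtain ⟨i, rfl | rfl⟩ := (G.mem r).1 hr
    · rw [← conj_zpow, hwa]; exact zpow_mem (inv_mem ha) i
    · rw [← conj_mul, ← conj_zpow, hwa, hwb]
      exact mul_mem (zpow_mem (inv_mem ha) i) (mul_mem (zpow_mem ha j) hb)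
  have hwP : w ∈ closure {a, b, w} := subset_closure (by simp)
  have hle : RR a b ≤ closure {a, b, w} := closure_mono (by simp [Set.insert_subset_iff])
  have hm : ∀ x, x ∈ closure {a, b, w} ↔ ∃ r ∈ RR a b, x = r ∨ x = r * w := fun x => by
    refine ⟨fun hx => ?_, ?_⟩
    · induction hx using closure_induction with
      | mem x hx =>
        rcases hx with rfl | rfl | rfl
        exacts [⟨_, ha, .inl rfl⟩, ⟨_, hb, .inl rfl⟩, ⟨1, one_mem _, .inr (one_mul _).symm⟩]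
      | one => exact ⟨1, one_mem _, .inl rfl⟩
      | mul x y _ _ hx hy =>
        obtain ⟨r, hr, rfl | rfl⟩ := hx <;> obtain ⟨s, hs, rfl | rfl⟩ := hy
        · exact ⟨_, mul_mem hr hs, .inl rfl⟩
        · exact ⟨_, mul_mem hr hs, .inr (mul_assoc _ _ _).symm⟩
        · exact ⟨_, mul_mem hr (hn _ hs), .inr (by simp only [mul_assoc, hw, mul_one])⟩
        · exact ⟨_, mul_mem hr (hn _ hs), .inl (by simp only [mul_assoc])⟩
      | inv x _ hx =>
        obtain ⟨r, hr, rfl | rfl⟩ := hx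
        · exact ⟨_, inv_mem hr, .inl rfl⟩
        · exact ⟨_, hn _ (inv_mem hr), .inr (by rw [mul_inv_rev, hwi, mul_assoc, hw, mul_one])⟩
    · rintro ⟨r, hr, rfl | rfl⟩
      exacts [hle hr, mul_mem (hle hr) hwP]
  have hz : w * zz m a * w⁻¹ = zz m a := by
    rw [← conj_pow, hwa, inv_pow, inv_eq_of_mul_eq_one_left G.z2]
  have hwR : w ∉ RR a b := fun h => a_ne_inv G (by
    rcases G.invol w h hw with e | e <;> rw [← hwa, e]
    · simp
    · exact ((Commute.refl a).pow_left _).mul_inv_cancel.symm)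
  have hbb : b * b = zz m a := by simpa using G.sq 0
  have hc : b * w * (b * w) = a ^ (-j + 2 ^ (m + 2)) := by
    rw [mul_assoc, ← mul_assoc w, ← hwi, hwi, show w * b * w = a ^ j * b by rw [← hwb, hwi],
      ← mul_assoc, G.bpow, mul_assoc, hbb, z_eq, zpow_add]
  have hc1 : (b * w) ^ 2 ^ (m + 3) = zz m a := by
    obtain ⟨l, hl⟩ : Odd (-j + 2 ^ (m + 2)) := hj.neg.add_even (by simp [Int.even_pow])
    rw [pow_succ', pow_mul, sq, hc, ← zpow_natCast, ← zpow_mul, mul_comm, zpow_mul, zpow_natCast,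
      hl, zpow_add, zpow_mul, zpow_two, G.z2, one_zpow, one_mul, zpow_one]
  have := Fact.mk Nat.prime_two
  refine ⟨⟨m + 4, by omega, ?_, ⟨b * w, mul_mem (hle hb) hwP⟩, ⟨w, hwP⟩, ?_, ?_, Subtype.ext ?_⟩, hm⟩
  · have hf : (RR a b : Set Ω).Finite :=
      Nat.finite_of_card_ne_zero (α := RR a b) (G.card ▸ by positivity)
    have e : ((closure {a, b, w} : Subgroup Ω) : Set Ω) =
        (RR a b : Set Ω) ∪ (· * w) '' (RR a b : Set Ω) := Set.ext fun x =>
      (hm x).trans ⟨fun ⟨r, hr, e⟩ => e.imp (fun e : x = r => e ▸ hr) fun e => ⟨r, hr, e.symm⟩,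
        fun e => e.elim (fun e => ⟨x, e, .inl rfl⟩) fun ⟨r, hr, e⟩ => ⟨r, hr, .inr e.symm⟩⟩
    have e' : (RR a b : Set Ω).ncard = 2 ^ (m + 4) := G.card
    change ((closure {a, b, w} : Subgroup Ω) : Set Ω).ncard = _
    rw [e, Set.ncard_union_eq (Set.disjoint_left.2 ?_) hf (hf.image _),
      Set.ncard_image_of_injective _ (mul_left_injective w), e', pow_succ _ (m + 4), mul_two]
    rintro _ h ⟨r, hr, rfl⟩
    exact hwR ((mul_mem_cancel_left hr).1 h)
  · rw [orderOf_mk]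
    exact orderOf_eq_prime_pow (hc1 ▸ G.z1) (by rw [pow_succ, pow_mul, hc1, sq, G.z2])
  · rw [orderOf_mk]
    exact orderOf_eq_prime (by rw [sq, hw]) fun e => hwR (e ▸ one_mem _)
  · change w * (b * w) * w⁻¹ = (b * w) ^ (2 ^ (m + 3) - 1)
    rw [pow_sub _ Nat.one_le_two_pow, hc1, pow_one, mul_inv_rev, ← mul_assoc (zz m a), hwi,
      ← mul_inv_eq_iff_eq_mul.1 hz, ← hbb, mul_assoc, mul_assoc, hw]
    group

end Cfsg.Lib.WQ
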