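import Cfsg.Agent.WQ.D1

/-! The semidihedral case: strong closure. -/

set_option autoImplicit false

namespace Cfsg.Lib.WQ

open Cfsg Cfsg.FusionSystem Subgroup Cfsg.Lib.Fus

variable {Ω : Type*} [Group Ω] {S : Subgroup Ω} [Finite S] {F : FusionSystem S} {m : ℕ}
  {a b w β : Ω}

open D1 in
theorem d3 (D : Dat F m a b) (h1 : PSq F m a b) (h2 : PD F m a b) (h3 : PG F (RR a b))
    (hw : F.IsConjElt (zz m a) w) (hne : w ≠ zz m a) (hZ : PZ F m a b w)
    (hm : ∀ x, x ∈ closure {a, b, w} ↔ ∃ r ∈ RR a b, x = r ∨ x = r * w) :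
    F.StronglyClosed (closure {a, b, w}) := by
  have G := D.gb
  have hle : ∀ r ∈ RR a b, r ∈ closure {a, b, w} := fun r hr => (hm r).2 ⟨r, hr, .inl rfl⟩
  have key := h3 (closure {a, b, w})
    (fun E f => ∀ x ∈ E, x ∈ closure {a, b, w} → f x ∈ closure {a, b, w}) (fun x hx y hy => by
      obtain ⟨f, hf, rfl⟩ := isConjElt_iff.1 hy
      by_cases x1 : x = 1
      · rw [x1, hf.map_one]; exact one_mem _
      have hz := G.zmem x hx x1
      by_cases e : f (zz m a) = zz m a
      · exact hle _ ((D.fb.fixz _ f hf hz e x (mem_zpowers x)).2 hx)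
      by_cases e' : f x * f x = 1
      · rw [← hf.map_mul (mem_zpowers x) (mem_zpowers x),
          hf.eq_one_iff (mul_mem (mem_zpowers x) (mem_zpowers x))] at e'
        exact hZ _ ((G.invol x hx e').resolve_left x1 ▸ hy)
      · have k := (h1 _ (hf.isConjElt hz) e _ (D.bf.mapR _ f x hf hz (mem_zpowers x) hx) e').1
        exact absurd ((mul_inv_eq_iff_eq_mul.2 k).symm.trans (h2 _ (hf.isConjElt hz) e).1)
          (a_ne_inv G))
    (fun P f g _ h e x hx hx' => e x hx ▸ h x hx hx') (fun P Q f _ h e x hx => h x (e hx))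
    (fun P Q U f g hf _ h h' x hx hx' => h' _ ((hf.mem x).2 hx) (h x hx hx'))
    (fun E f hf hR x hx hx' => by
      have k : ∀ r ∈ RR a b, f r ∈ closure {a, b, w} := fun r hr =>
        hle _ ((D.fb.fixz _ f hf.mor (hR (pow_mem (a_mem_RR a b) _)) (D.fb.morR _ f hf.mor hR).1
          r (hR hr)).2 hr)
      obtain ⟨r, hr, rfl | rfl⟩ := (hm x).1 hx'
      · exact k _ hr
      · have hwE := (mul_mem_cancel_left (hR hr)).1 hx
        rw [hf.mor.map_mul (hR hr) hwE]
        exact mul_mem (k r hr) (hZ _ (isConjElt_trans hw (hf.mor.isConjElt hwE))))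
    fun E f _ h x hx hx' => (mul_mem_cancel_left (inv_mem hx')).1 (h x hx)
  refine stronglyClosed_iff.2 ⟨(closure_le _).2 ?_, fun P k hk x hx hx' => ?_⟩
  · rintro _ (rfl | rfl | rfl)
    exacts [D.hyp.aS, D.hyp.bS, isConjElt_mem_right hw]
  · obtain ⟨f, hf, e⟩ := hk.exists_perm
    exact e x hx ▸ key P f hf x hx hx'

end Cfsg.Lib.WQ
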