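import Cfsg.Agent.Fus.EssBridge
import Cfsg.Agent.Fus.Rk2Pull
import Cfsg.Agent.Fus.FocalImg
import Cfsg.Agent.G2T.GM

/-!
# Weakly closed quaternion subgroups in 2-fusion systems: definitions

Part one: a saturated system with a weakly closed generalized quaternion subgroup `⟨a, b⟩`.
Part two: saturated systems over the Sylow 2-subgroup `GM R` of type `G₂(q)`.
-/

set_option autoImplicit false

namespace Cfsg.Lib.WQ

open Cfsg Cfsg.FusionSystem Subgroup Cfsg.Lib.Fus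

section One

variable {Ω : Type*} [Group Ω] {S : Subgroup Ω}

/-- The quaternion group `R = ⟨a, b⟩`. -/
abbrev RR (a b : Ω) : Subgroup Ω := closure {a, b}

/-- The involution `z` of `R`. -/
abbrev zz (m : ℕ) (a : Ω) : Ω := a ^ 2 ^ (m + 2)

/-- The centralizer of `w` in `S`. -/
abbrev CC (S : Subgroup Ω) (w : Ω) : Subgroup Ω := centralizerIn S (zpowers w)

theorem mem_CC {w x : Ω} : x ∈ CC S w ↔ x ∈ S ∧ x * w = w * x := by
  rw [mem_centralizerIn]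
  refine and_congr_right fun _ => ⟨fun h => (h w (mem_zpowers w)).symm, ?_⟩
  rintro h _ ⟨k, rfl⟩
  exact (Commute.zpow_right h k).eq.symm

theorem mem_QQ {a b x : Ω} :
    x ∈ centralizerIn S (RR a b) ↔ x ∈ S ∧ x * a = a * x ∧ x * b = b * x := by
  rw [mem_centralizerIn]
  refine and_congr_right fun _ => ⟨fun h => ⟨(h a (subset_closure (by simp))).symm,
    (h b (subset_closure (by simp))).symm⟩, fun h y hy => ?_⟩
  have : RR a b ≤ centralizer {x} := by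
    rw [closure_le]
    rintro y (rfl | rfl)
    exacts [mem_centralizer_singleton_iff.2 h.1.symm, mem_centralizer_singleton_iff.2 h.2.symm]
  exact mem_centralizer_singleton_iff.1 (this hy)

theorem a_mem_RR (a b : Ω) : a ∈ RR a b := subset_closure (by simp)

theorem b_mem_RR (a b : Ω) : b ∈ RR a b := subset_closure (by simp)

/-- The hypotheses: `R = ⟨a, b⟩` is generalized quaternion of order `2 ^ (m + 4)`, weakly closed,
and preserved by the maps fixing an involution of `C_S(R)`. -/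
structure Hyp (F : FusionSystem S) (m : ℕ) (a b : Ω) : Prop where
  pg : IsPGroup 2 S
  sat : F.IsSaturated 2
  aS : a ∈ S
  bS : b ∈ S
  ord : orderOf a = 2 ^ (m + 3)
  bb : b * b = zz m a
  ba : b * a * b⁻¹ = a⁻¹
  wc : F.WeaklyClosed (RR a b)
  f1 : ∀ y ∈ S, y * a = a * y → y * b = b * y → y * y = 1 → y ≠ 1 →
    ∀ P f, Mor F P f → y ∈ P → f y = y → ∀ x ∈ P, x ∈ RR a b → f x ∈ RR a b

/-- Arithmetic in the quaternion group. -/
structure GB (m : ℕ) (a b : Ω) : Prop where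
  inj : ∀ i j : ℤ, a ^ i = a ^ j ↔ i ≡ j [ZMOD 2 ^ (m + 3)]
  bpow : ∀ i : ℤ, b * a ^ i = a ^ (-i) * b
  mem : ∀ x, x ∈ RR a b ↔ ∃ i : ℤ, x = a ^ i ∨ x = a ^ i * b
  ne : ∀ i j : ℤ, a ^ i * b ≠ a ^ j
  sq : ∀ i : ℤ, a ^ i * b * (a ^ i * b) = zz m a
  z2 : zz m a * zz m a = 1
  z1 : zz m a ≠ 1
  zb : zz m a * b = b * zz m a
  invol : ∀ x ∈ RR a b, x * x = 1 → x = 1 ∨ x = zz m a
  zmem : ∀ x ∈ RR a b, x ≠ 1 → zz m a ∈ zpowers x
  root : ∀ x ∈ RR a b, x * x ≠ 1 → ∃ k : ℤ, x ^ k * x ^ k = zz m a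
  card : Nat.card (RR a b) = 2 ^ (m + 4)

/-- Basic fusion facts. -/
structure FB (F : FusionSystem S) (m : ℕ) (a b : Ω) : Prop where
  act : ∀ s ∈ S, ∃ i j : ℤ, Odd i ∧ s * a * s⁻¹ = a ^ i ∧ s * b * s⁻¹ = a ^ j * b
  zc : ∀ s ∈ S, s * zz m a = zz m a * s
  morR : ∀ P f, Mor F P f → RR a b ≤ P → f (zz m a) = zz m a ∧ ∃ l : ℤ, Odd l ∧ f a = a ^ l
  fixz : ∀ P f, Mor F P f → zz m a ∈ P → f (zz m a) = zz m a →
    ∀ x ∈ P, (f x ∈ RR a b ↔ x ∈ RR a b)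
  psi : ∀ w, F.IsConjElt (zz m a) w → ∃ f : Equiv.Perm Ω, Mor F (CC S w) f ∧ f w = zz m a
  zQ : ∀ w, F.IsConjElt (zz m a) w → w * a = a * w → w * b = b * w → w = zz m a
  ext : ∀ w, F.IsConjElt (zz m a) w → ∃ f : Equiv.Perm Ω, Mor F (CC S w) f ∧
    f (zz m a) = zz m a ∧ F.IsFullyCentralized (closure {zz m a, f w})

/-- The elements of `C_S(w)` carried into `R` by the maps that carry `w` to `z`. -/
def BB (F : FusionSystem S) (m : ℕ) (a b w : Ω) : Subgroup Ω where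
  carrier := {x | x ∈ CC S w ∧ ∀ f, Mor F (CC S w) f → f w = zz m a → f x ∈ RR a b}
  mul_mem' hx hy := ⟨mul_mem hx.1 hy.1, fun f hf e => by
    rw [hf.map_mul hx.1 hy.1]; exact mul_mem (hx.2 f hf e) (hy.2 f hf e)⟩
  one_mem' := ⟨one_mem _, fun f hf _ => by rw [hf.map_one]; exact one_mem _⟩
  inv_mem' hx := ⟨inv_mem hx.1, fun f hf e => by
    rw [hf.map_inv hx.1]; exact inv_mem (hx.2 f hf e)⟩

theorem mem_BB {F : FusionSystem S} {m : ℕ} {a b w x : Ω} : x ∈ BB F m a b w ↔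
    x ∈ CC S w ∧ ∀ f, Mor F (CC S w) f → f w = zz m a → f x ∈ RR a b := Iff.rfl

/-- Facts on the groups `BB`. -/
structure BF (F : FusionSystem S) (m : ℕ) (a b : Ω) : Prop where
  iff : ∀ P f w x, Mor F P f → w ∈ P → x ∈ P → x * w = w * x → f w = zz m a →
    (x ∈ BB F m a b w ↔ f x ∈ RR a b)
  map : ∀ P f w x, Mor F P f → w ∈ P → x ∈ P → F.IsConjElt (zz m a) w →
    x ∈ BB F m a b w → f x ∈ BB F m a b (f w)
  mapR : ∀ P f x, Mor F P f → zz m a ∈ P → x ∈ P → x ∈ RR a b → f x ∈ BB F m a b (f (zz m a))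
  self : ∀ w, F.IsConjElt (zz m a) w → w ∈ BB F m a b w
  comm : ∀ w, F.IsConjElt (zz m a) w → w ≠ zz m a → ∀ x ∈ RR a b, x * w = w * x →
    ∀ y ∈ BB F m a b w, x * y = y * x
  infQ : ∀ w, F.IsConjElt (zz m a) w → w ≠ zz m a → ∀ y ∈ BB F m a b w,
    y * a = a * y → y * b = b * y → y = 1
  infR : ∀ w, F.IsConjElt (zz m a) w → w ≠ zz m a → ∀ y ∈ BB F m a b w, y ∈ RR a b → y = 1

/-- All basic facts. -/
structure Dat (F : FusionSystem S) (m : ℕ) (a b : Ω) : Prop where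
  hyp : Hyp F m a b
  gb : GB m a b
  fb : FB F m a b
  bf : BF F m a b

/-- A conjugate `w` of `z` that is a square in `BB w` centralizes `a`. -/
def PSq (F : FusionSystem S) (m : ℕ) (a b : Ω) : Prop :=
  ∀ w, F.IsConjElt (zz m a) w → w ≠ zz m a → ∀ y ∈ BB F m a b w, y * y ≠ 1 →
    w * a = a * w ∧ w * b * w⁻¹ = zz m a * b ∧ ∀ y' ∈ BB F m a b w, y' * a = a * y'

/-- An extremal conjugate of `z` of torus type. -/
structure TFr (F : FusionSystem S) (m : ℕ) (a b w β : Ω) : Prop where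
  conj : F.IsConjElt (zz m a) w
  ne : w ≠ zz m a
  wa : w * a = a * w
  wb : w * b * w⁻¹ = zz m a * b
  ord : orderOf β = 2 ^ (m + 3)
  gen : BB F m a b w = zpowers β
  βa : β * a = a * β
  βb : β * b * β⁻¹ = a * b
  βw : β ^ 2 ^ (m + 2) = w
  sig : ∃ σ : Equiv.Perm Ω, PIso F σ (CC S w) (CC S w) ∧ σ w = w ∧ σ (zz m a) = zz m a * w ∧
    ∀ t ∈ CC S w, t⁻¹ * σ t ∈ zpowers β

/-- The two types of extremal conjugates. -/
def PDi (F : FusionSystem S) (m : ℕ) (a b : Ω) : Prop :=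
  ∀ w, F.IsConjElt (zz m a) w → w ≠ zz m a → F.IsFullyCentralized (closure {zz m a, w}) →
    (∃ β, TFr F m a b w β) ∨ ∀ x ∈ RR a b, x * w = w * x → x = 1 ∨ x = zz m a

/-- An element of order four acting like a field automorphism is not fused into `C_S(R)`. -/
def PX2 (F : FusionSystem S) (m : ℕ) (a b : Ω) : Prop :=
  ∀ y ∈ S, ∀ (l : ℤ) (y₀ : Ω), y * y = zz m a → y * a * y⁻¹ = zz m a * a →
    y * (a ^ l * b) = a ^ l * b * y → y₀ * a = a * y₀ → y₀ * b = b * y₀ → y₀ * y₀ = zz m a →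
    ¬ F.IsConjElt y y₀

/-- The conjugates of `z` centralize or invert `a`. -/
def PX (F : FusionSystem S) (m : ℕ) (a : Ω) : Prop :=
  ∀ w, F.IsConjElt (zz m a) w → w * a * w⁻¹ = a ∨ w * a * w⁻¹ = a⁻¹

/-- Alperin induction relative to a normal subgroup `R` of `S`. -/
def PG (F : FusionSystem S) (R : Subgroup Ω) : Prop :=
  ∀ (M : Subgroup Ω) (Φ : Subgroup Ω → Equiv.Perm Ω → Prop),
    (∀ x ∈ R, ∀ y, F.IsConjElt x y → y ∈ M) →
    (∀ (P : Subgroup Ω) (f g : Equiv.Perm Ω), Mor F P f → Φ P f → (∀ x ∈ P, f x = g x) → Φ P g) →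
    (∀ (P Q : Subgroup Ω) (f : Equiv.Perm Ω), Mor F P f → Φ P f → Q ≤ P → Φ Q f) →
    (∀ (P Q U : Subgroup Ω) (f g : Equiv.Perm Ω), PIso F f P Q → PIso F g Q U →
      Φ P f → Φ Q g → Φ P (g * f)) →
    (∀ (E : Subgroup Ω) (f : Equiv.Perm Ω), PIso F f E E → R ≤ E → Φ E f) →
    (∀ (E : Subgroup Ω) (f : Equiv.Perm Ω), PIso F f E E → (∀ x ∈ E, x⁻¹ * f x ∈ M) → Φ E f) →
    ∀ (P : Subgroup Ω) (f : Equiv.Perm Ω), Mor F P f → Φ P f

/-- Every element of `S` centralizes or inverts `a`. -/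
def PA (S : Subgroup Ω) (a : Ω) : Prop := ∀ s ∈ S, s * a * s⁻¹ = a ∨ s * a * s⁻¹ = a⁻¹

/-- The semidihedral case: the action of the conjugates of `z`. -/
def PD (F : FusionSystem S) (m : ℕ) (a b : Ω) : Prop :=
  ∀ w, F.IsConjElt (zz m a) w → w ≠ zz m a →
    w * a * w⁻¹ = a⁻¹ ∧ ∃ j : ℤ, Odd j ∧ w * b * w⁻¹ = a ^ j * b

/-- The semidihedral case: the conjugates of `z` lie in `⟨a, b, w⟩`. -/
def PZ (F : FusionSystem S) (m : ℕ) (a b w : Ω) : Prop :=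
  ∀ u, F.IsConjElt (zz m a) u → u ∈ closure {a, b, w}

/-- The torus `H = ⟨a, β⟩`. -/
abbrev HH (a β : Ω) : Subgroup Ω := closure {a, β}

/-- The torus case: the torus and the automorphism permuting its involutions. -/
structure TR (F : FusionSystem S) (m : ℕ) (a b w β : Ω) : Prop where
  βS : β ∈ S
  mem : ∀ x, x ∈ HH a β ↔ ∃ i j : ℤ, x = a ^ i * β ^ j
  inj : ∀ i j : ℤ, a ^ i * β ^ j = 1 → (2 : ℤ) ^ (m + 3) ∣ i ∧ (2 : ℤ) ^ (m + 3) ∣ j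
  invol : ∀ x ∈ HH a β, x * x = 1 → x = 1 ∨ x = zz m a ∨ x = w ∨ x = zz m a * w
  bβ : b * β * b⁻¹ = a⁻¹ * β
  bw : b * w * b⁻¹ = zz m a * w
  bT : PIso F (cj b) (CC S w) (CC S w)
  le : HH a β ≤ CC S w
  scal : ∀ t ∈ CC S w, ∃ i : ℤ, t * a * t⁻¹ = a ^ i ∧ t * β * t⁻¹ = β ^ i
  rho : ∃ ρ : Equiv.Perm Ω, PIso F ρ (CC S w) (CC S w) ∧ ρ (zz m a) = zz m a * w ∧
    ρ (zz m a * w) = w ∧ ρ w = zz m a ∧ ∀ t ∈ CC S w, t⁻¹ * ρ t ∈ HH a β

/-- The torus is self-centralizing. -/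
def PC (S : Subgroup Ω) (a β : Ω) : Prop :=
  ∀ k ∈ S, k * a = a * k → k * β = β * k → k ∈ HH a β

/-- The torus case: the structure of `S`. -/
structure TS (S : Subgroup Ω) (m : ℕ) (a b β : Ω) : Prop where
  aS : a ∈ S
  bS : b ∈ S
  βS : β ∈ S
  orda : orderOf a = 2 ^ (m + 3)
  ordβ : orderOf β = 2 ^ (m + 3)
  bb : b * b = zz m a
  ba : b * a * b⁻¹ = a⁻¹
  βa : β * a = a * β
  bβ : b * β * b⁻¹ = a⁻¹ * β
  mem : ∀ x, x ∈ HH a β ↔ ∃ i j : ℤ, x = a ^ i * β ^ j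
  inj : ∀ i j : ℤ, a ^ i * β ^ j = 1 → (2 : ℤ) ^ (m + 3) ∣ i ∧ (2 : ℤ) ^ (m + 3) ∣ j
  cen : PC S a β
  cov : ∀ s ∈ S, ∃ t ∈ S, (s = t ∨ s = t * b) ∧
    (t ∈ HH a β ∨ t * a * t⁻¹ = a⁻¹ ∧ t * β * t⁻¹ = β⁻¹)
  inv2 : ∀ t ∈ S, t * a * t⁻¹ = a⁻¹ → t * β * t⁻¹ = β⁻¹ → t * t = 1

/-- `F` is the 2-fusion system of the finite group `G`. -/
def RealBy (F : FusionSystem S) (G : Type*) [Group G] : Prop :=
  ∃ ι : ↥S →* G, F.IsRealizedBy ι ∧ ∃ T : Sylow 2 G, (T : Subgroup G) = ι.range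

end One

section Two

open G2T G2T.GM

/-- The properties of `ZMod (2 ^ n)`, `n ≥ 3`, that are used. -/
structure Par8 (R : Type) [CommRing R] extends Par R where
  /-- an element of additive order eight -/
  r : R
  rr : r + r = q
  nat : ∀ x : R, ∃ k : ℕ, x = k
  unit : ∀ u : R, IsUnit (u + u + 1)
  pg : IsPGroup 2 (GM R)

/-- The data for `ZMod (2 ^ (m + 3))`. -/
def Par8.zmod (m : ℕ) : Par8 (ZMod (2 ^ (m + 1 + 2))) where
  toPar := Par.zmod (m + 1)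
  r := ((2 ^ m : ℕ) : ZMod _)
  rr := by
    change _ = ((2 ^ (m + 1) : ℕ) : ZMod (2 ^ (m + 1 + 2)))
    push_cast; ring
  nat x := ⟨x.val, (ZMod.natCast_zmod_val x).symm⟩
  unit u := by
    rw [← ZMod.natCast_zmod_val u, ← Nat.cast_add, ← Nat.cast_succ, ZMod.isUnit_iff_coprime]
    refine Nat.Coprime.pow_right _ ?_
    exact Odd.coprime_two_right ⟨u.val, by omega⟩
  pg := isPGroup_GM (m + 1)

variable {R : Type} [CommRing R]

/-- The sign attached to a quaternion factor. -/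
def sn (c : Bool) : R := cond c 1 (-1)

@[simp] theorem sn_true : (sn true : R) = 1 := rfl

@[simp] theorem sn_false : (sn false : R) = -1 := rfl

/-- The torus. -/
def HG : Subgroup (GM R) where
  carrier := {y | y.e = false ∧ y.f = false}
  mul_mem' {a b} ha hb := ⟨by rw [mul_e, ha.1, hb.1]; rfl, by rw [mul_f, ha.2, hb.2]; rfl⟩
  one_mem' := ⟨rfl, rfl⟩
  inv_mem' h := h

theorem mem_HG {y : GM R} : y ∈ (HG : Subgroup (GM R)) ↔ y.e = false ∧ y.f = false := Iff.rfl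

/-- The torus extended by the inversion. -/
def TG : Subgroup (GM R) where
  carrier := {y | y.e = false}
  mul_mem' {a b} ha hb := by
    change xor a.e b.e = false
    rw [show a.e = false from ha, show b.e = false from hb]; rfl
  one_mem' := rfl
  inv_mem' h := h

theorem mem_TG {y : GM R} : y ∈ (TG : Subgroup (GM R)) ↔ y.e = false := Iff.rfl

/-- The automorphism of order three of `TG`. -/
def rho0 (y : GM R) : GM R := ⟨y.k, -y.i - y.k, y.e, y.f⟩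

namespace Par8

variable (P : Par8 R)

/-- The two quaternion factors. -/
def RG (c : Bool) : Subgroup (GM R) where
  carrier := {y | (y.e = false ∧ y.f = false ∧ y.k = sn c * y.i) ∨
    (y.e = true ∧ y.f = c ∧ y.i - sn c * y.k = P.h)}
  mul_mem' := by
    rintro ⟨i, k, e, f⟩ ⟨i', k', e', f'⟩ (⟨h1, h2, h3⟩ | ⟨h1, h2, h3⟩) (⟨h4, h5, h6⟩ | ⟨h4, h5, h6⟩) <;>
      dsimp only at h1 h2 h3 h4 h5 h6 <;> subst h1 h4 <;> cases c <;> subst h2 h5 <;>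
      simp [mul_def] at h3 h6 ⊢
    · linear_combination h3 + h6
    · linear_combination h3 + h6
    · linear_combination h3 + h6
    · linear_combination h6 - h3
    · linear_combination h3 + h6
    · linear_combination h3 - h6
    · linear_combination h3 + h6 + P.hh
    · linear_combination -h3 - h6 - P.hh
  one_mem' := Or.inl ⟨rfl, rfl, by simp [one_def]⟩
  inv_mem' := by
    rintro ⟨i, k, e, f⟩ (⟨h1, h2, h3⟩ | ⟨h1, h2, h3⟩) <;>
      dsimp only at h1 h2 h3 <;> subst h1 <;> cases c <;> subst h2 <;> simp [inv_def] at h3 ⊢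
    · linear_combination -h3
    · linear_combination h3
    · linear_combination -h3 - P.hh
    · linear_combination -h3 - P.hh

theorem mem_RG {c : Bool} {y : GM R} : y ∈ P.RG c ↔
    (y.e = false ∧ y.f = false ∧ y.k = sn c * y.i) ∨
      (y.e = true ∧ y.f = c ∧ y.i - sn c * y.k = P.h) := Iff.rfl

/-- The element of order four of the cyclic subgroup of a factor. -/
abbrev xG (c : Bool) : GM R := A P.q (sn c * P.q)

/-- An element of a factor outside the torus. -/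
abbrev bG (c : Bool) : GM R := ⟨P.h, 0, true, c⟩

/-- The quaternion group of order eight through `y`. -/
abbrev QG (c : Bool) (y : GM R) : Subgroup (GM R) := closure {P.xG c, y}

/-- The candidates for essential subgroups fixing `z`. -/
abbrev EG (c : Bool) (y : GM R) : Subgroup (GM R) := P.QG c y ⊔ P.RG (!c)

/-- Arithmetic in `GM R`, first part. -/
structure B1 : Prop where
  sq_mem : ∀ y : GM R, y * y ∈ HG
  root : ∀ y : GM R, y * y = P.z → ∃ c, y ∈ P.RG c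
  rootH : ∀ y ∈ (HG : Subgroup (GM R)), y * y = P.z → ∃ c, y = P.xG c ∨ y = (P.xG c)⁻¹
  rootR : ∀ c, ∀ y ∈ P.RG c, y ∈ HG → y * y = P.z → y = P.xG c ∨ y = (P.xG c)⁻¹
  out_sq : ∀ c, ∀ y ∈ P.RG c, y ∉ HG → y * y = P.z
  out_x : ∀ c, ∀ y ∈ P.RG c, y ∉ HG → y * P.xG c * y⁻¹ = (P.xG c)⁻¹
  x_mem : ∀ c, P.xG c ∈ P.RG c
  x_sq : ∀ c, P.xG c * P.xG c = P.z
  x_ne : ∀ c, P.xG c ≠ (P.xG c)⁻¹
  x_conj : ∀ c (g : GM R), g * P.xG c * g⁻¹ = P.xG c ∨ g * P.xG c * g⁻¹ = (P.xG c)⁻¹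
  x_root : ∀ c, ∃ u ∈ P.RG c, u ∈ HG ∧ u * u = P.xG c
  b_mem : ∀ c, P.bG c ∈ P.RG c
  z_mem : ∀ c, P.z ∈ P.RG c
  comm : ∀ c, ∀ u ∈ P.RG c, ∀ v ∈ P.RG (!c), u * v = v * u
  inf : ∀ c, ∀ u ∈ P.RG c, u ∈ P.RG (!c) → u = 1 ∨ u = P.z
  centx : ∀ g : GM R, (∀ c, g * P.xG c = P.xG c * g) ↔ g ∈ HG
  commH : ∀ u ∈ (HG : Subgroup (GM R)), ∀ v ∈ (HG : Subgroup (GM R)), u * v = v * u
  centH : ∀ g : GM R, (∀ u ∈ (HG : Subgroup (GM R)), g * u = u * g) → g ∈ HG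
  invH : ∀ y ∈ (HG : Subgroup (GM R)), y * y = 1 →
    y = 1 ∨ y = P.z ∨ y = A P.h 0 ∨ y = A 0 P.h
  invT : ∀ t ∈ (TG : Subgroup (GM R)), t ∉ HG →
    t * t = 1 ∧ ∀ u ∈ (HG : Subgroup (GM R)), t * u * t⁻¹ = u⁻¹
  normH : (HG : Subgroup (GM R)).Normal
  normT : (TG : Subgroup (GM R)).Normal
  normR : ∀ c, (P.RG c).Normal
  cyc : ∀ c, ∀ y ∈ P.RG c, y ∈ HG → y ∈ zpowers (A 1 (sn c) : GM R)
  mapH : ∀ E : Subgroup (GM R), E ≤ TG → (∃ u ∈ E, u * u ≠ 1) → ∀ f : GM R → GM R, MulOn E f →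
    Set.InjOn f E → (∀ y ∈ E, f y ∈ TG) → ∀ y ∈ E, y ∈ HG → f y ∈ HG

/-- Arithmetic in `GM R`, second part. -/
structure B2 : Prop where
  cent : ∀ c, ∀ y ∈ P.RG c, y ∉ HG → ∀ g : GM R, g * P.xG c = P.xG c * g → g * y = y * g →
    g ∈ P.RG (!c)
  norm : ∀ c, ∀ y ∈ P.RG c, y ∉ HG → ∀ g : GM R, (g * y * g⁻¹ = y ∨ g * y * g⁻¹ = y⁻¹) →
    g ∈ P.EG c y
  conj : ∀ c, ∀ y ∈ P.RG c, y ∉ HG → ∀ y' ∈ P.RG c, y' ∉ HG →
    ∃ h ∈ (HG : Subgroup (GM R)), h * y * h⁻¹ = y'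
  memQ : ∀ c, ∀ y ∈ P.RG c, y ∉ HG → ∀ g : GM R,
    g ∈ P.QG c y ↔ ∃ i : ℤ, g = P.xG c ^ i ∨ g = P.xG c ^ i * y
  leQ : ∀ c, ∀ y ∈ P.RG c, P.QG c y ≤ P.RG c
  memE : ∀ c, ∀ y ∈ P.RG c, ∀ g : GM R,
    g ∈ P.EG c y ↔ ∃ u ∈ P.QG c y, ∃ v ∈ P.RG (!c), g = u * v
  infE : ∀ c, ∀ y ∈ P.RG c, ∀ g ∈ P.EG c y, g ∈ P.RG c → g ∈ P.QG c y
  q8 : ∀ c, ∀ y ∈ P.RG c, y ∉ HG → Nonempty (P.QG c y ≃* QuaternionGroup 2)
  out : ∀ c, ∀ y ∈ P.RG c, y ∉ HG → ∃ u ∈ P.RG c, u ∉ P.QG c y ∧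
    (∃ k, u ^ 2 ^ k = 1) ∧ ∀ g ∈ P.QG c y, u * g * u⁻¹ ∈ P.QG c y

/-- An automorphism of odd order that preserves the torus and fixes `z` is trivial. -/
def GOdd : Prop :=
  ∀ E : Subgroup (GM R), HG ≤ E → ∀ β : MulAut E, (orderOf β).Coprime 2 →
    (∀ y : E, (y : GM R) ∈ HG → (β y : GM R) ∈ HG) → (∀ y : E, (y : GM R) = P.z → β y = y) → β = 1

variable (F F' : FusionSystem (⊤ : Subgroup (GM R)))

/-- The stabilizer of `z` in the automizer of an overgroup of the torus. -/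
def GStab : Prop :=
  ∀ E : Subgroup (GM R), HG ≤ E → F.IsFullyNormalized E →
    (∀ f : Equiv.Perm (GM R), PIso F f E E → ∀ y ∈ (HG : Subgroup (GM R)), f y ∈ HG) →
    ∀ f : Equiv.Perm (GM R), PIso F f E E → f P.z = P.z → ∃ s, ∀ y ∈ E, f y = s * y * s⁻¹

/-- The two normal cyclic subgroups of order four are not fused. -/
def GX : Prop :=
  ∀ c (y : GM R), F.IsConjElt (P.xG c) y → y ∈ HG → y * y = P.z → y = P.xG c ∨ y = (P.xG c)⁻¹

/-- The maps fixing `z` preserve the elements of order four of each factor. -/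
def GY : Prop :=
  ∀ E f c, Mor F E f → f P.z = P.z → ∀ u ∈ E, u ∈ P.RG c → u * u = P.z → f u ∈ P.RG c

/-- The automizer of `E` fixes `z`. -/
def Fix (E : Subgroup (GM R)) : Prop := ∀ f : Equiv.Perm (GM R), PIso F f E E → f P.z = P.z

/-- The automizer of `E` normalizes `⟨x c⟩`. -/
def FixX (E : Subgroup (GM R)) (c : Bool) : Prop :=
  ∀ f : Equiv.Perm (GM R), PIso F f E E → f (P.xG c) = P.xG c ∨ f (P.xG c) = (P.xG c)⁻¹

/-- Essential subgroups moving `z`. -/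
def G3a : Prop := ∀ E c, F.IsEssential 2 E → ¬ P.Fix F E → P.xG c ∈ E → E = TG

/-- An essential subgroup contains one of the elements `x c`. -/
def G3b : Prop := ∀ E, F.IsEssential 2 E → ∃ c, P.xG c ∈ E

/-- Essential subgroups fixing `z`, first part. -/
def G4a : Prop := ∀ E, F.IsEssential 2 E → P.Fix F E →
  (∀ c, P.xG c ∈ E) ∧ (¬ ∀ c, P.FixX F E c) ∧ ∀ c, P.FixX F E c →
    (∀ f : Equiv.Perm (GM R), PIso F f E E → ∀ y ∈ E, y ∈ P.RG c → f y ∈ P.RG c) → P.RG c ≤ E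

/-- The extraspecial group of order 32 is not essential. -/
def G4b : Prop := ∀ c, ∀ y ∈ P.RG c, y ∉ HG → ∀ y' ∈ P.RG (!c), y' ∉ HG →
  ¬ F.IsEssential 2 (P.QG c y ⊔ P.QG (!c) y')

/-- The essential subgroups. -/
def GCls : Prop := ∀ E, F.IsEssential 2 E →
  (E = TG ∧ ¬ P.Fix F TG) ∨ ∃ c, ∃ y ∈ P.RG c, y ∉ HG ∧ E = P.EG c y

/-- Invariant subgroups of `EG c y`. -/
def GInv : Prop := ∀ c, ∀ y ∈ P.RG c, y ∉ HG →
  ∀ f : Equiv.Perm (GM R), PIso F f (P.EG c y) (P.EG c y) → f P.z = P.z ∧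
    (∀ u ∈ P.QG c y, f u ∈ P.QG c y) ∧ ∀ v ∈ P.RG (!c), f v ∈ P.RG (!c) ∧ v⁻¹ * f v ∈ HG

/-- Rigidity of the automizer of `EG c y`. -/
def GRig : Prop := ∀ c, ∀ y ∈ P.RG c, y ∉ HG →
  Rk2.OHas (F'.autGroup (P.EG c y)) → Rk2.OLe (F.autGroup (P.EG c y)) (F'.autGroup (P.EG c y))

/-- The groups `EG c y` have automorphisms of odd order in the system. -/
def GHas : Prop := ∀ c, ∀ y ∈ P.RG c, y ∉ HG → Rk2.OHas (F.autGroup (P.EG c y))

/-- Saturated, perfect and without central involution. -/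
structure Good : Prop where
  sat : F.IsSaturated 2
  foc : ⊤ ≤ F.focalSubgroup
  mv : ∃ w, w ≠ P.z ∧ F.IsConjElt P.z w

end Par8

/-- The automorphisms of the whole group in the system are inner. -/
def GTop (F : FusionSystem (⊤ : Subgroup (GM R))) : Prop :=
  ∀ f : Equiv.Perm (GM R), PIso F f ⊤ ⊤ → ∃ s, ∀ y, f y = s * y * s⁻¹

/-- An automorphism of order three of `TG` inverted by `s`. -/
def GRho (F : FusionSystem (⊤ : Subgroup (GM R))) : Prop :=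
  ∃ ρ : Equiv.Perm (GM R), PIso F ρ TG TG ∧ (∀ y ∈ (HG : Subgroup (GM R)), ρ y ∈ HG) ∧
    (∀ y ∈ (HG : Subgroup (GM R)), ρ y = y → y = 1) ∧
    (∀ y ∈ (TG : Subgroup (GM R)), ρ (ρ (ρ y)) = y) ∧
    ∃ t ∈ (HG : Subgroup (GM R)), ∀ y ∈ (TG : Subgroup (GM R)),
      s * ρ (s * ρ y * s⁻¹) * s⁻¹ = t * y * t⁻¹

/-- Normal form of the automizer of `TG`. -/
def GN (F : FusionSystem (⊤ : Subgroup (GM R))) : Prop :=
  ∃ φ : GM R ≃* GM R, (∀ y, φ y ∈ (TG : Subgroup (GM R)) ↔ y ∈ (TG : Subgroup (GM R))) ∧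
    Mor F TG fun y => φ (rho0 (φ.symm y))

/-- A finite group without subgroup of index two, with Sylow 2-subgroup `GM R`, moving `z`. -/
def GEmb (P : Par8 R) (G : Type*) [Group G] : Prop :=
  ∃ E : Rank2.SylEmb (GM R) G, (∀ H : Subgroup G, H.index ≠ 2) ∧
    ∃ t, t ≠ P.z ∧ IsConj (E.j P.z) (E.j t)

end Two

theorem BB_eq_1' : type_of% @BB.eq_1 := @BB.eq_1
theorem PSq_eq_1' : type_of% @PSq.eq_1 := @PSq.eq_1
theorem PDi_eq_1' : type_of% @PDi.eq_1 := @PDi.eq_1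
theorem PX2_eq_1' : type_of% @PX2.eq_1 := @PX2.eq_1
theorem PX_eq_1' : type_of% @PX.eq_1 := @PX.eq_1
theorem PG_eq_1' : type_of% @PG.eq_1 := @PG.eq_1
theorem PA_eq_1' : type_of% @PA.eq_1 := @PA.eq_1
theorem PD_eq_1' : type_of% @PD.eq_1 := @PD.eq_1
theorem PZ_eq_1' : type_of% @PZ.eq_1 := @PZ.eq_1
theorem PC_eq_1' : type_of% @PC.eq_1 := @PC.eq_1
theorem RealBy_eq_1' : type_of% @RealBy.eq_1 := @RealBy.eq_1
theorem zmod_eq_1' : type_of% @Par8.zmod.eq_1 := @Par8.zmod.eq_1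
theorem sn_eq_1' : type_of% @sn.eq_1 := @sn.eq_1
theorem HG_eq_1' : type_of% @HG.eq_1 := @HG.eq_1
theorem TG_eq_1' : type_of% @TG.eq_1 := @TG.eq_1
theorem rho0_eq_1' : type_of% @rho0.eq_1 := @rho0.eq_1
theorem RG_eq_1' : type_of% @Par8.RG.eq_1 := @Par8.RG.eq_1
theorem GOdd_eq_1' : type_of% @Par8.GOdd.eq_1 := @Par8.GOdd.eq_1
theorem GStab_eq_1' : type_of% @Par8.GStab.eq_1 := @Par8.GStab.eq_1
theorem GX_eq_1' : type_of% @Par8.GX.eq_1 := @Par8.GX.eq_1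
theorem GY_eq_1' : type_of% @Par8.GY.eq_1 := @Par8.GY.eq_1
theorem Fix_eq_1' : type_of% @Par8.Fix.eq_1 := @Par8.Fix.eq_1
theorem FixX_eq_1' : type_of% @Par8.FixX.eq_1 := @Par8.FixX.eq_1
theorem G3a_eq_1' : type_of% @Par8.G3a.eq_1 := @Par8.G3a.eq_1
theorem G3b_eq_1' : type_of% @Par8.G3b.eq_1 := @Par8.G3b.eq_1
theorem G4a_eq_1' : type_of% @Par8.G4a.eq_1 := @Par8.G4a.eq_1
theorem G4b_eq_1' : type_of% @Par8.G4b.eq_1 := @Par8.G4b.eq_1
theorem GCls_eq_1' : type_of% @Par8.GCls.eq_1 := @Par8.GCls.eq_1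
theorem GInv_eq_1' : type_of% @Par8.GInv.eq_1 := @Par8.GInv.eq_1
theorem GRig_eq_1' : type_of% @Par8.GRig.eq_1 := @Par8.GRig.eq_1
theorem GHas_eq_1' : type_of% @Par8.GHas.eq_1 := @Par8.GHas.eq_1
theorem GTop_eq_1' : type_of% @GTop.eq_1 := @GTop.eq_1
theorem GRho_eq_1' : type_of% @GRho.eq_1 := @GRho.eq_1
theorem GN_eq_1' : type_of% @GN.eq_1 := @GN.eq_1
theorem GEmb_eq_1' : type_of% @GEmb.eq_1 := @GEmb.eq_1

end Cfsg.Lib.WQ
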