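import Cfsg.Agent.WQ.Defs

/-! Arithmetic in `GM R`, first part. -/

set_option autoImplicit false
set_option linter.unusedSectionVars false

namespace Cfsg.Lib.WQ

open Cfsg Cfsg.FusionSystem Subgroup Cfsg.Lib.Fus G2T G2T.GM

variable {R : Type} [CommRing R] [Finite R] {P : Par8 R}
  {F F' : FusionSystem (⊤ : Subgroup (GM R))}

namespace G0a

variable (P)

theorem rq {m : R} (h : m + m = P.h) : m = P.q ∨ m = -P.q :=
  P.eq_q (by rw [h, P.hh]) (by rw [h]; exact P.h_ne)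

theorem sq_mem (y : GM R) : y * y ∈ (HG : Subgroup (GM R)) := ⟨by simp [mul_e], by simp [mul_f]⟩

theorem rootH : ∀ y ∈ (HG : Subgroup (GM R)), y * y = P.z → ∃ c, y = P.xG c ∨ y = (P.xG c)⁻¹ := by
  rintro ⟨i, k, e, f⟩ ⟨rfl, rfl⟩ h
  simp only [mul_def, cond_false, GM.mk.injEq] at h
  rcases rq P h.1 with rfl | rfl <;> rcases rq P h.2.1 with rfl | rfl
  exacts [⟨true, .inl (by simp)⟩, ⟨false, .inl (by simp)⟩, ⟨false, .inr (by simp [inv_def])⟩,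
    ⟨true, .inr (by simp [inv_def])⟩]

theorem x_mem (c : Bool) : P.xG c ∈ P.RG c := .inl ⟨rfl, rfl, rfl⟩

theorem root (y : GM R) (h : y * y = P.z) : ∃ c, y ∈ P.RG c := by
  rcases y with ⟨i, k, _ | _, _ | _⟩
  · obtain ⟨c, e | e⟩ := rootH P _ ⟨rfl, rfl⟩ h <;> rw [e]
    exacts [⟨c, x_mem P c⟩, ⟨c, inv_mem (x_mem P c)⟩]
  · simp [mul_def] at h
    exact absurd h.symm P.h_ne
  · simp [mul_def] at h
    exact ⟨false, .inr ⟨rfl, rfl, by simp [h.1]⟩⟩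
  · simp [mul_def] at h
    exact ⟨true, .inr ⟨rfl, rfl, by simp [← h.1, sub_eq_add_neg]⟩⟩

theorem of_H {c : Bool} {y : GM R} (h : y ∈ P.RG c) (h' : y ∈ HG) : ∃ i, y = A i (sn c * i) := by
  rcases y with ⟨i, k, e, f⟩
  obtain ⟨rfl, rfl⟩ := h'
  rcases h with ⟨-, -, h⟩ | ⟨h, -⟩
  exacts [⟨i, by rw [← h]⟩, absurd h (by simp)]

theorem of_nH {c : Bool} {y : GM R} (h : y ∈ P.RG c) (h' : y ∉ HG) :
    ∃ k, y = ⟨P.h + sn c * k, k, true, c⟩ := by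
  rcases y with ⟨i, k, e, f⟩
  rcases h with ⟨h1, h2, -⟩ | ⟨rfl, rfl, h⟩
  exacts [absurd ⟨h1, h2⟩ h', ⟨k, by rw [← h, sub_add_cancel]⟩]

theorem of_R {c : Bool} {y : GM R} (h : y ∈ P.RG c) :
    (∃ i, y = A i (sn c * i)) ∨ ∃ k, y = ⟨P.h + sn c * k, k, true, c⟩ :=
  (em (y ∈ HG)).imp (of_H P h) (of_nH P h)

theorem rootR (c : Bool) : ∀ y ∈ P.RG c, y ∈ HG → y * y = P.z → y = P.xG c ∨ y = (P.xG c)⁻¹ := by
  intro y h1 h2 h
  obtain ⟨i, rfl⟩ := of_H P h1 h2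
  simp only [mul_def, cond_false, GM.mk.injEq] at h
  rcases rq P h.1 with rfl | rfl
  exacts [.inl rfl, .inr (by simp [inv_def])]

theorem out_sq (c : Bool) : ∀ y ∈ P.RG c, y ∉ HG → y * y = P.z := by
  intro y h1 h2
  obtain ⟨k, rfl⟩ := of_nH P h1 h2
  cases c <;> simp [mul_def, P.neg_h]

theorem out_x (c : Bool) : ∀ y ∈ P.RG c, y ∉ HG → y * P.xG c * y⁻¹ = (P.xG c)⁻¹ := by
  intro y h1 h2
  obtain ⟨k, rfl⟩ := of_nH P h1 h2
  cases c <;> simp [mul_def, inv_def] <;> ring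

theorem x_conj (c : Bool) (g : GM R) : g * P.xG c * g⁻¹ = P.xG c ∨ g * P.xG c * g⁻¹ = (P.xG c)⁻¹ := by
  rcases g with ⟨i, k, _ | _, _ | _⟩ <;> cases c <;> simp [mul_def, inv_def]

theorem comm (c : Bool) : ∀ u ∈ P.RG c, ∀ v ∈ P.RG (!c), u * v = v * u := by
  intro u hu v hv
  rcases of_R P hu with ⟨i, rfl⟩ | ⟨i, rfl⟩ <;> rcases of_R P hv with ⟨k, rfl⟩ | ⟨k, rfl⟩ <;>
    cases c <;> simp [mul_def, P.neg_h] <;> (try constructor) <;> ring

theorem inf (c : Bool) : ∀ u ∈ P.RG c, u ∈ P.RG (!c) → u = 1 ∨ u = P.z := by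
  intro u hu hv
  rcases of_R P hu with ⟨i, rfl⟩ | ⟨i, rfl⟩
  · obtain ⟨k, e⟩ := of_H P hv ⟨rfl, rfl⟩
    have : i + i = 0 := by
      cases c <;> simp at e
      exacts [by linear_combination e.1 - e.2, by linear_combination e.1 + e.2]
    rcases P.eq_h i this with rfl | rfl
    exacts [.inl (by simp [one_def]), .inr (by cases c <;> simp [P.neg_h])]
  · rcases hv with ⟨h, -⟩ | ⟨-, h, -⟩ <;> simp at h

theorem commH : ∀ u ∈ (HG : Subgroup (GM R)), ∀ v ∈ (HG : Subgroup (GM R)), u * v = v * u := by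
  rintro ⟨i, k, e, f⟩ ⟨rfl, rfl⟩ ⟨i', k', e', f'⟩ ⟨rfl, rfl⟩
  simp [mul_def, add_comm]

theorem centx (g : GM R) : (∀ c, g * P.xG c = P.xG c * g) ↔ g ∈ (HG : Subgroup (GM R)) := by
  refine ⟨fun h => ?_, fun h c => commH g h _ ⟨rfl, rfl⟩⟩
  have h1 := h false
  have h2 := h true
  have := P.q_ne
  rcases g with ⟨i, k, _ | _, _ | _⟩ <;> simp [mul_def, add_comm, mem_HG] at h1 h2 ⊢
  exacts [this h2.symm, this h1.1.symm, this h2.symm]

include P in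
theorem centH (g : GM R) (h : ∀ u ∈ (HG : Subgroup (GM R)), g * u = u * g) :
    g ∈ (HG : Subgroup (GM R)) := (centx P g).1 fun _ => h _ ⟨rfl, rfl⟩

theorem invH : ∀ y ∈ (HG : Subgroup (GM R)), y * y = 1 →
    y = 1 ∨ y = P.z ∨ y = A P.h 0 ∨ y = A 0 P.h := by
  rintro ⟨i, k, e, f⟩ ⟨rfl, rfl⟩ h
  simp only [mul_def, one_def, cond_false, GM.mk.injEq] at h
  rcases P.eq_h i h.1 with rfl | rfl <;> rcases P.eq_h k h.2.1 with rfl | rfl <;> simp [one_def]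

theorem invT : ∀ t ∈ (TG : Subgroup (GM R)), t ∉ HG →
    t * t = 1 ∧ ∀ u ∈ (HG : Subgroup (GM R)), t * u * t⁻¹ = u⁻¹ := by
  rintro ⟨i, k, e, _ | _⟩ rfl h
  · exact absurd ⟨rfl, rfl⟩ h
  · refine ⟨by simp [mul_def, one_def], ?_⟩
    rintro ⟨i', k', e', f'⟩ ⟨rfl, rfl⟩
    simp [mul_def, inv_def]

theorem normR (c : Bool) : (P.RG c).Normal := ⟨fun u hu g => by
  rcases of_R P hu with ⟨i, rfl⟩ | ⟨i, rfl⟩ <;> rcases g with ⟨a, b, _ | _, _ | _⟩ <;> cases c <;>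
    simp [mul_def, inv_def, P.mem_RG] <;> first | ring1 | linear_combination -P.hh⟩

theorem cyc (c : Bool) : ∀ y ∈ P.RG c, y ∈ HG → y ∈ zpowers (A 1 (sn c) : GM R) := by
  intro y h1 h2
  obtain ⟨i, rfl⟩ := of_H P h1 h2
  obtain ⟨n, rfl⟩ := P.nat i
  have : ∀ n : ℕ, (A 1 (sn c) : GM R) ^ n = A (n : R) (sn c * n) := fun n => by
    induction n with
    | zero => simp [one_def]
    | succ n ih => rw [pow_succ, ih]; simp [mul_def, mul_add]
  exact this n ▸ pow_mem (mem_zpowers _) n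

theorem mapH (E : Subgroup (GM R)) (hE : E ≤ TG) (hu : ∃ u ∈ E, u * u ≠ 1) (f : GM R → GM R)
    (hf : MulOn E f) (hi : Set.InjOn f E) (hT : ∀ y ∈ E, f y ∈ TG) :
    ∀ y ∈ E, y ∈ HG → f y ∈ HG := by
  obtain ⟨u, hu, n⟩ := hu
  have k : ∀ y ∈ E, y * y ≠ 1 → f y ∈ HG := fun y hy n => by
    by_contra a
    exact n (hi (mul_mem hy hy) (one_mem E) (by rw [hf y hy y hy, (invT _ (hT y hy) a).1, hf.map_one]))
  intro y hy hH
  by_cases e : y * y = 1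
  · have uH : u ∈ HG := by_contra fun a => n (invT _ (hE hu) a).1
    have := k _ (mul_mem hy hu) (by
      rwa [mul_assoc, ← mul_assoc u, commH u uH y hH, mul_assoc, ← mul_assoc, e, one_mul])
    rw [hf y hy u hu] at this
    exact (mul_mem_cancel_right (k u hu n)).1 this
  · exact k y hy e

end G0a

open G0a in
theorem g0a (P : Par8 R) : P.B1 where
  sq_mem := sq_mem
  root := root P
  rootH := rootH P
  rootR := rootR P
  out_sq := out_sq P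
  out_x := out_x P
  x_mem := x_mem P
  x_sq c := by cases c <;> simp [mul_def, P.qq, ← neg_add, P.neg_h]
  x_ne c e := P.q_ne (congrArg GM.i e)
  x_conj := x_conj P
  x_root c := ⟨A P.r (sn c * P.r), .inl ⟨rfl, rfl, rfl⟩, ⟨rfl, rfl⟩, by
    simp [mul_def, ← mul_add, P.rr]⟩
  b_mem c := .inr ⟨rfl, rfl, by simp⟩
  z_mem c := .inl ⟨rfl, rfl, by cases c <;> simp [P.neg_h]⟩
  comm := comm P
  inf := inf P
  centx := centx P
  commH := commH
  centH := centH P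
  invH := invH P
  invT := invT
  normH := ⟨fun u hu g => ⟨by simp [mul_e, inv_e, hu.1], by simp [mul_f, inv_f, hu.2]⟩⟩
  normT := ⟨fun u hu g => by simp [mem_TG, mul_e, inv_e, mem_TG.1 hu]⟩
  normR := normR P
  cyc := cyc P
  mapH := mapH

end Cfsg.Lib.WQ
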