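import Cfsg.Agent.WQ.G0a
import Cfsg.Agent.Solv.Quaternion

/-! Arithmetic in `GM R`, second part. -/

set_option autoImplicit false
set_option linter.unusedSectionVars false

namespace Cfsg.Lib.WQ

open Cfsg Cfsg.FusionSystem Subgroup Cfsg.Lib.Fus G2T G2T.GM

variable {R : Type} [CommRing R] [Finite R] {P : Par8 R}
  {F F' : FusionSystem (⊤ : Subgroup (GM R))}

namespace G0b

variable {c : Bool} {y g : GM R}

theorem cl (h1 : y ∈ P.RG c) (h2 : y ∉ HG) (e : g * y = y * g) :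
    g ∈ P.RG (!c) ∨ g * y⁻¹ ∈ P.RG (!c) := by
  obtain ⟨k, rfl⟩ := G0a.of_nH P h1 h2
  rcases g with ⟨a, b, _ | _, _ | _⟩ <;> cases c <;> simp [mul_def, inv_def, P.mem_RG] at e ⊢ <;>
    first | linear_combination e.1 | linear_combination e.2

theorem xQ (c : Bool) (y : GM R) : P.xG c ∈ P.QG c y := subset_closure (by simp)

theorem yQ (c : Bool) (y : GM R) : y ∈ P.QG c y := subset_closure (by simp)

theorem leQ (h : P.B1) (hy : y ∈ P.RG c) : P.QG c y ≤ P.RG c :=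
  (closure_le _).2 (Set.insert_subset (h.x_mem c) (Set.singleton_subset_iff.2 hy))

theorem memE (h : P.B1) : g ∈ P.EG c y ↔ ∃ u ∈ P.QG c y, ∃ v ∈ P.RG (!c), g = u * v := by
  have := h.normR (!c)
  simp only [Par8.EG, mem_sup_of_normal_right, eq_comm]

theorem centE (h1 : y ∈ P.RG c) (h2 : y ∉ HG) (e : g * y = y * g) : g ∈ P.EG c y :=
  (cl h1 h2 e).elim mem_sup_right fun k =>
    (mul_mem_cancel_right (inv_mem (mem_sup_left (yQ c y)))).1 (mem_sup_right k)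

theorem xy (h : P.B1) (h1 : y ∈ P.RG c) (h2 : y ∉ HG) : P.xG c * y⁻¹ * (P.xG c)⁻¹ = y := by
  have a := h.out_x c _ (inv_mem h1) (mt inv_mem_iff.1 h2)
  calc _ = P.xG c * (y⁻¹ * P.xG c * y⁻¹⁻¹)⁻¹ * y⁻¹ := by group
    _ = y := by rw [a, inv_inv, h.x_sq, ← h.out_sq c y h1 h2, mul_inv_cancel_right]

theorem QG_eq (c : Bool) (y : GM R) : P.QG c y = zpowers (P.xG c) ⊔ zpowers y := by
  rw [zpowers_eq_closure, zpowers_eq_closure, ← Subgroup.closure_union]; rfl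

theorem memQ (h : P.B1) (h1 : y ∈ P.RG c) (h2 : y ∉ HG) :
    g ∈ P.QG c y ↔ ∃ i : ℤ, g = P.xG c ^ i ∨ g = P.xG c ^ i * y := by
  refine ⟨fun hg => ?_, ?_⟩
  · have a : y * P.xG c = (P.xG c)⁻¹ * y := mul_inv_eq_iff_eq_mul.1 (h.out_x c y h1 h2)
    have b : y * y = P.xG c * P.xG c := (h.out_sq c y h1 h2).trans (h.x_sq c).symm
    induction hg using closure_induction_right with
    | one => exact ⟨0, .inl (zpow_zero _).symm⟩
    | mul_right g _ d hd ih =>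
      obtain ⟨i, rfl | rfl⟩ := ih <;> rcases hd with rfl | rfl
      exacts [⟨i + 1, .inl (by group)⟩, ⟨i, .inr rfl⟩, ⟨i - 1, .inr (by rw [mul_assoc, a]; group)⟩,
        ⟨i + 2, .inl (by rw [mul_assoc, b]; group)⟩]
    | mul_inv_cancel g _ d hd ih =>
      obtain ⟨i, rfl | rfl⟩ := ih <;> rcases hd with rfl | rfl
      exacts [⟨i - 1, .inl (by group)⟩,
        ⟨i - 2, .inr (by rw [mul_inv_eq_iff_eq_mul, mul_assoc, b]; group)⟩,
        ⟨i + 1, .inr (by rw [mul_inv_eq_iff_eq_mul, mul_assoc, a]; group)⟩,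
        ⟨i, .inl (by group)⟩]
  · rintro ⟨i, rfl | rfl⟩
    exacts [zpow_mem (xQ c y) i, mul_mem (zpow_mem (xQ c y) i) (yQ c y)]

theorem xH (c : Bool) (i : ℤ) : P.xG c ^ i ∈ (HG : Subgroup (GM R)) := HG.zpow_mem ⟨rfl, rfl⟩ i

theorem out (h : P.B1) (h1 : y ∈ P.RG c) (h2 : y ∉ HG) : ∃ u ∈ P.RG c, u ∉ P.QG c y ∧
    (∃ k, u ^ 2 ^ k = 1) ∧ ∀ g ∈ P.QG c y, u * g * u⁻¹ ∈ P.QG c y := by
  obtain ⟨u, u1, u2, u3⟩ := h.x_root c
  refine ⟨u, u1, fun e => ?_, P.pg u, fun g hg => ?_⟩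
  · obtain ⟨i, e | e⟩ := (memQ h h1 h2).1 e
    · refine P.z_ne_one ?_
      have : P.xG c * P.xG c = (P.xG c * P.xG c * (P.xG c * P.xG c)) ^ i := by
        have k := Commute.refl (P.xG c)
        rw [(Commute.refl _).mul_zpow, k.mul_zpow, ← e, u3]
      rwa [h.x_sq, P.z_mul_z, one_zpow] at this
    · exact h2 ((mul_mem_cancel_left (xH c i)).1 (e ▸ u2))
  · have a : ∀ i : ℤ, u * P.xG c ^ i * u⁻¹ = P.xG c ^ i := fun i =>
      mul_inv_eq_iff_eq_mul.2 (h.commH u u2 _ (xH c i))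
    have b : u * y * u⁻¹ = P.xG c * y := by
      rw [← u3]
      obtain ⟨k, rfl⟩ := G0a.of_nH P h1 h2
      obtain ⟨i, rfl⟩ := G0a.of_H P u1 u2
      cases c <;> simp [mul_def, inv_def] <;> constructor <;> ring
    obtain ⟨i, rfl | rfl⟩ := (memQ h h1 h2).1 hg
    · rw [a]; exact hg
    · rw [← conj_mul, a, b]
      exact mul_mem (zpow_mem (xQ c y) i) (mul_mem (xQ c y) (yQ c y))

end G0b

open G0b in
theorem g0b (h : P.B1) : P.B2 where
  cent c y h1 h2 g a b := (cl h1 h2 b).resolve_right fun k => h.x_ne c (by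
    have : Commute y (P.xG c) := by
      simpa using (Commute.inv_left (h.comm c _ (h.x_mem c) _ k).symm).mul_left a
    rw [← h.out_x c y h1 h2, this.eq, mul_inv_cancel_right])
  norm c y h1 h2 g a := a.elim (fun a => centE h1 h2 (mul_inv_eq_iff_eq_mul.1 a)) fun a =>
    (mul_mem_cancel_left (mem_sup_left (xQ c y))).1 (centE h1 h2 (mul_inv_eq_iff_eq_mul.1 (by
      rw [show P.xG c * g * y * (P.xG c * g)⁻¹ = P.xG c * (g * y * g⁻¹) * (P.xG c)⁻¹ by group, a,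
        xy h h1 h2])))
  conj c y h1 h2 y' h3 h4 := by
    obtain ⟨k, rfl⟩ := G0a.of_nH P h1 h2
    obtain ⟨l, rfl⟩ := G0a.of_nH P h3 h4
    exact ⟨A 0 (l - k), ⟨rfl, rfl⟩, by cases c <;> simp [mul_def, inv_def] <;> ring⟩
  memQ _ _ h1 h2 _ := memQ h h1 h2
  leQ _ _ := leQ h
  memE _ _ _ _ := memE h
  infE c y h1 g a b := by
    obtain ⟨u, hu, v, hv, rfl⟩ := (memE h).1 a
    rcases h.inf c v ((mul_mem_cancel_left (leQ h h1 hu)).1 b) hv with rfl | rfl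
    exacts [by rwa [mul_one], mul_mem hu (h.x_sq c ▸ mul_mem (xQ c y) (xQ c y))]
  q8 c y h1 h2 := by
    rw [QG_eq]
    refine Solv.PG.nonempty_sup_mulEquiv_quaternionGroup
      (orderOf_eq_prime_pow (p := 2) (n := 1) (by rw [pow_one, pow_two, h.x_sq]; exact P.z_ne_one)
        (by rw [show 2 ^ (1 + 1) = 2 * 2 from rfl, pow_mul, pow_two (P.xG c), h.x_sq, pow_two,
          P.z_mul_z]))
      (by rw [pow_two, h.x_sq, h.out_sq c y h1 h2]) (h.out_x c y h1 h2) ?_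
    rintro ⟨i, rfl⟩
    exact h2 (xH c i)
  out _ _ := out h

end Cfsg.Lib.WQ
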