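import Cfsg.Agent.WQ.Defs

/-! The automorphisms of the Sylow subgroup in the system are inner. -/

set_option autoImplicit false

namespace Cfsg.Lib.WQ

open Cfsg Cfsg.FusionSystem Subgroup Cfsg.Lib.Fus G2T G2T.GM

variable {R : Type} [CommRing R] [Finite R] {P : Par8 R}
  {F F' : FusionSystem (⊤ : Subgroup (GM R))}

namespace G1

omit [Finite R] in
theorem x_false (P : Par8 R) : P.xG false = P.x₁ := by simp [Par8.xG, Par.x₁]

omit [Finite R] in
theorem x_true (P : Par8 R) : P.xG true = P.x₂ := by simp [Par8.xG, Par.x₂]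

omit [Finite R] in
theorem not_both (h : P.B1) {c : Bool} {u : GM R} (hu : u * u = P.z) (h1 : u ∈ P.RG c)
    (h2 : u ∈ P.RG (!c)) : False := by
  rcases h.inf c u h1 h2 with rfl | rfl
  · exact P.z_ne_one (by rw [← hu, one_mul])
  · exact P.z_ne_one (by rw [← hu]; exact P.z_mul_z)

omit [Finite R] in
theorem top (h : P.B1) (hs : P.GStab F) (hN : F.IsFullyNormalized ⊤) : GTop F := by
  have hz : ∀ f : Equiv.Perm (GM R), PIso F f ⊤ ⊤ → f P.z = P.z := by
    intro f hf
    have hc : f P.z ∈ center (GM R) := by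
      refine mem_center_iff.2 fun g => ?_
      have h1 := hf.map_mul (x := P.z) (y := f⁻¹ g) trivial trivial
      have h2 := hf.map_mul (x := f⁻¹ g) (y := P.z) trivial trivial
      rw [perm_apply_inv] at h1 h2
      rw [← h1, ← h2, P.z_comm]
    rcases P.eq_of_mem_center hc with e | e
    · exact absurd ((hf.mor.eq_one_iff (x := P.z) trivial).1 e) P.z_ne_one
    · exact e
  have hx : ∀ f : Equiv.Perm (GM R), PIso F f ⊤ ⊤ → ∀ c, ∃ c', f (P.xG c) = P.xG c' ∨
      f (P.xG c) = (P.xG c')⁻¹ := by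
    intro f hf c
    have h1 : f (P.xG c) * f (P.xG c) = P.z := by
      rw [← hf.map_mul trivial trivial, h.x_sq, hz f hf]
    have h2 : ∀ g, g * f (P.xG c) * g⁻¹ = f (P.xG c) ∨
        g * f (P.xG c) * g⁻¹ = (f (P.xG c))⁻¹ := by
      intro g
      have e : f (f⁻¹ g * P.xG c * (f⁻¹ g)⁻¹) = g * f (P.xG c) * g⁻¹ := by
        rw [hf.map_mul trivial trivial, hf.map_mul trivial trivial, hf.mor.map_inv trivial,
          perm_apply_inv]
      rw [← e]
      rcases h.x_conj c (f⁻¹ g) with e' | e'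
      · exact Or.inl (by rw [e'])
      · exact Or.inr (by rw [e', hf.mor.map_inv trivial])
    rcases P.eq_of_conj h1 h2 with e | e
    · exact ⟨false, by rwa [x_false]⟩
    · exact ⟨true, by rwa [x_true]⟩
  have hH : ∀ f : Equiv.Perm (GM R), PIso F f ⊤ ⊤ → ∀ y ∈ (HG : Subgroup (GM R)), f y ∈ HG := by
    intro f hf y hy
    refine (h.centx _).1 fun c => ?_
    obtain ⟨c', e⟩ := hx f⁻¹ hf.symm c
    have hyc : y * f⁻¹ (P.xG c) = f⁻¹ (P.xG c) * y := by
      have h0 : Commute y (P.xG c') := (h.centx y).2 hy c'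
      rcases e with e | e <;> rw [e]
      exacts [h0.eq, h0.inv_right.eq]
    have := congrArg f hyc
    rwa [hf.map_mul trivial trivial, hf.map_mul trivial trivial, perm_apply_inv] at this
  intro f hf
  obtain ⟨s, hs⟩ := hs ⊤ le_top hN hH f hf (hz f hf)
  exact ⟨s, fun y => hs y trivial⟩

omit [Finite R] in
theorem le_norm (h : P.B1) (c : Bool) :
    (⊤ : Subgroup (GM R)) ≤ normalizer (zpowers (P.xG c) : Set (GM R)) := by
  have : (zpowers (P.xG c)).Normal := by
    refine ⟨?_⟩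
    rintro _ ⟨k, rfl⟩ g
    have e : g * P.xG c ^ k * g⁻¹ = (g * P.xG c * g⁻¹) ^ k := conj_zpow.symm
    change g * P.xG c ^ k * g⁻¹ ∈ _
    rw [e]
    refine zpow_mem ?_ k
    rcases h.x_conj c g with e | e <;> rw [e]
    exacts [mem_zpowers _, inv_mem (mem_zpowers _)]
  exact normalizer_eq_top (zpowers (P.xG c)) ▸ le_rfl

end G1

open G1 in
theorem g1 (h : P.B1) (hF : F.IsSaturated 2) (hs : P.GStab F) : GTop F ∧ P.GX F := by
  have ht : GTop F := top h hs (isFullyNormalized_top F)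
  refine ⟨ht, fun c y hy hyH hy2 => ?_⟩
  obtain ⟨c', e⟩ := h.rootH y hyH hy2
  by_cases hc : c' = c
  · rwa [hc] at e
  exfalso
  obtain rfl : c' = !c := by cases c <;> cases c' <;> simp_all
  have hzp : zpowers y = zpowers (P.xG (!c)) := by
    rcases e with rfl | rfl
    exacts [rfl, zpowers_inv]
  have h1 := isConjElt_isConj hy
  rw [hzp] at h1
  obtain ⟨f, hf⟩ := isConj_iff_piso.1 h1
  obtain ⟨g, hg, hg'⟩ := sat_normalizer_mor (P.pg.to_subgroup _) hF hf
    (isFullyNormalized_of_le_normalizer le_top (le_norm h _))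
  rw [normalizerIn_eq_of_le (le_norm h c)] at hg
  have hgt : PIso F g ⊤ ⊤ := ⟨hg, fun _ => Iff.rfl⟩
  obtain ⟨s, hs⟩ := ht g hgt
  refine not_both h (c := c) (u := g (P.xG c)) ?_ ?_ ?_
  · rw [hs, conj_mul, h.x_sq, P.z_comm s, mul_inv_cancel_right]
  · rw [hs]; exact (h.normR c).conj_mem _ (h.x_mem c) s
  · exact zpowers_le.2 (h.x_mem _) (hg'.maps (mem_zpowers _))

end Cfsg.Lib.WQ
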