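import Cfsg.Agent.WQ.Defs

/-!
# Good systems over `GM R` are unique up to automorphism
-/

set_option autoImplicit false

namespace Cfsg.Lib.WQ

open Cfsg Cfsg.FusionSystem Subgroup Cfsg.Lib.Fus

open G2T G2T.GM

variable {R : Type} [CommRing R] [Finite R] {P : Par8 R}
  {F F' : FusionSystem (⊤ : Subgroup (GM R))}

namespace G10a

theorem good {Ω : Type*} [Group Ω] {S : Subgroup Ω} [Finite S] {D : FusionSystem S}
    (hD : D.IsSaturated 2) (foc : S ≤ D.focalSubgroup) (e : S ≃* GM R)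
    (mv : ∃ w, w ≠ (e.symm P.z : Ω) ∧ D.IsConjElt (e.symm P.z : Ω) w) :
    ∃ N : FusionSystem (⊤ : Subgroup (GM R)), FImg D N (extFun e.toMonoidHom) ∧ P.Good N := by
  have : Fact (Nat.Prime 2) := ⟨Nat.prime_two⟩
  have inj : Set.InjOn (extFun e.toMonoidHom) S := fun x hx y hy h => by
    rw [extFun_of_mem _ hx, extFun_of_mem _ hy] at h
    exact congrArg Subtype.val (e.injective h)
  have ev : ∀ y, extFun e.toMonoidHom (e.symm y : Ω) = y := fun y =>
    (extFun_coe _ _).trans (e.apply_symm_apply y)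
  have top : img S (extFun e.toMonoidHom) = ⊤ := eq_top_iff.2 fun y _ =>
    ev y ▸ mem_img_of_mem _ (e.symm y).2
  obtain ⟨N, hN⟩ : ∃ N : FusionSystem (⊤ : Subgroup (GM R)), FImg D N (extFun e.toMonoidHom) := by
    have := exists_fImg_of_injOn D (mulOn_extFun e.toMonoidHom) inj
    rwa [top] at this
  refine ⟨N, hN, hN.saturated (P.pg.of_equiv e.symm) hD, ?_, ?_⟩
  · intro y _
    rw [hN.focal, ← ev y]
    exact mem_img_of_mem _ (foc (e.symm y).2)
  · obtain ⟨w, w1, hw⟩ := mv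
    obtain ⟨f, hf, e1⟩ := isConjElt_iff.1 hw
    obtain ⟨f', hf', e2⟩ := hN.mor _ _ hf
    refine ⟨_, fun h => w1 (inj (isConjElt_mem_right hw) (e.symm P.z).2 (h.trans (ev _).symm)),
      isConjElt_iff.2 ⟨f', hf'.restrict (zpowers_le.2 ?_), ?_⟩⟩
    · have := mem_img_of_mem (extFun e.toMonoidHom) (mem_zpowers (e.symm P.z : Ω))
      rwa [ev] at this
    · rw [← e1, ← e2 _ (mem_zpowers _), ev]

theorem map_z (P : Par8 R) (φ : GM R ≃* GM R) : φ P.z = P.z :=
  (P.eq_of_mem_center (mem_center_iff.2 fun g => by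
    rw [← φ.apply_symm_apply g, ← map_mul, ← map_mul, P.z_comm])).resolve_left fun h =>
      P.z_ne_one (φ.map_eq_one_iff.1 h)

theorem norm (hN : GN F) (h : P.Good F) : ∃ (φ : GM R ≃* GM R) (N : FusionSystem (⊤ : Subgroup (GM R))),
    FImg F N φ.symm ∧ P.Good N ∧ Mor N TG rho0 := by
  obtain ⟨φ, h1, h2⟩ := hN
  obtain ⟨N, k, g⟩ := good (P := P) h.sat h.foc (topEquiv.trans φ.symm) (by
    have : ((topEquiv.trans φ.symm).symm P.z : GM R) = P.z := map_z P φ
    rw [this]; exact h.mv)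
  have k' : FImg F N φ.symm := k.congr fun x hx => extFun_of_mem _ hx
  refine ⟨φ, N, k', g, (k'.mor_of h2 fun x _ => (φ.symm_apply_apply _).symm).restrict fun y hy => ?_⟩
  exact φ.symm_apply_apply y ▸ mem_img_of_mem _ ((h1 y).2 hy)

end G10a

theorem g10a (hN : ∀ F, P.Good F → GN F)
    (hLe : ∀ F F', P.Good F → P.Good F' → Mor F TG rho0 → Mor F' TG rho0 → F ≤ F')
    (h : P.Good F) (h' : P.Good F') : ∃ φ : GM R ≃* GM R, FImg F F' φ := by
  obtain ⟨φ, N, k, g, m⟩ := G10a.norm (hN F h) h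
  obtain ⟨φ', N', k', g', m'⟩ := G10a.norm (hN F' h') h'
  obtain rfl := fus_le_antisymm (hLe _ _ g g' m m') (hLe _ _ g' g m' m)
  obtain ⟨t, ht, -, e, -⟩ := k'.exists_inv φ'.symm.injective.injOn
  exact ⟨φ.symm.trans φ', (k.trans ht).congr fun x _ => by
    have := e (φ' (φ.symm x)) (mem_top _)
    rwa [φ'.symm_apply_apply] at this⟩

end Cfsg.Lib.WQ
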