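import Cfsg.Agent.WQ.G10a

/-!
# Realization of a system over a group isomorphic to `GM R`
-/

set_option autoImplicit false

namespace Cfsg.Lib.WQ

open Cfsg Cfsg.FusionSystem Subgroup Cfsg.Lib.Fus

open G2T G2T.GM

variable {R : Type} [CommRing R] [Finite R] {P : Par8 R}
  {F F' : FusionSystem (⊤ : Subgroup (GM R))}

theorem g10b {Ω : Type*} [Group Ω] {S : Subgroup Ω} [Finite S] {D : FusionSystem S}
    (hD : D.IsSaturated 2) (foc : S ≤ D.focalSubgroup)
    (mv : ∀ z ∈ S, z ≠ 1 → z * z = 1 → ∃ w, w ≠ z ∧ D.IsConjElt z w) (e : S ≃* GM R)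
    {G : Type*} [Group G] [Finite G] (E : Rank2.SylEmb (GM R) G)
    (h' : FImg F' (groupFusionSystem E.j.range) E.j)
    (hU : ∀ F, P.Good F → ∃ φ : GM R ≃* GM R, FImg F F' φ) : RealBy D G := by
  obtain ⟨N, k, g⟩ := G10a.good (P := P) hD foc e (mv _ (e.symm P.z).2
    (fun h => P.z_ne_one (e.symm.map_eq_one_iff.1 (Subtype.ext h)))
    (by rw [← coe_mul, ← map_mul, P.z_mul_z, map_one, coe_one]))
  obtain ⟨φ, hφ⟩ := hU N g
  have r : (Rk2.precomp E (e.trans φ)).j.range = E.j.range :=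
    le_antisymm (by rintro _ ⟨x, rfl⟩; exact ⟨_, rfl⟩) (by
      rintro _ ⟨y, rfl⟩
      exact ⟨(e.trans φ).symm y, congrArg E.j ((e.trans φ).apply_symm_apply y)⟩)
  refine ⟨(Rk2.precomp E (e.trans φ)).j, realized_of_fImg (Rk2.precomp E _).inj ?_,
    Rk2.exists_sylow_eq (P.pg.of_equiv e.symm) _⟩
  rw [r]
  exact ((k.trans hφ).trans h').congr fun x hx => by
    simp only [Function.comp, extFun_of_mem _ hx]; rfl

end Cfsg.Lib.WQ
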