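import Cfsg.Agent.WQ.Defs

/-! The elements of order four of the two quaternion factors are not fused. -/

set_option autoImplicit false
set_option linter.unusedSectionVars false

namespace Cfsg.Lib.WQ

open Cfsg Cfsg.FusionSystem Subgroup Cfsg.Lib.Fus G2T G2T.GM

variable {R : Type} [CommRing R] [Finite R] {P : Par8 R}
  {F F' : FusionSystem (⊤ : Subgroup (GM R))}

namespace G2

theorem piso {U : Subgroup (GM R)} {f : Equiv.Perm (GM R)} (hf : Mor F U f) {a : GM R} (ha : a ∈ U) :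
    PIso F f (zpowers a) (zpowers (f a)) :=
  img_zpowers hf.mulOn ha ▸ (hf.restrict (zpowers_le.2 ha)).piso

theorem ext (P : Par8 R) (hF : F.IsSaturated 2) {a b : GM R} (h : F.IsConjElt a b)
    (hb : F.IsFullyCentralized (zpowers b)) : ∃ k : Equiv.Perm (GM R), Mor F (CC ⊤ a) k ∧ k a = b := by
  obtain ⟨f, hf, rfl⟩ := isConjElt_iff.1 h
  obtain ⟨g, hg, e⟩ := hf.exists_perm
  rw [← e a (mem_zpowers a)] at hb ⊢
  obtain ⟨k, hk, e'⟩ := sat_ext_centralizer (P.pg.to_subgroup _) hF (piso hg (mem_zpowers a)) hb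
  exact ⟨k, hk.restrict le_sup_right, e' a (mem_zpowers a)⟩

theorem rep (hF : F.IsSaturated 2) {u : GM R} (hu : u * u = P.z) :
    ∃ w, F.IsConjElt u w ∧ w * w = P.z ∧ F.IsFullyCentralized (zpowers w) := by
  obtain ⟨Q, f, hf, hQ⟩ := exists_piso_fullyCentralized F (le_top : zpowers u ≤ ⊤)
  have m := mem_zpowers u
  rw [← hf.img_eq, img_zpowers hf.mor.mulOn m] at hQ
  obtain ⟨p, hp, e⟩ := ext P hF (isConjElt_symm (hu ▸ hf.mor.isConjElt (mul_mem m m)))
    (isFullyCentralized_of_le_centralizer le_top (by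
      rintro g - _ ⟨n, rfl⟩
      exact (Commute.zpow_left (P.z_comm g).symm n).eq))
  have k : f P.z = f u * f u := by rw [← hu, hf.map_mul m m]
  rw [k] at hp e
  have l : CC ⊤ (f u) ≤ CC ⊤ (f u * f u) := fun x hx =>
    mem_CC.2 ⟨trivial, Commute.mul_right (mem_CC.1 hx).2 (mem_CC.1 hx).2⟩
  have m' : f u ∈ CC ⊤ (f u * f u) := l (mem_CC.2 ⟨trivial, rfl⟩)
  refine ⟨p (f u), isConjElt_trans (hf.mor.isConjElt m) (hp.isConjElt m'),
    by rw [← hp.map_mul m' m', e], isFullyCentralized_iff_piso.2 ⟨le_top, fun U g hg => ?_⟩⟩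
  exact ((isFullyCentralized_iff_piso.1 hQ).2 U _ ((piso hp m').trans hg)).trans
    (Nat.card_le_card_of_injective (β := CC ⊤ (p (f u))) (fun x : CC ⊤ (f u) => ⟨p x, mem_CC.2 ⟨trivial, by
      rw [← hp.map_mul (l x.2) m', ← hp.map_mul m' (l x.2), (mem_CC.1 x.2).2]⟩⟩)
      fun a b e => Subtype.ext (p.injective (Subtype.mk.inj e)))

theorem key (h : P.B1) (hF : F.IsSaturated 2) (hx : P.GX F) {c : Bool} {v w : GM R}
    (v1 : v ∈ P.RG (!c)) (v2 : v * v = P.z) (w1 : w ∈ P.RG c) (w2 : w * w = P.z)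
    (w3 : F.IsFullyCentralized (zpowers w)) : ¬ F.IsConjElt v w := fun k0 => by
  obtain ⟨k, hk, rfl⟩ := ext P hF k0 w3
  have l : P.RG c ≤ CC ⊤ v := fun u hu => mem_CC.2 ⟨trivial, h.comm c u hu v v1⟩
  have mv : v ∈ CC ⊤ v := mem_CC.2 ⟨trivial, rfl⟩
  have mx := l (h.x_mem c)
  have cv : ∀ u ∈ P.RG c, Commute (k u) (k v) := fun u hu => by
    rw [Commute, SemiconjBy, ← hk.map_mul (l hu) mv, ← hk.map_mul mv (l hu), h.comm c u hu v v1]
  obtain ⟨u, u1, -, u3⟩ := h.x_root c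
  have e := hx c _ (hk.isConjElt mx) (by rw [← u3, hk.map_mul (l u1) (l u1)]; exact h.sq_mem _)
    (by rw [← hk.map_mul mx mx, h.x_sq]; exact (v2 ▸ hk.map_mul mv mv).trans w2)
  have sy : ∀ g : GM R, Commute g (k (P.xG c)) ↔ Commute g (P.xG c) := fun g => by
    rcases e with e | e <;> rw [e]
    exact Commute.inv_right_iff
  have wH : k v ∈ HG := by
    by_contra a
    have b := h.out_x c _ w1 a
    rw [((sy _).1 (cv _ (h.x_mem c)).symm).eq, mul_inv_cancel_right] at b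
    exact h.x_ne c b
  have mb := l (h.b_mem c)
  have b : Commute (k (P.bG c)) (k (P.xG c)) := (sy _).2 (by
    have := cv _ (h.b_mem c)
    rcases h.rootR c _ w1 wH w2 with a | a <;> rw [a] at this
    exacts [this, Commute.inv_right_iff.1 this])
  have d : P.bG c * P.xG c = P.xG c * P.bG c := k.injective (by
    rw [hk.map_mul mb mx, hk.map_mul mx mb, b.eq])
  have := h.out_x c _ (h.b_mem c) fun a => by simp [mem_HG] at a
  rw [d, mul_inv_cancel_right] at this
  exact h.x_ne c this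

end G2

open G2 in
theorem g2 (h : P.B1) (hF : F.IsSaturated 2) (hx : P.GX F) : P.GY F := by
  intro E f c hf hz u hu u1 u2
  have v2 : f u * f u = P.z := by rw [← hf.map_mul hu hu, u2, hz]
  obtain ⟨c', v1⟩ := h.root _ v2
  by_cases e : c' = c
  · exact e ▸ v1
  obtain rfl : c' = !c := by revert e; cases c <;> cases c' <;> decide
  obtain ⟨w, w0, w2, w3⟩ := rep hF u2
  obtain ⟨d, w1⟩ := h.root w w2
  by_cases e' : d = c
  · exact absurd (isConjElt_trans (isConjElt_symm (hf.isConjElt hu)) w0)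
      (key h hF hx v1 v2 (e' ▸ w1) w2 w3)
  · obtain rfl : c = !d := by revert e'; cases c <;> cases d <;> decide
    exact absurd w0 (key h hF hx u1 u2 w1 w2 w3)

end Cfsg.Lib.WQ
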