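import Cfsg.Agent.WQ.G4a

/-! Essential subgroups of `GM R` whose automizer moves `z`. -/

set_option autoImplicit false
set_option linter.unusedSectionVars false

namespace Cfsg.Lib.WQ

open Cfsg Cfsg.FusionSystem Subgroup Cfsg.Lib.Fus G2T G2T.GM

variable {R : Type} [CommRing R] [Finite R] {P : Par8 R}
  {F F' : FusionSystem (⊤ : Subgroup (GM R))}

theorem g3a (h : P.B1) (_hF : F.IsSaturated 2) : P.G3a F := by
  intro E c hE hz hx
  have hS : IsPGroup 2 (⊤ : Subgroup (GM R)) := P.pg.to_subgroup _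
  obtain ⟨f, n⟩ := not_forall.1 hz
  obtain ⟨hf, n⟩ := Classical.not_imp.1 n
  have hzE : P.z ∈ E := h.x_sq c ▸ mul_mem hx hx
  have k : ∀ w ∈ E, w * f P.z = f P.z * w := fun w hw => by
    have h1 := congrArg f (P.z_comm (f⁻¹ w))
    rwa [hf.map_mul (hf.inv_maps hw) hzE, hf.map_mul hzE (hf.inv_maps hw), perm_apply_inv] at h1
  have hT : E ≤ TG := fun w hw => by
    have a := k w hw
    rcases h.invH (f P.z) (by rw [← h.x_sq c, hf.map_mul hx hx]; exact h.sq_mem _)
      (by rw [← hf.map_mul hzE hzE, P.z_mul_z, hf.mor.map_one]) with e | e | e | e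
    · exact absurd ((hf.mor.eq_one_iff hzE).1 e) P.z_ne_one
    · exact absurd e n
    all_goals
      rw [e] at a
      rcases w with ⟨i, j, _ | _, _ | _⟩ <;> simp [mul_def, mem_TG, P.h_ne] at a ⊢
  have m : ∀ f : Equiv.Perm (GM R), PIso F f E E → ∀ y ∈ E, y ∈ HG → f y ∈ HG := fun f hf =>
    h.mapH E hT ⟨_, hx, by rw [h.x_sq]; exact P.z_ne_one⟩ f hf.mor.mulOn f.injective.injOn
      fun y hy => hT (hf.maps hy)
  have hH : HG ≤ E := by
    by_contra n
    have := h.normH
    obtain ⟨u, hu, hN, n⟩ := Ess.exists_step_of_not_le hS le_top le_top le_normalizer_of_normal n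
    exact n (G4a.two P hE m hN (fun y _ => G4a.cmH y u) fun y _ hy => by
      rw [h.commH u hu y hy, mul_inv_cancel_right])
  refine hT.antisymm fun t ht => by_contra fun tE => ?_
  have tH : t ∉ HG := fun a => tE (hH a)
  have l : E ≤ HG := fun y hy => by_contra fun a => tE ((mul_mem_cancel_left (inv_mem hy)).1 (hH ⟨by
    rw [mul_e, inv_e, mem_TG.1 (hT hy), mem_TG.1 ht]; rfl, by
    have b : y.f = true := by simpa [mem_HG, mem_TG.1 (hT hy)] using a
    have d : t.f = true := by simpa [mem_HG, mem_TG.1 ht] using tH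
    rw [mul_f, inv_f, b, d]; rfl⟩))
  have iv := fun y hy => (h.invT t ht tH).2 y (l hy)
  have hN : t ∈ normalizer (E : Set (GM R)) :=
    mem_normalizer_of_finite fun y hy => by rw [iv y hy]; exact inv_mem hy
  have r := (Ess.radIn_of_essential hS hE).rad hS le_rfl le_top trivial hN tE
  have e : ∀ y : E, conjAut E t hN y = y⁻¹ := fun y => Subtype.ext (iv y y.2)
  refine r.not_mem (le_pCoreIn (zpowers_le.2 r.mem) ((isPGroup_autInducedBy hS E).to_le
    (zpowers_le.2 (conjAut_mem_autInducedBy (mem_top t) hN))) ?_ (mem_zpowers _))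
  rintro a - _ ⟨i, rfl⟩
  have : Commute a (conjAut E t hN) := MulEquiv.ext fun y => by
    rw [MulAut.mul_apply, MulAut.mul_apply, e, e, map_inv]
  exact ⟨i, (mul_inv_eq_iff_eq_mul.2 (this.zpow_right i).eq).symm⟩

end Cfsg.Lib.WQ
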