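import Cfsg.Agent.WQ.Defs

/-! An essential subgroup of `GM R` contains one of the elements `x c`. -/

set_option autoImplicit false

namespace Cfsg.Lib.WQ

open Cfsg Cfsg.FusionSystem Subgroup Cfsg.Lib.Fus G2T G2T.GM

namespace G3b

theorem apart {Ω : Type*} [Group Ω] {S E : Subgroup Ω} [Finite S] {F : FusionSystem S}
    (hS : IsPGroup 2 S) (hF : F.IsSaturated 2) (hE : F.IsEssential 2 E) :
    ∃ α : Equiv.Perm Ω, PIso F α E E ∧ ∀ s s' u u' : Ω, s ∈ S → s' ∈ S → s ∉ E → s' ∉ E →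
      u ∈ E → u' ∈ E → (∀ y ∈ E, y⁻¹ * (s * y * s⁻¹) ∈ zpowers u) →
      (∀ y ∈ E, y⁻¹ * (s' * y * s'⁻¹) ∈ zpowers u') → s * u = u * s → s * α u' = α u' * s →
      s' * u' = u' * s' → False := by
  have hES := hE.1.1
  have := finite_of_le hES
  obtain ⟨α, hα, h⟩ := Ess.exists_apart hS hF hE
  have hp := piso_pext_of_mem hES hα
  refine ⟨pext E α, hp, fun s s' u u' hs hs' hsE hsE' hu hu' h1 h2 h3 h4 h5 => ?_⟩
  have hn : ∀ {s u : Ω}, u ∈ E → (∀ y ∈ E, y⁻¹ * (s * y * s⁻¹) ∈ zpowers u) →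
      s ∈ normalizer (E : Set Ω) := fun hu h => mem_normalizer_of_finite fun y hy => by
    simpa using mul_mem hy (zpowers_le.2 hu (h y hy))
  have hN := hn hu h1
  have hN' := hn hu' h2
  let X : Subgroup Ω := zpowers u ⊔ zpowers (pext E α u')
  let Y : Subgroup Ω := zpowers (pext E α u')
  have hYX : Y.subgroupOf E ≤ X.subgroupOf E := comap_mono le_sup_right
  have hX : X ≤ centralizer {s} := sup_le
    (zpowers_le.2 (mem_centralizer_singleton_iff.2 h3.symm))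
    (zpowers_le.2 (mem_centralizer_singleton_iff.2 h4.symm))
  have k1 : ∀ y ∈ X, s * y * s⁻¹ = y := fun y hy => by
    rw [← mem_centralizer_singleton_iff.1 (hX hy), mul_inv_cancel_right]
  have k2 : Ess.Triv (α * conjAut E s' hN' * α⁻¹) ⊤ (Y.subgroupOf E) :=
    Ess.Triv.conj (X := ⊤) (Y := (zpowers u').subgroupOf E) (Ess.triv_conjAut_top_iff.2 h2)
      (fun _ _ => trivial) fun y hy => by
        obtain ⟨k, hk⟩ := mem_subgroupOf.1 hy
        refine mem_subgroupOf.2 ⟨k, ?_⟩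
        simp only at hk ⊢
        rw [← hp.mor.map_zpow hu', hk, pext_coe]
  refine h _ (conjAut_mem_autInducedBy hs hN)
    (fun h => hsE ((conjAut_mem_inn_iff (isCentric_self hE.1) hES (a := s) ⟨hs, hN⟩).1 h))
    _ (conjAut_mem_autInducedBy hs' hN')
    (fun h => hsE' ((conjAut_mem_inn_iff (isCentric_self hE.1) hES (a := s') ⟨hs', hN'⟩).1 h))
    (Ess.chainSub hYX) (Ess.isPGroup_chainSub (hS.to_le hES) hYX)
    ⟨Ess.triv_conjAut_top_iff.2 fun y hy => mem_sup_left (h1 y hy),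
      Ess.triv_conjAut_iff.2 fun y _ hy => by rw [k1 y hy, inv_mul_cancel]; exact one_mem _,
      Ess.triv_conjAut_bot_iff.2 fun y _ hy => k1 y (mem_sup_right hy)⟩
    ⟨k2.mono le_rfl hYX, k2.mono le_top le_rfl, ?_⟩
  refine Ess.Triv.conj (X := (zpowers u').subgroupOf E) (Y := ⊥)
    (Ess.triv_conjAut_bot_iff.2 ?_) (fun y hy => ?_) fun y hy => by
      rw [mem_bot.1 hy, map_one]; exact one_mem _
  · rintro _ - ⟨k, rfl⟩
    exact mul_inv_eq_iff_eq_mul.2 (Commute.zpow_right h5 k).eq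
  · obtain ⟨k, hk⟩ := mem_subgroupOf.1 hy
    refine mem_subgroupOf.2 ⟨k, (pext E α).injective ?_⟩
    simp only at hk ⊢
    rw [hp.mor.map_zpow hu', hk, pext_coe, MulAut.apply_inv_self]

variable {R : Type} [CommRing R] {P : Par8 R}

theorem triv_z (h : P.B1) (c : Bool) (y : GM R) :
    y⁻¹ * (P.xG c * y * (P.xG c)⁻¹) ∈ zpowers P.z := by
  have e : y⁻¹ * (P.xG c * y * (P.xG c)⁻¹) = y⁻¹ * P.xG c * y⁻¹⁻¹ * (P.xG c)⁻¹ := by group
  rcases h.x_conj c y⁻¹ with h1 | h1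
  · rw [e, h1, mul_inv_cancel]; exact one_mem _
  · rw [e, h1, ← mul_inv_rev, h.x_sq]; exact inv_mem (mem_zpowers _)

theorem triv_w (P : Par8 R) (y : GM R) :
    y⁻¹ * (A P.h 0 * y * (A P.h 0)⁻¹) ∈ zpowers P.z := by
  have : y⁻¹ * (A P.h 0 * y * (A P.h 0)⁻¹) = 1 ∨ y⁻¹ * (A P.h 0 * y * (A P.h 0)⁻¹) = P.z := by
    rcases y with ⟨i, k, _ | _, _ | _⟩ <;> simp [mul_def, inv_def, one_def, P.neg_h, P.hh] <;>
      (left; linear_combination P.hh)
  rcases this with h | h <;> rw [h]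
  exacts [one_mem _, mem_zpowers _]

theorem type_of_not_comm (P : Par8 R) {t : GM R} (h : ∀ c, P.xG c * t ≠ t * P.xG c) :
    t.e = false ∧ t.f = true := by
  have h1 := h false
  have h2 := h true
  rcases t with ⟨i, k, _ | _, _ | _⟩ <;> simp [mul_def, add_comm] at h1 h2 ⊢

theorem exists_root (h : P.B1) {v : GM R} (hv : v ∈ (HG : Subgroup (GM R))) (h2 : v * v = 1) :
    ∃ u ∈ (HG : Subgroup (GM R)), u * u = v := by
  rcases h.invH v hv h2 with rfl | rfl | rfl | rfl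
  · exact ⟨1, one_mem _, one_mul _⟩
  · exact ⟨A P.q P.q, ⟨rfl, rfl⟩, by simp [mul_def, P.qq]⟩
  · exact ⟨A P.q 0, ⟨rfl, rfl⟩, by simp [mul_def, P.qq]⟩
  · exact ⟨A 0 P.q, ⟨rfl, rfl⟩, by simp [mul_def, P.qq]⟩

end G3b

variable {R : Type} [CommRing R] [Finite R] {P : Par8 R}
  {F F' : FusionSystem (⊤ : Subgroup (GM R))}

open G3b in
theorem g3b (h : P.B1) (hF : F.IsSaturated 2) : P.G3b F := by
  intro E hE
  by_contra hx
  push Not at hx
  have hS : IsPGroup 2 (⊤ : Subgroup (GM R)) := P.pg.to_subgroup _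
  have hzE : P.z ∈ E := (Ess.radIn_of_essential hS hE).mem_of_commute trivial
    fun y _ => P.z_comm y
  obtain ⟨α, hα, key⟩ := apart hS hF hE
  have hz1 : ∀ y ∈ E, y * α P.z = α P.z * y := fun y hy => by
    have h1 := congrArg α (P.z_comm (α⁻¹ y))
    rwa [hα.map_mul (hα.inv_maps hy) hzE, hα.map_mul hzE (hα.inv_maps hy), perm_apply_inv] at h1
  have k1 : ∀ s, s ∉ E → (∀ y : GM R, y⁻¹ * (s * y * s⁻¹) ∈ zpowers P.z) →
      s * α P.z ≠ α P.z * s := fun s hs h1 h2 =>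
    key s (P.xG false) P.z P.z trivial trivial hs (hx _) hzE hzE (fun y _ => h1 y)
      (fun y _ => triv_z h _ y) (P.z_comm _) h2 (P.z_comm _)
  obtain ⟨he, hf⟩ := type_of_not_comm P fun c => k1 _ (hx c) (triv_z h c)
  have hT : α P.z ∈ (TG : Subgroup (GM R)) := he
  have hH : α P.z ∉ (HG : Subgroup (GM R)) := fun h => by simp [h.2] at hf
  obtain ⟨-, hinv⟩ := h.invT _ hT hH
  have hwH : (A P.h 0 : GM R) ∈ HG := ⟨rfl, rfl⟩
  have hww : (A P.h 0 : GM R) * A P.h 0 = 1 := P.x_mul_x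
  have hwE : (A P.h 0 : GM R) ∈ E := by
    by_contra hw
    refine k1 _ hw (triv_w P) ?_
    rw [eq_comm, ← mul_inv_eq_iff_eq_mul, hinv _ hwH, inv_eq_iff_mul_eq_one, hww]
  have hET : ∀ y ∈ E, y.e = false := fun y hy => by
    by_contra hy'
    have h1 : y * A P.h 0 * y⁻¹ * (A P.h 0)⁻¹ = P.z := by
      rcases y with ⟨i, k, _ | _, _ | _⟩ <;> simp [mul_def, inv_def, P.neg_h] at hy' ⊢
    rw [← h1, hα.map_mul (mul_mem (mul_mem hy hwE) (inv_mem hy)) (inv_mem hwE), hα.map_conj hy hwE,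
      hα.mor.map_inv hwE] at hf
    simp only [mul_f, inv_f] at hf
    revert hf
    cases (α y).f <;> cases (α (A P.h 0)).f <;> decide
  have hV : ∀ y ∈ E, y ∈ HG → y * y = 1 := fun y hy hyH => by
    have h1 := hinv y hyH
    rw [← hz1 y hy, mul_inv_cancel_right] at h1
    exact mul_eq_one_iff_eq_inv.2 h1
  have hroot : ∀ v ∈ E, v ∈ HG → v ≠ 1 → ∃ u, u ∉ E ∧ u ∈ HG ∧
      ∀ y ∈ E, y⁻¹ * (u * y * u⁻¹) ∈ zpowers v := fun v hv hvH h1 => by
    obtain ⟨u, huH, hu⟩ := exists_root h hvH (hV v hv hvH)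
    refine ⟨u, fun huE => h1 (hu.symm.trans (hV u huE huH)), huH, fun y hy => ?_⟩
    by_cases hyH : y ∈ HG
    · rw [h.commH u huH y hyH, mul_inv_cancel_right, inv_mul_cancel]; exact one_mem _
    · have h2 := (h.invT y⁻¹ (hET _ (inv_mem hy)) fun h' => hyH (inv_mem_iff.1 h')).2 u huH
      have e : y⁻¹ * (u * y * u⁻¹) = y⁻¹ * u * y⁻¹⁻¹ * u⁻¹ := by group
      rw [e, h2, ← mul_inv_rev, hu]
      exact inv_mem (mem_zpowers _)
  obtain ⟨v, hvE, hvH, hv1, hv⟩ : ∃ v ∈ E, v ∈ HG ∧ v ≠ 1 ∧ α v ∈ HG := by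
    by_cases h1 : (α (A P.h 0)).f = false
    · exact ⟨_, hwE, hwH, P.x_ne_one, hET _ (hα.maps hwE), h1⟩
    · refine ⟨A P.h 0 * P.z, mul_mem hwE hzE, ⟨rfl, rfl⟩, ?_, hET _ (hα.maps (mul_mem hwE hzE)), ?_⟩
      · simp [mul_def, one_def, P.h_ne]
      · have h1' : (α (A P.h 0)).f = true := by simpa using h1
        rw [hα.map_mul hwE hzE, mul_f, hf, h1']; rfl
  obtain ⟨u, h1, h2, h3⟩ := hroot _ (hα.maps hvE) hv fun e => hv1 ((hα.mor.eq_one_iff hvE).1 e)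
  obtain ⟨u', h1', h2', h3'⟩ := hroot _ hvE hvH hv1
  exact key u u' (α v) v trivial trivial h1 h1' (hα.maps hvE) hvE h3 h3' (h.commH _ h2 _ hv)
    (h.commH _ h2 _ hv) (h.commH _ h2' _ hvH)

end Cfsg.Lib.WQ
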