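import Cfsg.Agent.WQ.G3b

/-! Essential subgroups of `GM R` whose automizer fixes `z`. -/

set_option autoImplicit false
set_option linter.unusedSectionVars false

namespace Cfsg.Lib.WQ

open Cfsg Cfsg.FusionSystem Subgroup Cfsg.Lib.Fus G2T G2T.GM

variable {R : Type} [CommRing R] [Finite R] {P : Par8 R}
  {F F' : FusionSystem (⊤ : Subgroup (GM R))}

namespace G4a

theorem two (P : Par8 R) {E X : Subgroup (GM R)} (hE : F.IsEssential 2 E) {u : GM R}
    (hX : ∀ f : Equiv.Perm (GM R), PIso F f E E → ∀ x ∈ E, x ∈ X → f x ∈ X)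
    (hN : u ∈ normalizer (E : Set (GM R))) (h1 : ∀ y ∈ E, y⁻¹ * (u * y * u⁻¹) ∈ X)
    (h2 : ∀ y ∈ E, y ∈ X → u * y * u⁻¹ = y) : u ∈ E := by
  by_contra n
  exact ((Ess.radIn_of_essential (P.pg.to_subgroup _) hE).rad (P.pg.to_subgroup _) le_rfl le_top
    trivial hN n).not_triv_triv (Ess.aInv_of_piso le_top hX) (Ess.triv_conjAut_top_iff.2 h1)
    (Ess.triv_conjAut_bot_iff.2 h2)

theorem cmH (y r : GM R) : y⁻¹ * (r * y * r⁻¹) ∈ (HG : Subgroup (GM R)) := by
  simp only [mem_HG, mul_e, mul_f, inv_e, inv_f]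
  cases y.e <;> cases r.e <;> cases y.f <;> cases r.f <;> decide

theorem cmx {E : Subgroup (GM R)} {f : Equiv.Perm (GM R)} (hf : PIso F f E E) {x y : GM R}
    (hx : x ∈ E) (hy : y ∈ E) (e : f x = x ∨ f x = x⁻¹) (c : y * x = x * y) : f y * x = x * f y := by
  have : Commute (f y) (f x) := by
    rw [Commute, SemiconjBy, ← hf.map_mul hy hx, ← hf.map_mul hx hy, c]
  rcases e with e | e <;> rw [e] at this
  exacts [this, Commute.inv_right_iff.1 this]

end G4a

open G4a in
theorem g4a (h : P.B1) (hF : F.IsSaturated 2) (hs : P.GStab F) : P.G4a F := by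
  intro E hE hz
  have hS : IsPGroup 2 (⊤ : Subgroup (GM R)) := P.pg.to_subgroup _
  have hzE : P.z ∈ E := (Ess.radIn_of_essential hS hE).mem_of_commute trivial
    fun y _ => P.z_comm y
  have h1 : ∀ c, P.xG c ∈ E := fun c => two P hE (X := zpowers P.z) (fun f hf x _ ⟨k, e⟩ => ⟨k, by
      simp only at e ⊢
      rw [← e, hf.mor.map_zpow hzE, hz f hf]⟩)
    (mem_normalizer_of_finite fun y hy => by
      simpa using mul_mem hy (zpowers_le.2 hzE (G3b.triv_z h c y)))
    (fun y _ => G3b.triv_z h c y) (by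
      rintro _ - ⟨k, rfl⟩
      exact mul_inv_eq_iff_eq_mul.2 (Commute.zpow_right (P.z_comm _) k).eq)
  refine ⟨h1, fun hx => ?_, fun c hx hR => ?_⟩
  · have m : ∀ f : Equiv.Perm (GM R), PIso F f E E → ∀ y ∈ E, y ∈ HG → f y ∈ HG :=
      fun f hf y hy hH => (h.centx _).1 fun c => cmx hf (h1 c) hy (hx c f hf) ((h.centx y).2 hH c)
    have hH : HG ≤ E := by
      by_contra n
      have := h.normH
      obtain ⟨u, hu, hN, n⟩ := Ess.exists_step_of_not_le hS le_top le_top le_normalizer_of_normal n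
      exact n (two P hE m hN (fun y _ => cmH y u) fun y _ hy => by
        rw [h.commH u hu y hy, mul_inv_cancel_right])
    obtain ⟨t, ht⟩ := Ess.exists_rad_of_essential hS hF hE
    refine ht.not_mem (le_pCoreIn le_rfl ((isPGroup_autInducedBy hS E).to_le fun α hα => ?_)
      (fun a ha x hx => mul_mem (mul_mem ha hx) (inv_mem ha)) ht.mem)
    obtain ⟨s, e⟩ := hs E hH hE.2.1 (fun f hf y hy => m f hf y (hH hy) hy) _
      (piso_pext_of_mem le_top hα) (hz _ (piso_pext_of_mem le_top hα))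
    exact mem_autInducedBy_pext.2 ⟨s, trivial, e⟩
  · by_contra n
    have := h.normR c
    obtain ⟨r, hr, hN, n⟩ := Ess.exists_step_of_not_le hS le_top le_top le_normalizer_of_normal n
    have k := (Ess.radIn_of_essential hS hE).rad hS le_rfl le_top trivial hN n
    have i2 : Ess.AInv (F.autGroup E) ((P.RG c ⊓ HG).subgroupOf E) :=
      Ess.aInv_of_piso le_top fun f hf y hy hy' => ⟨hR f hf y hy hy'.1, by
        by_contra a
        have b := h.out_x c _ (hR f hf y hy hy'.1) a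
        rw [cmx hf (h1 c) hy (hx f hf) ((h.centx y).2 hy'.2 c), mul_inv_cancel_right] at b
        exact h.x_ne c b⟩
    have cm : ∀ y, y⁻¹ * (r * y * r⁻¹) ∈ P.RG c := fun y => by
      simpa [mul_assoc] using mul_mem (this.conj_mem r hr y⁻¹) (inv_mem hr)
    have cy : IsCyclic ((P.RG c ⊓ HG).subgroupOf E) := isCyclic_of_injective
      ((E.subtype.comp (Subgroup.subtype _)).codRestrict (zpowers (A 1 (sn c) : GM R))
        fun x => h.cyc c _ x.2.1 x.2.2)
      fun a b e => Subtype.ext (Subtype.ext (Subtype.mk.inj e))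
    obtain ⟨x, e⟩ := (Subgroup.isCyclic_iff_exists_zpowers_eq_top _).1 cy
    exact k.not_ptr ((k.ptr Ess.aInv_top i2 (Ess.triv_conjAut_top_iff.2 fun y _ =>
      ⟨cm y, cmH y r⟩)).trans k.pg (Ess.ptr_of_cyclic k.pg k.mem k.pelt i2 Ess.aInv_bot (x := x)
        (le_normalizer_of_normal (H := ⊥) (K := ⊤) trivial) (by rw [bot_sup_eq, e])) Ess.aInv_bot)

end Cfsg.Lib.WQ
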