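import Cfsg.Agent.WQ.Defs

/-! The extraspecial subgroups of order 32 of `GM R` are not essential. -/

set_option autoImplicit false
set_option linter.unusedSectionVars false

namespace Cfsg.Lib.WQ

open Cfsg Cfsg.FusionSystem Subgroup Cfsg.Lib.Fus G2T G2T.GM

variable {R : Type} [CommRing R] [Finite R] {P : Par8 R}
  {F F' : FusionSystem (⊤ : Subgroup (GM R))}

namespace G4b

variable {E : Subgroup (GM R)} {c : Bool} {y : GM R}

theorem maps (h : P.B1) (h' : P.B2) (hy : P.GY F) (y2 : y ∈ P.RG c) (y3 : y ∉ HG) (h1 : P.QG c y ≤ E)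
    (h2 : E ≤ P.EG c y) {f : Equiv.Perm (GM R)} (hf : PIso F f E E) (hz : f P.z = P.z) {g : GM R}
    (hg : g ∈ P.QG c y) : f g ∈ P.QG c y := by
  have k : ∀ u ∈ E, u ∈ P.RG c → u * u = P.z → f u ∈ P.QG c y := fun u hu a b =>
    h'.infE c y y2 _ (h2 (hf.maps hu)) (hy E f c hf.mor hz u hu a b)
  have hx : P.xG c ∈ E := h1 (subset_closure (by simp))
  have hy' : y ∈ E := h1 (subset_closure (by simp))
  have kx := k _ hx (h.x_mem c) (h.x_sq c)
  obtain ⟨i, rfl | rfl⟩ := (h'.memQ c y y2 y3 g).1 hg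
  · rw [hf.mor.map_zpow hx]; exact zpow_mem kx i
  · rw [hf.map_mul (zpow_mem hx i) hy', hf.mor.map_zpow hx]
    exact mul_mem (zpow_mem kx i) (k y hy' y2 (h.out_sq c y y2 y3))

theorem out (h : P.B1) (h' : P.B2) (y2 : y ∈ P.RG c) (y3 : y ∉ HG) (h1 : P.QG c y ≤ E)
    (h2 : E ≤ P.EG c y) : ∃ u ∈ P.RG c, u ∉ E ∧ u ∈ normalizer (E : Set (GM R)) ∧
      ∀ g ∈ P.QG c y, u * g * u⁻¹ ∈ P.QG c y := by
  obtain ⟨u, a, b, -, d⟩ := h'.out c y y2 y3
  refine ⟨u, a, fun e => b (h'.infE c y y2 u (h2 e) a), mem_normalizer_of_finite fun g hg => ?_, d⟩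
  obtain ⟨v, hv, w, hw, rfl⟩ := (h'.memE c y y2 g).1 (h2 hg)
  rw [← conj_mul, mul_inv_eq_iff_eq_mul.2 (h.comm c u a w hw)]
  exact mul_mem (h1 (d v hv)) ((mul_mem_cancel_left (h1 hv)).1 hg)

end G4b

open G4b in
theorem g4b (h : P.B1) (h' : P.B2) (hF : F.IsSaturated 2) (hy : P.GY F) : P.G4b F := by
  intro c y y2 y3 y' z2 z3 hE
  have hS : IsPGroup 2 (⊤ : Subgroup (GM R)) := P.pg.to_subgroup _
  have l1 : P.QG c y ⊔ P.QG (!c) y' ≤ P.EG c y := sup_le_sup_left (h'.leQ _ y' z2) _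
  have l2 : P.QG c y ⊔ P.QG (!c) y' ≤ P.EG (!c) y' :=
    sup_le (le_sup_of_le_right (by rw [Bool.not_not]; exact h'.leQ c y y2)) le_sup_left
  have m1 : P.QG c y ≤ P.QG c y ⊔ P.QG (!c) y' := le_sup_left
  have m2 : P.QG (!c) y' ≤ P.QG c y ⊔ P.QG (!c) y' := le_sup_right
  generalize P.QG c y ⊔ P.QG (!c) y' = E at hE l1 l2 m1 m2
  have hzE : P.z ∈ E := (Ess.radIn_of_essential hS hE).mem_of_commute trivial
    fun y _ => P.z_comm y
  have fx : ∀ f : Equiv.Perm (GM R), PIso F f E E → f P.z = P.z := fun f hf => by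
    have k : ∀ w ∈ E, f P.z * w = w * f P.z := fun w hw => by
      have h1 := congrArg f (P.z_comm (f⁻¹ w))
      rw [hf.map_mul (hf.inv_maps hw) hzE, hf.map_mul hzE (hf.inv_maps hw), perm_apply_inv] at h1
      exact h1.symm
    have k1 := h'.cent c y y2 y3 _ (k _ (m1 (subset_closure (by simp))))
      (k _ (m1 (subset_closure (by simp))))
    have k2 := h'.cent _ y' z2 z3 _ (k _ (m2 (subset_closure (by simp))))
      (k _ (m2 (subset_closure (by simp))))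
    exact (h.inf _ _ k1 k2).resolve_left fun e => P.z_ne_one ((hf.mor.eq_one_iff hzE).1 e)
  obtain ⟨u, u1, u2, u3, u4⟩ := out h h' y2 y3 m1 l1
  obtain ⟨v, v1, v2, v3, v4⟩ := out h h' z2 z3 m2 l2
  obtain ⟨α, hα, k⟩ := Ess.exists_apart hS hF hE
  have hp := piso_pext_of_mem le_top hα
  have hi := piso_pext_of_mem le_top (inv_mem hα)
  have t1 := conjAut_mem_autInducedBy (K := ⊤) trivial u3
  have t2 := conjAut_mem_autInducedBy (K := ⊤) trivial v3
  have a1 : ∀ b : E, b.1 ∈ P.QG (!c) y' → conjAut E u u3 b = b := fun b hb =>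
    Subtype.ext (mul_inv_eq_iff_eq_mul.2 (h.comm c u u1 b (h'.leQ _ y' z2 hb)))
  have a2 : ∀ a : E, a.1 ∈ P.QG c y → (α * conjAut E v v3 * α⁻¹) a = a := fun a ha => by
    have := maps h h' hy y2 y3 m1 l1 hi (fx _ hi) ha
    rw [pext_coe] at this
    rw [MulAut.mul_apply, MulAut.mul_apply, show conjAut E v v3 (α⁻¹ a) = α⁻¹ a from Subtype.ext
      (mul_inv_eq_iff_eq_mul.2 (h.comm c _ (h'.leQ c y y2 this) v v1).symm), MulAut.apply_inv_self]
  have a3 : ∀ b : E, b.1 ∈ P.QG (!c) y' → ((α * conjAut E v v3 * α⁻¹) b).1 ∈ P.QG (!c) y' :=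
    fun b hb => by
      have := maps h h' hy z2 z3 m2 l2 hi (fx _ hi) hb
      rw [pext_coe] at this
      rw [MulAut.mul_apply, MulAut.mul_apply, ← pext_coe]
      exact maps h h' hy z2 z3 m2 l2 hp (fx _ hp) (v4 _ this)
  have cm : Commute (conjAut E u u3) (α * conjAut E v v3 * α⁻¹) := by
    generalize α * conjAut E v v3 * α⁻¹ = β at a2 a3
    refine MulEquiv.ext fun ⟨g, hg⟩ => ?_
    obtain ⟨a, ha, b, hb, rfl⟩ := (h'.memE c y y2 g).1 (l1 hg)
    have hb' := (mul_mem_cancel_left (m1 ha)).1 hg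
    have hb'' := h'.infE _ y' z2 b (l2 hb') hb
    rw [show (⟨a * b, hg⟩ : E) = ⟨a, m1 ha⟩ * ⟨b, hb'⟩ from rfl, MulAut.mul_apply, MulAut.mul_apply,
      map_mul, map_mul, map_mul, map_mul, a2 _ ha, a1 _ (a3 _ hb''), a1 ⟨b, hb'⟩ hb'',
      a2 (conjAut E u u3 ⟨a, m1 ha⟩) (u4 a ha)]
  refine k _ t1 (fun e => u2 ((conjAut_mem_inn_iff (isCentric_self hE.1) le_top ⟨trivial, u3⟩).1 e))
    _ t2 (fun e => v2 ((conjAut_mem_inn_iff (isCentric_self hE.1) le_top ⟨trivial, v3⟩).1 e))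
    (zpowers _ ⊔ zpowers _) (IsPGroup.to_sup_of_normal_right'
      ((isPGroup_autInducedBy hS E).to_le (zpowers_le.2 t1)) ?_
      (le_trans (zpowers_le.2 ?_) (centralizer_le_normalizer _)))
    (mem_sup_left (mem_zpowers _)) (mem_sup_right (mem_zpowers _))
  · have := ((isPGroup_autInducedBy hS E).to_le (zpowers_le.2 t2)).map (MulAut.conj α).toMonoidHom
    rwa [MonoidHom.map_zpowers] at this
  · rintro _ ⟨n, rfl⟩
    exact (cm.symm.zpow_left n).eq

end Cfsg.Lib.WQ
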