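import Cfsg.Agent.WQ.Defs

/-! The classification of the essential subgroups of `GM R`. -/

set_option autoImplicit false
set_option linter.unusedSectionVars false

namespace Cfsg.Lib.WQ

open Cfsg Cfsg.FusionSystem Subgroup Cfsg.Lib.Fus G2T G2T.GM

variable {R : Type} [CommRing R] [Finite R] {P : Par8 R}
  {F F' : FusionSystem (⊤ : Subgroup (GM R))}

theorem G4c.key (h : P.B1) (h' : P.B2) (hy : P.GY F) {E : Subgroup (GM R)} (hz : P.Fix F E) {c : Bool}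
    (hx : P.xG c ∈ E) (n : ¬ P.FixX F E c) : ∃ y ∈ E, y ∈ P.RG c ∧ y ∉ HG ∧ E ≤ P.EG c y := by
  obtain ⟨f, n⟩ := not_forall.1 n
  obtain ⟨hf, n⟩ := Classical.not_imp.1 n
  have h1 := hy E f c hf.mor (hz f hf) _ hx (h.x_mem c) (h.x_sq c)
  have h2 : f (P.xG c) ∉ HG := fun e => n (h.rootR c _ h1 e (by
    rw [← hf.map_mul hx hx, h.x_sq, hz f hf]))
  refine ⟨_, hf.maps hx, h1, h2, fun g hg => h'.norm c _ h1 h2 g ?_⟩
  rw [← perm_apply_inv f g, ← hf.map_conj (hf.inv_maps hg) hx]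
  exact (h.x_conj c _).imp (congrArg f) fun e => by rw [e, hf.mor.map_inv hx]

theorem g4c (h : P.B1) (h' : P.B2) (hy : P.GY F) (h3a : P.G3a F) (h3b : P.G3b F) (h4a : P.G4a F)
    (h4b : P.G4b F) : P.GCls F := by
  intro E hE
  by_cases hz : P.Fix F E
  swap
  · obtain ⟨c, hc⟩ := h3b E hE
    obtain rfl := h3a E c hE hz hc
    exact .inl ⟨rfl, hz⟩
  obtain ⟨h1, h2, h3⟩ := h4a E hE hz
  obtain ⟨c, hc⟩ := not_forall.1 h2
  obtain ⟨y, y1, y2, y3, y4⟩ := G4c.key h h' hy hz (h1 c) hc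
  have hQ : ∀ c, ∀ y ∈ E, P.QG c y ≤ E := fun c y hy =>
    (closure_le _).2 (Set.insert_subset (h1 c) (Set.singleton_subset_iff.2 hy))
  by_cases k : P.FixX F E (!c)
  · refine .inr ⟨c, y, y2, y3, y4.antisymm (sup_le (hQ c y y1) (h3 _ k fun f hf v hv hv' => ?_))⟩
    have : ∀ u ∈ E, u ∈ P.RG c → u * u = P.z → f v * u = u * f v := fun u hu a b => by
      have := congrArg f (h.comm c _ (hy E _ c hf.symm.mor (hz _ hf.symm) u hu a b) v hv')
      rw [hf.map_mul (hf.inv_maps hu) hv, hf.map_mul hv (hf.inv_maps hu), perm_apply_inv] at this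
      exact this.symm
    exact h'.cent c y y2 y3 _ (this _ (h1 c) (h.x_mem c) (h.x_sq c)) (this y y1 y2 (h.out_sq c y y2 y3))
  · obtain ⟨y', z1, z2, z3, z4⟩ := G4c.key h h' hy hz (h1 _) k
    refine absurd (le_antisymm (fun g hg => ?_) (sup_le (hQ c y y1) (hQ _ y' z1)) ▸ hE)
      (h4b c y y2 y3 y' z2 z3)
    obtain ⟨u, hu, v, hv, rfl⟩ := (h'.memE c y y2 g).1 (y4 hg)
    exact mul_mem (mem_sup_left hu) (mem_sup_right (h'.infE _ y' z2 v
      (z4 ((mul_mem_cancel_left (hQ c y y1 hu)).1 hg)) hv))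

end Cfsg.Lib.WQ
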