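import Cfsg.Agent.WQ.Defs

/-! Invariant subgroups of `EG c y`. -/

set_option autoImplicit false

namespace Cfsg.Lib.WQ

open Cfsg Cfsg.FusionSystem Subgroup Cfsg.Lib.Fus G2T G2T.GM

namespace G5a

variable {R : Type} [CommRing R]

theorem z_comm (P : Par8 R) (g : GM R) : g * P.z = P.z * g := by
  have := P.hh
  rcases g with ⟨i, k, _ | _, _ | _⟩ <;> simp [Par.z, mul_def] <;> constructor <;>
    first | ring1 | linear_combination -this

theorem z_ne (P : Par8 R) : P.z ≠ 1 := by
  intro e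
  exact P.h_ne (congrArg GM.i e)

theorem out_ef (P : Par8 R) {c : Bool} {v : GM R} (hv : v ∈ P.RG c) (hH : v ∉ HG) :
    v.e = true ∧ v.f = c := by
  rcases hv with hv | hv
  · exact absurd ⟨hv.1, hv.2.1⟩ hH
  · exact ⟨hv.1, hv.2.1⟩

end G5a

variable {R : Type} [CommRing R] [Finite R] {P : Par8 R}
  {F F' : FusionSystem (⊤ : Subgroup (GM R))}

open G5a in
omit [Finite R] in
theorem G5a.main (h : P.B1) (h' : P.B2) (hy : P.GY F) : P.GInv F := by
  intro c y hyc hyH f hf
  have hQE : P.QG c y ≤ P.EG c y := le_sup_left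
  have hRE : P.RG (!c) ≤ P.EG c y := le_sup_right
  have hxE : P.xG c ∈ P.EG c y := hQE (subset_closure (by simp))
  have hyE : y ∈ P.EG c y := hQE (subset_closure (by simp))
  have hzE : P.z ∈ P.EG c y := hRE (h.z_mem _)
  have hbH : P.bG (!c) ∉ (HG : Subgroup (GM R)) := fun e => by simpa using e.1
  have hc : ∀ g ∈ P.EG c y, f P.z * g = g * f P.z := by
    intro g hg
    have h1 := hf.map_mul hzE (hf.inv_maps hg)
    have h2 := hf.map_mul (hf.inv_maps hg) hzE
    rw [perm_apply_inv] at h1 h2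
    rw [← h1, ← h2, z_comm]
  have hfz : f P.z = P.z := by
    have h1 := h'.cent c y hyc hyH _ (hc _ hxE) (hc _ hyE)
    have h2 := h'.cent (!c) (P.bG (!c)) (h.b_mem _) hbH _ (hc _ (hRE (h.x_mem _)))
      (hc _ (hRE (h.b_mem _)))
    rcases h.inf (!c) _ h1 h2 with e | e
    · exact absurd ((hf.mor.eq_one_iff hzE).1 e) (z_ne P)
    · exact e
  refine ⟨hfz, ?_, ?_⟩
  · have hx' : f (P.xG c) ∈ P.QG c y := h'.infE c y hyc _ (hf.maps hxE)
      (hy _ f c hf.mor hfz _ hxE (h.x_mem c) (h.x_sq c))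
    have hy' : f y ∈ P.QG c y := h'.infE c y hyc _ (hf.maps hyE)
      (hy _ f c hf.mor hfz _ hyE hyc (h.out_sq c y hyc hyH))
    intro u hu
    induction hu using closure_induction with
    | mem x hx => rcases hx with rfl | rfl; exacts [hx', hy']
    | one => rw [hf.mor.map_one]; exact one_mem _
    | mul a b ha hb iha ihb => rw [hf.map_mul (hQE ha) (hQE hb)]; exact mul_mem iha ihb
    | inv a ha iha => rw [hf.mor.map_inv (hQE ha)]; exact inv_mem iha
  · have hout : ∀ v ∈ P.RG (!c), v ∉ HG → f v ∈ P.RG (!c) := fun v hv hH =>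
      hy _ f (!c) hf.mor hfz v (hRE hv) hv (h.out_sq _ v hv hH)
    have hall : ∀ v ∈ P.RG (!c), f v ∈ P.RG (!c) := by
      intro v hv
      by_cases hH : v ∈ (HG : Subgroup (GM R))
      · have hb := h.b_mem (!c)
        have h1 : v * P.bG (!c) ∉ (HG : Subgroup (GM R)) := fun e =>
          hbH ((mul_mem_cancel_left hH).1 e)
        have h2 := hout _ (mul_mem hv hb) h1
        rw [hf.map_mul (hRE hv) (hRE hb)] at h2
        exact (mul_mem_cancel_right (hout _ hb hbH)).1 h2
      · exact hout v hv hH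
    have hx := h.x_mem (!c)
    have hxH : P.xG (!c) ∈ (HG : Subgroup (GM R)) := ⟨rfl, rfl⟩
    have hfxH : f (P.xG (!c)) ∈ (HG : Subgroup (GM R)) := by
      obtain ⟨u, hu, -, e⟩ := h.x_root (!c)
      rw [← e, hf.map_mul (hRE hu) (hRE hu)]
      exact h.sq_mem _
    have hfx : f (P.xG (!c)) = P.xG (!c) ∨ f (P.xG (!c)) = (P.xG (!c))⁻¹ :=
      h.rootR _ _ (hall _ hx) hfxH (by rw [← hf.map_mul (hRE hx) (hRE hx), h.x_sq, hfz])
    intro v hv
    refine ⟨hall v hv, ?_⟩
    by_cases hH : v ∈ (HG : Subgroup (GM R))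
    · refine mul_mem (inv_mem hH) ?_
      by_contra hn
      have h1 := h.out_x _ _ (hall v hv) hn
      have h2 : f v * f (P.xG (!c)) = f (P.xG (!c)) * f v := by
        rw [← hf.map_mul (hRE hv) (hRE hx), ← hf.map_mul (hRE hx) (hRE hv), h.commH v hH _ hxH]
      have h3 : Commute (f v) (P.xG (!c)) := by
        rcases hfx with e | e <;> rw [e] at h2
        · exact h2
        · exact Commute.inv_right_iff.1 h2
      rw [h3.eq, mul_inv_cancel_right] at h1
      exact h.x_ne _ h1
    · have hn : f v ∉ (HG : Subgroup (GM R)) := by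
        intro hn
        have h1 := hf.map_conj (hRE hv) (hRE hx)
        rw [h.out_x _ v hv hH, hf.mor.map_inv (hRE hx), h.commH _ hn _ hfxH,
          mul_inv_cancel_right] at h1
        rcases hfx with e | e <;> rw [e] at h1
        · exact h.x_ne _ h1.symm
        · rw [inv_inv] at h1; exact h.x_ne _ h1
      obtain ⟨e1, e2⟩ := out_ef P hv hH
      obtain ⟨e3, e4⟩ := out_ef P (hall v hv) hn
      exact ⟨by rw [mul_e, inv_e, e1, e3]; rfl, by rw [mul_f, inv_f, e2, e4]; simp⟩

set_option linter.unusedSectionVars false in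
theorem g5a (h : P.B1) (h' : P.B2) (hy : P.GY F) : P.GInv F := G5a.main h h' hy

end Cfsg.Lib.WQ
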