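import Cfsg.Agent.WQ.Defs
import Cfsg.Agent.Perm.QuatAut

/-! Rigidity of the automizer of `EG c y`. -/

set_option autoImplicit false

namespace Cfsg.Lib.WQ

open Cfsg Cfsg.FusionSystem Subgroup Cfsg.Lib.Fus G2T G2T.GM

namespace G5b

open Ess Rk2

theorem ext_rigid {E : Type*} [Group E] {X Y : Subgroup E}
    (hXY : ∀ g, ∃ u ∈ X, ∃ v ∈ Y, g = u * v) (hc : ∀ u ∈ X, ∀ v ∈ Y, u * v = v * u)
    (hR : Rigid X) {A A' : Subgroup (MulAut E)} (hA : AInv A X) (hA' : AInv A' X)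
    (hI : Inn E ≤ A') (hf : ∀ α ∈ A, (orderOf α).Coprime 2 → ∀ v ∈ Y, α v = v)
    (hf' : ∀ α ∈ A', (orderOf α).Coprime 2 → ∀ v ∈ Y, α v = v) (ho : OHas A') : OLe A A' := by
  let B0 : Subgroup (MulAut E) := A' ⊓ fixingSubgroup (MulAut E) (Y : Set E)
  have hB : ∀ β, β ∈ B0 ↔ β ∈ A' ∧ ∀ v ∈ Y, β v = v := fun β =>
    and_congr_right fun _ => mem_fixingSubgroup_iff (MulAut E)
  have hB0 : AInv B0 X := hA'.mono inf_le_left
  have hext : ∀ α β : MulAut E, (∀ u ∈ X, α u = β u) → (∀ v ∈ Y, α v = v) → (∀ v ∈ Y, β v = v) →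
      α = β := by
    intro α β h1 h2 h3
    ext g
    obtain ⟨u, hu, v, hv, rfl⟩ := hXY g
    rw [map_mul, map_mul, h1 u hu, h2 v hv, h3 v hv]
  have hcop : ∀ {C : Subgroup (MulAut E)} (hC : AInv C X) (a : C),
      (orderOf (a : MulAut E)).Coprime 2 → (orderOf (subHom hC a)).Coprime 2 := fun hC a ha =>
    Nat.Coprime.coprime_dvd_left (orderOf_map_dvd _ _) (by rwa [← orderOf_coe])
  have h1 : Inn X ≤ (subHom hB0).range := by
    rintro _ ⟨u, rfl⟩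
    refine ⟨⟨MulAut.conj (u : E), (hB _).2 ⟨hI ⟨u, rfl⟩, fun v hv => ?_⟩⟩, ?_⟩
    · rw [MulAut.conj_apply, hc u u.2 v hv, mul_inv_cancel_right]
    · ext x; rfl
  have h2 : OHas (subHom hB0).range := by
    obtain ⟨β, hβ, hβo, hβ1⟩ := ho
    have hm : β ∈ B0 := (hB _).2 ⟨hβ, hf' β hβ hβo⟩
    refine ⟨subHom hB0 ⟨β, hm⟩, ⟨_, rfl⟩, hcop hB0 _ hβo, fun e => hβ1 ?_⟩
    exact hext β 1 (triv_bot_iff.1 ((subHom_eq_one_iff hB0 _).1 e)) (hf' β hβ hβo) fun _ _ => rfl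
  intro α hα hαo
  obtain ⟨β, hβ⟩ := hR _ h1 h2 (subHom hA ⟨α, hα⟩) trivial (hcop hA _ hαo)
  have hb := (hB _).1 β.2
  rw [hext α β (fun u hu => ?_) (hf α hα hαo) hb.2]
  · exact hb.1
  · exact (congrArg (fun γ : MulAut X => (γ ⟨u, hu⟩ : E)) hβ).symm

theorem fix_cyc {E : Type*} [Group E] [Finite E] (hE : IsPGroup 2 E) {Z : Subgroup E}
    [IsCyclic Z] {A : Subgroup (MulAut E)} (hA : AInv A Z) {α : MulAut E} (hα : α ∈ A)
    (ho : (orderOf α).Coprime 2) : Triv α Z ⊥ := by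
  refine (subHom_eq_one_iff hA ⟨α, hα⟩).1 ?_
  refine eq_one_of_coprime_of_isPGroup (N := ⊤)
    ((Perm.isPGroup_mulAut_of_isCyclic (hE.to_subgroup Z)).to_subgroup ⊤) trivial ?_
  exact Nat.Coprime.coprime_dvd_left (orderOf_map_dvd _ _) (by rwa [← orderOf_coe])

variable {R : Type} [CommRing R] [Finite R] {P : Par8 R}
  {F : FusionSystem (⊤ : Subgroup (GM R))}

theorem fixY (h : P.B1) (hi : P.GInv F) {c : Bool} {y : GM R} (hy : y ∈ P.RG c) (hyH : y ∉ HG) :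
    ∀ α ∈ F.autGroup (P.EG c y), (orderOf α).Coprime 2 →
      ∀ v ∈ (P.RG (!c)).subgroupOf (P.EG c y), α v = v := by
  intro α hα ho
  have hE : IsPGroup 2 (P.EG c y) := P.pg.to_subgroup _
  have hle : P.RG (!c) ⊓ HG ≤ P.EG c y := inf_le_left.trans le_sup_right
  have hcyc : IsCyclic (P.RG (!c) ⊓ HG : Subgroup (GM R)) :=
    Subgroup.isCyclic_of_le (H' := zpowers (A 1 (sn (!c)) : GM R))
      fun v hv => h.cyc _ v hv.1 hv.2
  have : IsCyclic ((P.RG (!c) ⊓ HG).subgroupOf (P.EG c y)) :=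
    isCyclic_of_surjective _ (subgroupOfEquivOfLe hle).symm.surjective
  have hA : AInv (F.autGroup (P.EG c y)) ((P.RG (!c) ⊓ HG).subgroupOf (P.EG c y)) := by
    refine aInv_of_piso le_top fun f hf x _ hx => ?_
    have := (hi c y hy hyH f hf).2.2 x hx.1
    exact mem_inf.2 ⟨this.1, (mul_mem_cancel_left (inv_mem (mem_inf.1 hx).2)).1 this.2⟩
  have h1 : Triv α ((P.RG (!c)).subgroupOf (P.EG c y))
      ((P.RG (!c) ⊓ HG).subgroupOf (P.EG c y)) := by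
    refine triv_subgroupOf_iff.2 fun x _ hx => ?_
    have := (hi c y hy hyH _ (piso_pext_of_mem le_top hα)).2.2 x hx
    exact mem_inf.2 ⟨mul_mem (inv_mem hx) this.1, this.2⟩
  exact triv_bot_iff.1 (h1.trans hE ho (fix_cyc hE hA hα ho) (aInv_bot (A := ⊤) α trivial))

end G5b

variable {R : Type} [CommRing R] [Finite R] {P : Par8 R}
  {F F' : FusionSystem (⊤ : Subgroup (GM R))}

open G5b in
theorem g5b (h : P.B1) (h' : P.B2) (hi : P.GInv F) (hi' : P.GInv F') : P.GRig F F' := by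
  intro c y hy hyH ho
  obtain ⟨e⟩ := h'.q8 c y hy hyH
  refine ext_rigid (X := (P.QG c y).subgroupOf (P.EG c y))
    (Y := (P.RG (!c)).subgroupOf (P.EG c y)) (fun g => ?_) (fun u hu v hv => ?_)
    (Rk2.rigid_of_q8 ((subgroupOfEquivOfLe le_sup_left).trans e))
    (Ess.aInv_of_piso le_top fun f hf x _ hx => (hi c y hy hyH f hf).2.1 x hx)
    (Ess.aInv_of_piso le_top fun f hf x _ hx => (hi' c y hy hyH f hf).2.1 x hx)
    (inn_le_autGroup F' le_top) (fixY h hi hy hyH) (fixY h hi' hy hyH) ho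
  · obtain ⟨u, hu, v, hv, e⟩ := (h'.memE c y hy g).1 g.2
    exact ⟨⟨u, mem_sup_left hu⟩, hu, ⟨v, mem_sup_right hv⟩, hv, Subtype.ext e⟩
  · exact Subtype.ext (h.comm c u (h'.leQ c y hy hu) v hv)

end Cfsg.Lib.WQ
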