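import Cfsg.Agent.WQ.D1

/-! An automorphism of order three of `TG`. -/

set_option autoImplicit false

namespace Cfsg.Lib.WQ

open Cfsg Cfsg.FusionSystem Subgroup Cfsg.Lib.Fus G2T G2T.GM

variable {R : Type} [CommRing R] [Finite R] {P : Par8 R}
  {F F' : FusionSystem (⊤ : Subgroup (GM R))}

namespace G6b

omit [Finite R] in
theorem maps_H (h : P.B1) {f : Equiv.Perm (GM R)} (hf : PIso F f TG TG) :
    ∀ y ∈ (HG : Subgroup (GM R)), f y ∈ HG := fun y hy =>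
  h.mapH TG le_rfl ⟨P.xG true, rfl, h.x_sq true ▸ P.z_ne_one⟩ f hf.mor.mulOn hf.mor.injOn
    (fun _ hy => hf.maps hy) y hy.1 hy

omit [Finite R] in
theorem maps_inv (h : P.B1) {f : Equiv.Perm (GM R)} (hf : PIso F f TG TG) {y : GM R} (hy : y ∈ HG)
    (h1 : y * y = 1) (h2 : y ≠ 1) : f y = P.z ∨ f y = A P.h 0 ∨ f y = A 0 P.h :=
  (h.invH _ (maps_H h hf y hy) (by rw [← hf.map_mul hy.1 hy.1, h1, hf.mor.map_one])).resolve_left
    fun e => h2 ((hf.mor.eq_one_iff hy.1).1 e)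

theorem fullyN (h : P.B1) : F.IsFullyNormalized TG :=
  isFullyNormalized_of_le_normalizer le_top (normalizer_eq_top_iff.2 h.normT).ge

omit [Finite R] in
theorem piso_cj (h : P.B1) (F : FusionSystem (⊤ : Subgroup (GM R))) (g : GM R) :
    PIso F (cj g) TG TG :=
  PIso.cj F le_top ⟨trivial, (normalizer_eq_top_iff.2 h.normT).ge trivial⟩

omit [Finite R] in
theorem exists_cycle (h : P.B1) (hm : ¬ P.Fix F TG) : ∃ g : Equiv.Perm (GM R), PIso F g TG TG ∧
    g P.z = A P.h 0 ∧ g (A P.h 0) = A 0 P.h ∧ g (A 0 P.h) = P.z := by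
  obtain ⟨f, hf, hz⟩ : ∃ f : Equiv.Perm (GM R), PIso F f TG TG ∧ f P.z = A P.h 0 := by
    by_contra hc
    refine hm fun f hf => ?_
    rcases maps_inv h hf (y := P.z) ⟨rfl, rfl⟩ P.z_mul_z P.z_ne_one with h1 | h1 | h1
    · exact h1
    · exact absurd ⟨f, hf, h1⟩ hc
    · exact absurd ⟨_, hf.trans (piso_cj h F s), by simp [h1, mul_def, inv_def]⟩ hc
  have e : (A 0 P.h : GM R) = P.z * A P.h 0 := by simp [mul_def, P.hh]
  rcases maps_inv h hf (y := A P.h 0) ⟨rfl, rfl⟩ P.x_mul_x P.x_ne_one with h1 | h1 | h1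
  · refine ⟨_, (piso_cj h F s).trans hf, ?_, ?_, ?_⟩
    · rw [Equiv.Perm.mul_apply, cj_apply, P.z_comm, mul_inv_cancel_right, hz]
    · rw [Equiv.Perm.mul_apply, show cj s (A P.h 0) = (A 0 P.h : GM R) by simp [mul_def, inv_def],
        e, hf.map_mul rfl rfl, hz, h1, P.z_comm]
    · rw [Equiv.Perm.mul_apply, show cj s (A 0 P.h) = (A P.h 0 : GM R) by simp [mul_def, inv_def],
        h1]
  · exact absurd (f.injective (h1.trans hz.symm)) P.x_ne_z
  · exact ⟨f, hf, hz, h1, by rw [e, hf.map_mul rfl rfl, hz, h1]; simp [mul_def]⟩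

end G6b

open G6b in
theorem g6b (h : P.B1) (ho : P.GOdd) (hF : F.IsSaturated 2) (hs : P.GStab F)
    (hm : ¬ P.Fix F TG) : GRho F := by
  have _ := hF
  obtain ⟨g, hg, g1, g2, g3⟩ := exists_cycle h hm
  have hHT : (HG : Subgroup (GM R)) ≤ TG := fun y hy => hy.1
  obtain ⟨k, hk, hk3⟩ := exists_pow_pprime_part (p := 2) hg.aut (m := 3) (by norm_num)
  obtain ⟨n, rfl⟩ : ∃ n, k = 3 * n + 1 := ⟨k / 3, by unfold Nat.ModEq at hk3; omega⟩
  have hρ := hg.pow (3 * n + 1)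
  have key : ∀ y, g (g (g y)) = y → (g ^ (3 * n + 1)) y = g y := fun y hy => by
    rw [pow_succ', pow_mul, Equiv.Perm.mul_apply,
      Equiv.Perm.pow_apply_eq_self_of_apply_eq_self (by simpa [pow_succ] using hy)]
  have r1 := (key P.z (by rw [g1, g2, g3])).trans g1
  have r2 := (key (A P.h 0) (by rw [g2, g3, g1])).trans g2
  have r3 := (key (A 0 P.h) (by rw [g3, g1, g2])).trans g3
  have h3 : ∀ y ∈ (TG : Subgroup (GM R)),
      (g ^ (3 * n + 1)) ((g ^ (3 * n + 1)) ((g ^ (3 * n + 1)) y)) = y := fun y hy => by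
    have e : ∀ y ∈ (TG : Subgroup (GM R)), pext TG ((hg.aut ^ (3 * n + 1)) ^ 3) y =
        (g ^ (3 * n + 1)) ((g ^ (3 * n + 1)) ((g ^ (3 * n + 1)) y)) := fun y hy => by
      rw [← pow_mul, hg.pext_aut_pow _ hy, pow_mul]; simp [pow_succ _ 2, pow_two]
    rw [← e y hy, ho TG hHT _ (hk.coprime_dvd_left (orderOf_pow_dvd 3)) (fun y hy => by
      rw [← pext_coe, e y y.2]; exact maps_H h hρ _ (maps_H h hρ _ (maps_H h hρ _ hy)))
      fun y hy => Subtype.ext (by rw [← pext_coe, e y y.2, hy, r1, r2, r3]), map_one]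
    rfl
  generalize g ^ (3 * n + 1) = ρ at hρ r1 r2 r3 h3
  have hH := maps_H h hρ
  refine ⟨ρ, hρ, hH, fun y hy e => ?_, h3, ?_⟩
  · have k1 : ∀ k : ℕ, y ^ k * y ^ k = 1 → y ^ k = 1 := fun k h1 => by
      have h2 : ρ (y ^ k) = y ^ k := by rw [hρ.mor.map_pow hy.1, e]
      rcases h.invH _ (pow_mem hy k) h1 with h4 | h4 | h4 | h4
      · exact h4
      all_goals rw [h4] at h2
      · simp [r1, P.h_ne.symm] at h2
      · simp [r2, P.h_ne] at h2
      · simp [r3, P.h_ne] at h2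
    obtain ⟨j, hj⟩ := P.pg y
    rcases D1.sq_or_four hj with h1 | ⟨k, h1, h2⟩
    · simpa using k1 1 (by simpa using h1)
    · exact absurd (by simpa [pow_add] using k1 (k + k) (by rwa [pow_add])) h1
  · have hσ := ((hρ.trans (piso_cj h F s)).trans hρ).trans (piso_cj h F s)
    obtain ⟨t, ht⟩ := hs TG hHT (fullyN h) (fun f hf => maps_H h hf) _ hσ (by
      have e : (s * A P.h 0 * s⁻¹ : GM R) = A 0 P.h := by simp [mul_def, inv_def]
      simp only [Equiv.Perm.mul_apply, cj_apply, r1, e, r3]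
      rw [P.z_comm, mul_inv_cancel_right])
    simp only [Equiv.Perm.mul_apply, cj_apply] at ht
    refine ⟨t, by_contra fun htH => ?_, ht⟩
    have htT : t ∈ (TG : Subgroup (GM R)) := by
      have h1 := ht (A P.h 0) rfl
      have e : (s * A 0 P.h * s⁻¹ : GM R) = A P.h 0 := by simp [mul_def, inv_def]
      rw [r2, e, r2, e] at h1
      rcases t with ⟨i, k, _ | _, _ | _⟩ <;> simp [mul_def, inv_def, mem_TG, P.h_ne] at h1 ⊢
    have e1 : ∀ y ∈ (HG : Subgroup (GM R)), s * ρ (s * ρ y * s⁻¹) * s⁻¹ = y⁻¹ := fun y hy => by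
      rw [ht y hy.1, (h.invT t htT htH).2 y hy]
    have e2 : ∀ y ∈ (HG : Subgroup (GM R)), s * ρ (s * y * s⁻¹) * s⁻¹ = (ρ (ρ y))⁻¹ :=
      fun y hy => by rw [← e1 _ (hH _ (hH _ hy)), h3 y hy.1]
    have hss : ∀ y : GM R, s * (s * y * s⁻¹) * s⁻¹ = y := by
      rintro ⟨i, k, _ | _, _ | _⟩ <;> simp [mul_def, inv_def]
    have hx : P.xG true ∈ (HG : Subgroup (GM R)) := ⟨rfl, rfl⟩
    have e3 := e1 _ hx
    have e4 := e2 _ (inv_mem (hH _ (hH _ hx)))
    rw [hρ.mor.map_inv (hH _ (hH _ hx)).1, h3 _ hx.1, hρ.mor.map_inv hx.1, inv_inv, ← e2 _ hx,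
      hss] at e4
    rw [← e4, hss, h3 _ (h.normT.conj_mem _ hx.1 s), hss] at e3
    exact h.x_ne true e3

end Cfsg.Lib.WQ
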