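import Cfsg.Agent.WQ.Defs

/-! Normal form of the automizer of `TG`. -/

set_option autoImplicit false

namespace Cfsg.Lib.WQ

open Cfsg Cfsg.FusionSystem Subgroup Cfsg.Lib.Fus G2T G2T.GM

namespace G6c

variable {R : Type} [CommRing R]

theorem A_pow (i k : R) (n : ℕ) : (A i k : GM R) ^ n = A (n * i) (n * k) := by
  induction n with
  | zero => simp [one_def]
  | succ n ih => rw [pow_succ, ih]; simp [mul_def]; constructor <;> ring

theorem eq_A {y : GM R} (hy : y ∈ (HG : Subgroup (GM R))) : ∃ i k, y = A i k :=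
  ⟨y.i, y.k, GM.ext rfl rfl hy.1 hy.2⟩

/-- A multiplicative map of the torus into itself is linear. -/
theorem linear (P : Par8 R) {E : Subgroup (GM R)} (hE : HG ≤ E) {f : GM R → GM R} (hf : MulOn E f)
    {a b c d : R} (h1 : f (A 1 0) = A a b) (h2 : f (A 0 1) = A c d) (i k : R) :
    f (A i k) = A (i * a + k * c) (i * b + k * d) := by
  obtain ⟨n, rfl⟩ := P.nat i
  obtain ⟨l, rfl⟩ := P.nat k
  have e : (A n l : GM R) = A 1 0 ^ n * A 0 1 ^ l := by simp [A_pow, mul_def]
  have m1 : (A 1 0 : GM R) ∈ E := hE ⟨rfl, rfl⟩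
  have m2 : (A 0 1 : GM R) ∈ E := hE ⟨rfl, rfl⟩
  rw [e, hf.map_mul (pow_mem m1 _) (pow_mem m2 _), hf.map_pow m1, hf.map_pow m2, h1, h2]
  simp [A_pow, mul_def]

end G6c

variable {R : Type} [CommRing R] [Finite R] {P : Par8 R}
  {F F' : FusionSystem (⊤ : Subgroup (GM R))}

open G6c in
theorem g6c (h : P.B1) (hr : GRho F) : GN F := by
  obtain ⟨ρ, hρ, hH, hfix, h3, t, ht, hrel⟩ := hr
  have hHT : (HG : Subgroup (GM R)) ≤ TG := fun y hy => hy.1
  have hsum : ∀ y ∈ (HG : Subgroup (GM R)), y * ρ y * ρ (ρ y) = 1 := fun y hy => by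
    have a1 := hH y hy
    have a2 := hH _ a1
    refine hfix _ (mul_mem (mul_mem hy a1) a2) ?_
    rw [hρ.map_mul (hHT (mul_mem hy a1)) (hHT a2), hρ.map_mul (hHT hy) (hHT a1), h3 y (hHT hy),
      h.commH _ (mul_mem a1 a2) y hy, mul_assoc]
  obtain ⟨a, b, h1⟩ := eq_A (hH (A 1 0) ⟨rfl, rfl⟩)
  obtain ⟨c, d, h2⟩ := eq_A (hH (A 0 1) ⟨rfl, rfl⟩)
  have hl := linear P hHT hρ.mor.mulOn h1 h2
  obtain ⟨t1, t2, rfl⟩ := eq_A ht
  have e1 := hsum (A 1 0) ⟨rfl, rfl⟩
  have e2 := hrel (ρ (ρ (A 1 0))) (hρ.maps (hρ.maps rfl))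
  rw [h3 _ rfl, show (s * A 1 0 * s⁻¹ : GM R) = A 0 1 by simp [mul_def, inv_def], h2, h1, hl] at e2
  rw [h1, hl] at e1
  simp [mul_def, inv_def, one_def] at e1 e2
  obtain rfl : c = -b := by linear_combination e2.2 + e1.2
  obtain rfl : d = -a - 1 := by linear_combination e2.1 + e1.1
  have hab : a * a + a + 1 = b * b := by linear_combination e1.1
  obtain ⟨p, q, hγ⟩ : ∃ p q, ρ (Γ 0 0) = Γ p q := by
    refine ⟨_, _, GM.ext rfl rfl (hρ.maps (x := Γ 0 0) rfl) ?_⟩
    by_contra hf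
    have h4 := hH _ (hH _ ⟨hρ.maps (x := Γ 0 0) rfl, by simpa using hf⟩)
    rw [h3 _ rfl] at h4
    exact absurd h4.2 (by simp)
  have hl' : ∀ i k : R, ρ (Γ i k) = Γ (i * a + k * -b + p) (i * b + k * (-a - 1) + q) := by
    intro i k
    rw [show (Γ i k : GM R) = A i k * Γ 0 0 by simp [mul_def], hρ.map_mul rfl rfl, hl, hγ]
    simp [mul_def]
  have e3 := hrel (Γ 0 0) rfl
  rw [hγ, show (s * Γ p q * s⁻¹ : GM R) = Γ q p by simp [mul_def, inv_def], hl'] at e3
  simp [mul_def, inv_def] at e3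
  obtain ⟨v, hv⟩ := (P.unit 1).exists_left_inv
  let i0 := v * (p * (a + 2) - b * q)
  let k0 := v * (b * p - (a - 1) * q)
  let g := v * (t1 - t2)
  have hg : k0 - i0 = g + g := by
    simp only [i0, k0, g]; linear_combination v * (e3.1 - e3.2) - v * (2 * e3.2) + 2 * v * e3.2
  have rel : Rel (fun r : R => (A (r * (a + b)) (r * (a + b + 1)) : GM R))
      (fun r => A (r * (a + b + 1)) (r * (a + b))) ⟨-g, g, true, false⟩ (Γ i0 k0) := by
    constructor <;> intros <;> simp [mul_def, one_def] <;> constructor <;>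
      first | ring1 | linear_combination -hg | linear_combination hg
  have hinj : Function.Injective rel.hom := P.injective P.pg _ (by
    rw [rel.hom_apply]
    simp [mul_def, one_def]
    intro h5
    exact absurd (by linear_combination h5 - (a + b) * P.hh) P.h_ne)
  let φ : GM R ≃* GM R := MulEquiv.ofBijective rel.hom (Finite.injective_iff_bijective.1 hinj)
  have hφ : ∀ y, φ y = rel.hom y := fun _ => rfl
  have hT : ∀ y, φ y ∈ (TG : Subgroup (GM R)) ↔ y ∈ (TG : Subgroup (GM R)) := by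
    rintro ⟨i, k, _ | _, _ | _⟩ <;> simp [hφ, rel.hom_apply, mem_TG, mul_def, one_def]
  refine ⟨φ, hT, hρ.mor.congr fun y hy => ?_⟩
  obtain ⟨y, rfl⟩ := φ.surjective y
  rw [hT] at hy
  rw [φ.symm_apply_apply]
  rcases y with ⟨i, k, _ | _, _ | _⟩
  · simp [hφ, rel.hom_apply, mul_def, one_def, rho0, hl]
    constructor
    · linear_combination (i + k) * hab
    · linear_combination -(i + k) * hab
  · simp [hφ, rel.hom_apply, mul_def, one_def, rho0, hl']
    constructor
    · simp only [i0, k0]; linear_combination (i + k + v * p) * hab - p * hv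
    · simp only [i0, k0]; linear_combination (-(i + k) + v * q) * hab - q * hv
  · exact absurd hy (by simp [mem_TG])
  · exact absurd hy (by simp [mem_TG])

end Cfsg.Lib.WQ
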