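import Cfsg.Agent.WQ.Defs

/-! In a perfect system the groups `EG c y` have automorphisms of odd order. -/

set_option autoImplicit false

namespace Cfsg.Lib.WQ

open Cfsg Cfsg.FusionSystem Subgroup Cfsg.Lib.Fus G2T G2T.GM

namespace G7a

variable {R : Type} [CommRing R]

theorem comm_mem (x s : GM R) : x⁻¹ * (s * x * s⁻¹) ∈ (HG : Subgroup (GM R)) := by
  constructor
  · simp only [mul_e, inv_e]; cases x.e <;> cases s.e <;> rfl
  · simp only [mul_f, inv_f]; cases x.f <;> cases s.f <;> rfl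

theorem exists_M (P : Par8 R) (c : Bool) : ∃ M : Subgroup (GM R), HG ≤ M ∧ P.RG (!c) ≤ M ∧
    Γ 0 0 ∉ M := by
  cases c
  · refine ⟨M₂, fun y hy => hy.1.trans hy.2.symm, ?_, fun e => ?_⟩
    · rintro y (hy | hy)
      · exact hy.1.trans hy.2.1.symm
      · exact hy.1.trans hy.2.1.symm
    · exact Bool.false_ne_true e
  · refine ⟨M₁, fun y hy => hy.2, ?_, fun e => ?_⟩
    · rintro y (hy | hy)
      · exact hy.2.1
      · exact hy.2.1
    · exact Bool.false_ne_true (Eq.symm e)

variable [Finite R] {P : Par8 R} {F : FusionSystem (⊤ : Subgroup (GM R))}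

theorem oHas_of_essential (P : Par8 R) (hF : F.IsSaturated 2) {E : Subgroup (GM R)}
    (hE : F.IsEssential 2 E) : Rk2.OHas (F.autGroup E) := by
  have := Ess.finite_mulAut' (E := E)
  refine Rk2.oHas_of_not_isPGroup fun h2 => ?_
  obtain ⟨t, ht⟩ := Ess.exists_rad_of_essential (P.pg.to_subgroup _) hF hE
  exact ht.not_mem (le_pCoreIn le_rfl h2 (fun a ha x hx => mul_mem (mul_mem ha hx) (inv_mem ha))
    ht.mem)

omit [Finite R] in
theorem oHas_piso {E E' : Subgroup (GM R)} {f : Equiv.Perm (GM R)} (hf : PIso F f E E')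
    (h : Rk2.OHas (F.autGroup E)) : Rk2.OHas (F.autGroup E') := by
  obtain ⟨a, ha, ho, h1⟩ := h
  refine ⟨hf.autCongr a, hf.autCongr_mem ha, by rwa [MulEquiv.orderOf_eq], fun e => h1 ?_⟩
  exact hf.autCongr.map_eq_one_iff.1 e

omit [Finite R] in
theorem conj_EG (h : P.B1) (h' : P.B2) {c : Bool} {y y' g : GM R} (hy : y ∈ P.RG c)
    (hy' : y' ∈ P.RG c) (hg : g ∈ (HG : Subgroup (GM R))) (e : g * y' * g⁻¹ = y) :
    ∀ x ∈ P.EG c y', g * x * g⁻¹ ∈ P.EG c y := by
  have hQ : ∀ u ∈ P.QG c y', g * u * g⁻¹ ∈ P.QG c y := by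
    intro u hu
    induction hu using closure_induction with
    | mem x hx =>
      rcases hx with rfl | rfl
      · rw [(h.centx g).2 hg c, mul_inv_cancel_right]; exact subset_closure (by simp)
      · rw [e]; exact subset_closure (by simp)
    | one => simp
    | mul a b _ _ iha ihb =>
      have := mul_mem iha ihb
      rwa [show g * a * g⁻¹ * (g * b * g⁻¹) = g * (a * b) * g⁻¹ by group] at this
    | inv a _ iha =>
      have := inv_mem iha
      rwa [show (g * a * g⁻¹)⁻¹ = g * a⁻¹ * g⁻¹ by group] at this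
  intro x hx
  obtain ⟨u, hu, v, hv, rfl⟩ := (h'.memE c y' hy' x).1 hx
  exact (h'.memE c y hy _).2 ⟨_, hQ u hu, _, (h.normR _).conj_mem v hv g, by group⟩

end G7a

variable {R : Type} [CommRing R] [Finite R] {P : Par8 R}
  {F F' : FusionSystem (⊤ : Subgroup (GM R))}

open G7a in
theorem g7a (h : P.B1) (h' : P.B2) (hF : F.IsSaturated 2) (ht : GTop F) (hc : P.GCls F)
    (hi : P.GInv F) (foc : ⊤ ≤ F.focalSubgroup) : P.GHas F := by
  intro c y hy hyH
  by_contra hn
  have hne : ∀ y' ∈ P.RG c, y' ∉ HG → ¬ F.IsEssential 2 (P.EG c y') := by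
    intro y' hy' hyH' hE
    obtain ⟨g, hg, e⟩ := h'.conj c y' hy' hyH' y hy hyH
    have hp : PIso F (cj g) (P.EG c y') (P.EG c y) := by
      refine ⟨Mor.cj F le_top trivial, fun x => ⟨fun hx => ?_, conj_EG h h' hy hy' hg e x⟩⟩
      have := conj_EG h h' hy' hy (inv_mem hg) (by rw [← e]; group) _ hx
      simpa [mul_assoc] using this
    exact hn (oHas_piso hp (oHas_of_essential P hF hE))
  obtain ⟨M, hHM, hRM, hM⟩ := exists_M P c
  have hcj : ∀ m ∈ M, ∀ v : GM R, v * m * v⁻¹ ∈ M := fun m hm v =>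
    (mul_mem_cancel_left (inv_mem hm)).1 (hHM (comm_mem m v))
  have key : ∀ (Q : Subgroup (GM R)) (f : Equiv.Perm (GM R)), Mor F Q f →
      ∀ x ∈ Q, x⁻¹ * f x ∈ M := by
    refine alperin_essential (P.pg.to_subgroup _) hF
      (Φ := fun Q f => ∀ x ∈ Q, x⁻¹ * f x ∈ M) ?_ ?_ ?_ ?_
    · intro Q f g _ h1 e x hx
      rw [← e x hx]; exact h1 x hx
    · intro Q Q' f _ h1 hle x hx
      exact h1 x (hle hx)
    · intro Q Q' U f g hf _ h1 h2 x hx
      have := mul_mem (h1 x hx) (h2 _ (hf.maps hx))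
      simpa [mul_assoc] using this
    · rintro Q (rfl | hE) - f hf x hx
      · obtain ⟨s, hs⟩ := ht f hf
        rw [hs]; exact hHM (comm_mem x s)
      · rcases hc Q hE with ⟨rfl, -⟩ | ⟨c', y', hy', hyH', rfl⟩
        · have hu : ∃ u ∈ (TG : Subgroup (GM R)), u * u ≠ 1 :=
            ⟨P.xG true, rfl, by rw [h.x_sq]; exact P.z_ne_one⟩
          have hm : ∀ g : Equiv.Perm (GM R), PIso F g TG TG → ∀ x ∈ (TG : Subgroup (GM R)),
              x ∈ HG → g x ∈ HG := fun g hg =>
            h.mapH TG le_rfl hu g hg.mor.mulOn hg.mor.injOn fun y hy => hg.maps hy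
          refine hHM ?_
          by_cases hH : x ∈ (HG : Subgroup (GM R))
          · exact mul_mem (inv_mem hH) (hm f hf x hx hH)
          · have hH' : f x ∉ (HG : Subgroup (GM R)) := fun e => hH (by
              simpa using hm f⁻¹ hf.symm _ (hf.maps hx) e)
            have e1 : x.e = false := hx
            have e2 : (f x).e = false := hf.maps hx
            have e3 : x.f = true := by
              by_contra e; exact hH ⟨e1, by simpa using e⟩
            have e4 : (f x).f = true := by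
              by_contra e; exact hH' ⟨e2, by simpa using e⟩
            exact ⟨by rw [mul_e, inv_e, e1, e2]; rfl, by rw [mul_f, inv_f, e3, e4]; rfl⟩
        · by_cases hcc : c' = c
          · subst hcc; exact absurd hE (hne y' hy' hyH')
          obtain rfl : c' = !c := by cases c <;> cases c' <;> simp_all
          obtain ⟨-, h1, h2⟩ := hi _ y' hy' hyH' f hf
          obtain ⟨u, hu, v, hv, rfl⟩ := (h'.memE _ y' hy' x).1 hx
          have hQ := h'.leQ _ y' hy'
          rw [hf.map_mul (mem_sup_left hu) (mem_sup_right hv)]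
          have := mul_mem (hcj _ (mul_mem (inv_mem (hRM (hQ hu))) (hRM (hQ (h1 u hu)))) v⁻¹)
            (hHM (h2 v hv).2)
          simpa [mul_assoc] using this
  refine hM (foc.trans (focalSubgroup_le_iff.2 fun Q f hf x hx => ?_) trivial)
  obtain ⟨g, hg, e⟩ := hf.exists_perm
  rw [← e x hx]; exact key Q g hg x hx

end Cfsg.Lib.WQ
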