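import Cfsg.Agent.WQ.Defs

/-! The central involution is moved by the automizer of `TG`. -/

set_option autoImplicit false

namespace Cfsg.Lib.WQ

open Cfsg Cfsg.FusionSystem Subgroup Cfsg.Lib.Fus G2T G2T.GM

variable {R : Type} [CommRing R] [Finite R] {P : Par8 R}
  {F F' : FusionSystem (⊤ : Subgroup (GM R))}

theorem g7b (hF : F.IsSaturated 2) (ht : GTop F) (hc : P.GCls F) (hi : P.GInv F)
    (mv : ∃ w, w ≠ P.z ∧ F.IsConjElt P.z w) : ¬ P.Fix F TG := by
  intro hfix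
  have key : ∀ (Q : Subgroup (GM R)) (f : Equiv.Perm (GM R)), Mor F Q f →
      P.z ∈ Q → f P.z = P.z := by
    refine alperin_essential (P.pg.to_subgroup _) hF
      (Φ := fun Q f => P.z ∈ Q → f P.z = P.z) ?_ ?_ ?_ ?_
    · intro Q f g _ h1 e hz
      rw [← e _ hz]; exact h1 hz
    · intro Q Q' f _ h1 hle hz
      exact h1 (hle hz)
    · intro Q Q' U f g hf _ h1 h2 hz
      have h3 := hf.maps hz
      rw [h1 hz] at h3
      rw [Equiv.Perm.mul_apply, h1 hz, h2 h3]
    · rintro Q (rfl | hE) - f hf hz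
      · obtain ⟨s, hs⟩ := ht f hf
        rw [hs, P.z_comm s, mul_inv_cancel_right]
      · rcases hc Q hE with ⟨-, hn⟩ | ⟨c, y, hy, hyH, rfl⟩
        · exact absurd hfix hn
        · exact (hi c y hy hyH f hf).1
  obtain ⟨w, hw, hcj⟩ := mv
  obtain ⟨f, hf, rfl⟩ := isConjElt_iff.1 hcj
  obtain ⟨g, hg, e⟩ := hf.exists_perm
  exact hw (by rw [← e _ (mem_zpowers _)]; exact key _ g hg (mem_zpowers _))

end Cfsg.Lib.WQ
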