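import Cfsg.Agent.WQ.G6b

/-! Comparison of two systems in normal form. -/

set_option autoImplicit false

namespace Cfsg.Lib.WQ

open Cfsg Cfsg.FusionSystem Subgroup Cfsg.Lib.Fus G2T G2T.GM

variable {R : Type} [CommRing R] [Finite R] {P : Par8 R}
  {F F' : FusionSystem (⊤ : Subgroup (GM R))}

open G6b in
theorem g8 (h : P.B1) (hF : F.IsSaturated 2) (ht : GTop F) (hs : P.GStab F) (hc : P.GCls F)
    (hr : P.GRig F F') (hh : P.GHas F') (h0 : Mor F TG rho0) (h0' : Mor F' TG rho0) : F ≤ F' := by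
  have hS : IsPGroup 2 (⊤ : Subgroup (GM R)) := P.pg.to_subgroup _
  refine sub_of_alperin_essential hS hF ?_
  rintro Q (rfl | hQ) - f hf
  · obtain ⟨g, hg⟩ := ht f hf
    exact (Mor.conj F' le_rfl (mem_top g)).congr fun y _ => (hg y).symm
  rcases hc Q hQ with ⟨rfl, -⟩ | ⟨c, y, hy, hyH, rfl⟩
  · have hm : ∀ y ∈ (TG : Subgroup (GM R)), rho0 y ∈ (TG : Subgroup (GM R)) := fun y hy => hy
    obtain ⟨r, hr, e⟩ := h0.exists_perm
    have hr' := hr.piso_of_maps fun y hy => e y hy ▸ hm y hy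
    have k0 : ∀ f : Equiv.Perm (GM R), PIso F f TG TG → f P.z = P.z → Mor F' TG f :=
      fun f hf hz => by
        obtain ⟨g, hg⟩ := hs TG (fun y hy => hy.1) (fullyN h) (fun f hf => maps_H h hf) f hf hz
        exact (Mor.conj F' le_top (mem_top g)).congr fun y hy => (hg y hy).symm
    have k1 : ∀ f : Equiv.Perm (GM R), PIso F f TG TG → Mor F' TG (r * f : Equiv.Perm (GM R)) →
        Mor F' TG f := fun f hf h1 => by
      have h2 : ∀ y ∈ (TG : Subgroup (GM R)), (r * f) y ∈ (TG : Subgroup (GM R)) :=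
        fun y hy => (hf.trans hr').maps hy
      refine ((h1.comp h0' h2).comp h0' fun y hy => hm _ (h2 y hy)).congr fun y hy => ?_
      simp only [Function.comp, Equiv.Perm.mul_apply, e _ (hf.maps hy)]
      ext <;> simp only [rho0] <;> ring
    have e1 : r (A 0 P.h) = P.z := by rw [e _ rfl]; simp [rho0, P.neg_h]
    have e2 : r (A P.h 0) = A 0 P.h := by rw [e _ rfl]; simp [rho0, P.neg_h]
    rcases maps_inv h hf (y := P.z) ⟨rfl, rfl⟩ P.z_mul_z P.z_ne_one with h1 | h1 | h1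
    · exact k0 f hf h1
    · exact k1 f hf (k1 _ (hf.trans hr') (k0 _ ((hf.trans hr').trans hr') (by
        simp only [Equiv.Perm.mul_apply, h1, e1, e2])))
    · exact k1 f hf (k0 _ (hf.trans hr') (by simp only [Equiv.Perm.mul_apply, h1, e1]))
  · have := finite_autGroup F (le_top (a := P.EG c y))
    obtain ⟨b, hb, t, ht, e⟩ := (sat_sylIn hS hF hQ.2.1).exists_resIn_mul hf.aut_mem
    have h1 : hf.aut ∈ F'.autGroup (P.EG c y) := e ▸ mul_mem
      (resIn_le_iff.2 (hr c y hy hyH (hh c y hy hyH)) hb) (autInducedBy_le_autGroup F' le_top ht)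
    exact (piso_pext_of_mem le_top h1).mor.congr fun x hx => hf.pext_aut hx

end Cfsg.Lib.WQ
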