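import Cfsg.Agent.WQ.Defs
import Cfsg.Agent.Fus.GrpImg
import Cfsg.Agent.Fus.Transfer
import Cfsg.Agent.Trans.NormalComplement
import Cfsg.Agent.S5093

/-! The system of a Sylow embedding of `GM R` in a group without subgroup of index two. -/

set_option autoImplicit false

namespace Cfsg.Lib.WQ

open Cfsg Cfsg.FusionSystem Subgroup Cfsg.Lib.Fus G2T G2T.GM

variable {R : Type} [CommRing R] [Finite R] {P : Par8 R}
  {F F' : FusionSystem (⊤ : Subgroup (GM R))}

namespace G9b

theorem res_top {G : Type*} [Group G] [Finite G] (h : ∀ H : Subgroup G, H.index ≠ 2) :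
    pResidual 2 G = ⊤ := by
  by_contra hn
  have hq := Trans.isPGroup_quotient_pResidual (G := G) (p := 2)
  have hb : (⊥ : Subgroup (G ⧸ pResidual 2 G)) ≠ ⊤ := by
    intro e
    refine hn (eq_top_iff.2 fun g _ => ?_)
    have : (QuotientGroup.mk g : G ⧸ pResidual 2 G) ∈ (⊥ : Subgroup _) := e ▸ mem_top _
    exact (QuotientGroup.eq_one_iff g).1 (mem_bot.1 this)
  obtain ⟨T, -, -, hT⟩ := exists_normal_index_prime hq hb
  refine h (T.comap (QuotientGroup.mk' _)) ?_
  rw [index_comap_of_surjective _ (QuotientGroup.mk'_surjective _), hT]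

end G9b

theorem g9b {G : Type*} [Group G] [Finite G] (h : GEmb P G) :
    ∃ (F' : FusionSystem (⊤ : Subgroup (GM R))) (E : Rank2.SylEmb (GM R) G), P.Good F' ∧
      FImg F' (groupFusionSystem E.j.range) E.j := by
  obtain ⟨E, h2, t, ht, hc⟩ := h
  have hS : IsPGroup 2 (⊤ : Subgroup (GM R)) := P.pg.to_subgroup _
  let E0 : Rank2.SylEmb (⊤ : Subgroup (GM R)) G := Rk2.precomp E Subgroup.topEquiv
  have hr : E0.j.range = E.j.range := by
    ext g
    exact ⟨fun ⟨x, e⟩ => ⟨x, e⟩, fun ⟨x, e⟩ => ⟨⟨x, trivial⟩, e⟩⟩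
  have he : ∀ x, extFun E0.j x = E.j x := fun x => extFun_of_mem E0.j (mem_top x)
  have hreal := Rk2.pullE_realized E0
  have hI : FImg (Rk2.pullE E0) (groupFusionSystem E.j.range) E.j := by
    have := (fImg_of_realized hreal).congr (t' := E.j) fun x _ => he x
    generalize E0.j.range = T at hr this
    subst hr
    exact this
  refine ⟨Rk2.pullE E0, E, ⟨Rk2.pullE_saturated hS E0, fun x _ => ?_, t, ht, ?_⟩, hI⟩
  · obtain ⟨T, hT⟩ := Rk2.exists_sylow_eq hS E0
    have h1 := Cfsg.Agent.S5093.result 2 T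
    rw [G9b.res_top h2, inf_top_eq] at h1
    have h3 : (T : Subgroup G) ≤ (groupFusionSystem (T : Subgroup G)).focalSubgroup :=
      h1.ge.trans hyperfocal_le_focal
    rw [hT, hr, hI.focal] at h3
    exact (mem_img_iff_of_inj hI.mulOn (fun a _ b _ e => E.inj e) le_top (mem_top x)).1
      (h3 ⟨x, rfl⟩)
  · obtain ⟨g, hg⟩ := isConj_iff.1 hc
    refine isConjElt_iff.2 ⟨pullConj E0.j g, mor_pullConj hreal le_top ?_, E.inj ?_⟩
    · rintro _ ⟨k, rfl⟩
      rw [he, hr]
      exact ⟨t ^ k, by simp only [map_zpow]; rw [← hg, conj_zpow]⟩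
    · rw [← he, extFun_pullConj, he, hg]
      rw [he, hg, hr]
      exact ⟨t, rfl⟩

end Cfsg.Lib.WQ
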