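import Cfsg.Agent.WQ.G6c

/-! An automorphism of odd order that preserves the torus and fixes `z` is trivial. -/

set_option autoImplicit false

namespace Cfsg.Lib.WQ

open Cfsg Cfsg.FusionSystem Subgroup Cfsg.Lib.Fus G2T G2T.GM

variable {R : Type} [CommRing R] [Finite R] {P : Par8 R}

namespace GO

/-- The elements of the torus with coordinates in the ideal generated by `c`. -/
def HI (c : R) : Subgroup (GM R) where
  carrier := {y | y ∈ HG ∧ c ∣ y.i ∧ c ∣ y.k}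
  mul_mem' := by
    rintro ⟨i, k, _, _⟩ ⟨i', k', _, _⟩ ⟨⟨rfl, rfl⟩, h1, h2⟩ ⟨⟨rfl, rfl⟩, h3, h4⟩
    exact ⟨⟨rfl, rfl⟩, dvd_add h1 h3, dvd_add h2 h4⟩
  one_mem' := ⟨one_mem _, dvd_zero _, dvd_zero _⟩
  inv_mem' := by
    rintro ⟨i, k, _, _⟩ ⟨⟨rfl, rfl⟩, h1, h2⟩
    exact ⟨⟨rfl, rfl⟩, dvd_neg.2 h1, dvd_neg.2 h2⟩

/-- The elements of the torus with even sum of coordinates, scaled by `c`. -/
def HJ (c : R) : Subgroup (GM R) where
  carrier := {y | y ∈ HG ∧ c ∣ y.i ∧ c * 2 ∣ y.i + y.k}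
  mul_mem' := by
    rintro ⟨i, k, _, _⟩ ⟨i', k', _, _⟩ ⟨⟨rfl, rfl⟩, h1, h2⟩ ⟨⟨rfl, rfl⟩, h3, h4⟩
    refine ⟨⟨rfl, rfl⟩, dvd_add h1 h3, ?_⟩
    have := dvd_add h2 h4
    rwa [add_add_add_comm] at this
  one_mem' := ⟨one_mem _, dvd_zero _, by simp [one_def]⟩
  inv_mem' := by
    rintro ⟨i, k, _, _⟩ ⟨⟨rfl, rfl⟩, h1, h2⟩
    refine ⟨⟨rfl, rfl⟩, dvd_neg.2 h1, ?_⟩
    have := dvd_neg.2 h2
    rwa [neg_add] at this

omit [Finite R] in
theorem odd_of (P : Par8 R) {u : R} (h : P.h * u = P.h) : ∃ v, u = v + v + 1 := by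
  obtain ⟨v, rfl | rfl⟩ := P.ev u
  · exact absurd (by linear_combination v * P.hh - h) P.h_ne
  · exact ⟨v, rfl⟩

end GO

open GO in
theorem gO (h : P.B1) : P.GOdd := by
  intro E hE β ho hH hz
  have hp : IsPGroup 2 E := P.pg.to_subgroup E
  refine Ess.eq_one_of_triv_selfCent hp ho (X := HG.subgroupOf E) (fun g hg => h.centH g
    fun u hu => (congrArg Subtype.val (hg ⟨u, hE hu⟩ hu)).symm) ?_
  have hH' : ∀ y ∈ (HG : Subgroup (GM R)), pext E β y ∈ HG := fun y hy => by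
    rw [pext_of_mem β (hE hy)]; exact hH _ hy
  obtain ⟨a, b, h1⟩ := G6c.eq_A (hH' (A 1 0) ⟨rfl, rfl⟩)
  obtain ⟨c, d, h2⟩ := G6c.eq_A (hH' (A 0 1) ⟨rfl, rfl⟩)
  have hl := G6c.linear P hE (mulOn_pext β) h1 h2
  have h3 : pext E β P.z = P.z := by
    rw [pext_of_mem β (hE ⟨rfl, rfl⟩), hz _ rfl]
  rw [hl] at h3
  simp only [GM.mk.injEq, and_true] at h3
  obtain ⟨u, hu⟩ := odd_of P (u := a + c) (by linear_combination h3.1)
  obtain ⟨v, hv⟩ := odd_of P (u := b + d) (by linear_combination h3.2)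
  obtain ⟨w, hw⟩ : ∃ w, a + b = w + w + 1 := by
    have h4 : pext E β (A P.h 0) ≠ 1 := fun e => P.x_ne_one ((pext E β).injective
      (e.trans (mulOn_pext β).map_one.symm))
    have h5 : pext E β (A P.h 0) ≠ pext E β P.z := fun e => P.x_ne_z ((pext E β).injective e)
    rw [hl] at h4
    rw [hl, hl, h3.1, h3.2] at h5
    obtain ⟨w, rfl | rfl⟩ := P.ev a <;> obtain ⟨w', rfl | rfl⟩ := P.ev b
    · exact (h4 (GM.ext (by simp only [one_def]; linear_combination w * P.hh)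
        (by simp only [one_def]; linear_combination w' * P.hh) rfl rfl)).elim
    · exact ⟨w + w', by ring⟩
    · exact ⟨w + w', by ring⟩
    · exact (h5 (GM.ext (by simp only; linear_combination w * P.hh)
        (by simp only; linear_combination w' * P.hh) rfl rfl)).elim
  obtain rfl : b = w + w + 1 - a := by linear_combination hw
  obtain rfl : c = u + u + 1 - a := by linear_combination hu
  obtain rfl : d = v + v - w - w + a := by linear_combination hv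
  have t1 : ∀ e : R, Ess.Triv β ((HI e).subgroupOf E) ((HJ e).subgroupOf E) := fun e => by
    refine Ess.triv_subgroupOf_iff.2 ?_
    rintro ⟨_, _, _, _⟩ - ⟨⟨rfl, rfl⟩, ⟨i, rfl⟩, k, rfl⟩
    rw [hl]
    exact ⟨⟨rfl, rfl⟩, ⟨-i + (i * a + k * (u + u + 1 - a)), by simp [mul_def, inv_def]; ring⟩,
      i * w + k * (u + v - w), by simp [mul_def, inv_def]; ring⟩
  have t2 : ∀ e : R, Ess.Triv β ((HJ e).subgroupOf E) ((HI (e * 2)).subgroupOf E) := fun e => by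
    refine Ess.triv_subgroupOf_iff.2 ?_
    rintro ⟨_, k, _, _⟩ - ⟨⟨rfl, rfl⟩, ⟨i, rfl⟩, l, hk⟩
    obtain rfl : k = e * (2 * l - i) := by linear_combination hk
    rw [hl]
    exact ⟨⟨rfl, rfl⟩, ⟨i * (a - u - 1) + l * (u + u + 1 - a), by simp [mul_def, inv_def]; ring⟩,
      i * (w + w + 1 - a - v) + l * (v + v - w - w + a - 1), by simp [mul_def, inv_def]; ring⟩
  have i1 : ∀ e : R, ∀ y ∈ (HI e).subgroupOf E, β y ∈ (HI e).subgroupOf E := fun e y hy => by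
    rw [mem_subgroupOf, ← pext_coe]
    rcases y with ⟨⟨_, _, _, _⟩, hyE⟩
    obtain ⟨⟨rfl, rfl⟩, h4, h5⟩ := mem_subgroupOf.1 hy
    rw [hl]
    exact ⟨⟨rfl, rfl⟩, dvd_add (h4.mul_right _) (h5.mul_right _),
      dvd_add (h4.mul_right _) (h5.mul_right _)⟩
  have t3 : ∀ n : ℕ, Ess.Triv β (HG.subgroupOf E) ((HI (2 ^ n : R)).subgroupOf E) := fun n => by
    induction n with
    | zero =>
      exact (Ess.triv_self fun y hy => hH y hy).mono le_rfl fun y hy => ⟨hy, by simp, by simp⟩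
    | succ n ih =>
      rw [pow_succ]
      exact ih.trans hp ho ((t1 _).trans hp ho (t2 _) (i1 _)) (i1 _)
  obtain ⟨n, hn⟩ := P.pg (A 1 0)
  rw [G6c.A_pow] at hn
  have h0 : (2 ^ n : R) = 0 := by simpa [one_def] using hn
  refine (t3 n).mono le_rfl ?_
  rintro ⟨⟨i, k, _, _⟩, hyE⟩ ⟨⟨rfl, rfl⟩, h4, h5⟩
  rw [h0, zero_dvd_iff] at h4 h5
  exact mem_bot.2 (Subtype.ext (GM.ext h4 h5 rfl rfl))

theorem GO.HI_eq_1' : type_of% @GO.HI.eq_1 := @GO.HI.eq_1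
theorem GO.HJ_eq_1' : type_of% @GO.HJ.eq_1 := @GO.HJ.eq_1

end Cfsg.Lib.WQ
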