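import Cfsg.Agent.WQ.Defs

/-! The stabilizer of `z` in the automizer of an overgroup of the torus. -/

set_option autoImplicit false

namespace Cfsg.Lib.WQ

open Cfsg Cfsg.FusionSystem Subgroup Cfsg.Lib.Fus G2T G2T.GM

variable {R : Type} [CommRing R] [Finite R] {P : Par8 R}
  {F F' : FusionSystem (⊤ : Subgroup (GM R))}

theorem gS (h : P.B1) (ho : P.GOdd) (hF : F.IsSaturated 2) : P.GStab F := by
  intro E hHE hN hinv f hf hz
  have := Ess.finite_mulAut' (E := E)
  have hzH : P.z ∈ (HG : Subgroup (GM R)) := by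
    rw [← h.x_sq true]; exact h.sq_mem _
  let z0 : E := ⟨P.z, hHE hzH⟩
  let Az : Subgroup (MulAut E) := F.autGroup E ⊓ MulAction.stabilizer (MulAut E) z0
  have hAz : ∀ β : MulAut E, β ∈ Az ↔ β ∈ F.autGroup E ∧ β z0 = z0 := fun β => Iff.rfl
  have hp : IsPGroup 2 Az := by
    refine isPGroup_iff_resIn_eq_bot.2 (le_bot_iff.1 (resIn_le_iff.2 fun β hβ hc => mem_bot.2 ?_))
    refine ho E hHE β hc (fun y hy => ?_) fun y hy => ?_
    · rw [← pext_coe]
      exact hinv _ (piso_pext_of_mem le_top ((hAz β).1 hβ).1) _ hy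
    · obtain rfl : y = z0 := Subtype.ext hy
      exact ((hAz β).1 hβ).2
  have hsyl := sat_sylIn (P.pg.to_subgroup _) hF hN
  have hle : autInducedBy ⊤ E ≤ Az := by
    intro β hβ
    refine (hAz β).2 ⟨hsyl.le hβ, Subtype.ext ?_⟩
    obtain ⟨g, -, hg⟩ := mem_autInducedBy_pext.1 hβ
    rw [← pext_coe, hg _ z0.2]
    change g * P.z * g⁻¹ = P.z
    rw [P.z_comm g, mul_inv_cancel_right]
  have he := hsyl.max Az hle inf_le_left hp
  have hm : hf.aut ∈ Az := by
    refine (hAz _).2 ⟨hf.aut_mem, Subtype.ext ?_⟩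
    rw [← pext_coe, hf.pext_aut z0.2]
    exact hz
  rw [he] at hm
  obtain ⟨g, -, hg⟩ := mem_autInducedBy_pext.1 hm
  exact ⟨g, fun y hy => by rw [← hg y hy, hf.pext_aut hy]⟩

end Cfsg.Lib.WQ
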