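import Cfsg.Agent.WQ.Defs

/-! Arithmetic in the generalized quaternion group. -/

set_option autoImplicit false

namespace Cfsg.Lib.WQ

open Cfsg Cfsg.FusionSystem Subgroup Cfsg.Lib.Fus

variable {Ω : Type*} [Group Ω] {S : Subgroup Ω} [Finite S] {F : FusionSystem S} {m : ℕ}
  {a b w β : Ω}

namespace Q0

theorem exists_invol (k : ℕ) : ∀ x : Ω, x ^ 2 ^ k = 1 → x ≠ 1 →
    ∃ y ∈ zpowers x, y ≠ 1 ∧ y * y = 1 := by
  induction k with
  | zero => exact fun x h1 h2 => absurd (by simpa using h1) h2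
  | succ k ih =>
    intro x h1 h2
    by_cases h : x * x = 1
    · exact ⟨x, mem_zpowers x, h2, h⟩
    obtain ⟨y, h3, h4⟩ := ih (x * x) (by rw [← pow_two, ← pow_mul, ← pow_succ', h1]) h
    exact ⟨y, zpowers_le.2 (mul_mem (mem_zpowers x) (mem_zpowers x)) h3, h4⟩

end Q0

theorem q0 (h1 : orderOf a = 2 ^ (m + 3)) (h2 : b * b = zz m a) (h3 : b * a * b⁻¹ = a⁻¹) :
    GB m a b := by
  have hz : zz m a = a ^ ((2 : ℤ) ^ (m + 2)) := by exact_mod_cast rfl
  have hp : (0 : ℤ) < 2 ^ m := by positivity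
  have inj : ∀ i j : ℤ, a ^ i = a ^ j ↔ i ≡ j [ZMOD 2 ^ (m + 3)] := fun i j => by
    rw [zpow_eq_zpow_iff_modEq, h1]
    push_cast
    rfl
  have bpow : ∀ i : ℤ, b * a ^ i = a ^ (-i) * b := fun i => by
    rw [← mul_inv_eq_iff_eq_mul, ← conj_zpow, h3, inv_zpow']
  have mb : ∀ i j : ℤ, a ^ i * b * (a ^ j * b) = a ^ (i - j + 2 ^ (m + 2)) := fun i j => by
    rw [mul_assoc, ← mul_assoc b, bpow, mul_assoc, h2, hz, ← zpow_add, ← zpow_add]
    congr 1
    ring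
  have mem : ∀ x, x ∈ RR a b ↔ ∃ i : ℤ, x = a ^ i ∨ x = a ^ i * b := fun x => by
    refine ⟨fun hx => ?_, ?_⟩
    swap
    · rintro ⟨i, rfl | rfl⟩
      exacts [zpow_mem (a_mem_RR a b) i, mul_mem (zpow_mem (a_mem_RR a b) i) (b_mem_RR a b)]
    induction hx using closure_induction with
    | mem x hx =>
      rcases hx with rfl | rfl
      exacts [⟨1, .inl (zpow_one _).symm⟩, ⟨0, .inr (by simp)⟩]
    | one => exact ⟨0, .inl (by simp)⟩
    | mul x y _ _ hx hy =>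
      obtain ⟨i, rfl | rfl⟩ := hx <;> obtain ⟨j, rfl | rfl⟩ := hy
      exacts [⟨i + j, .inl (zpow_add _ _ _).symm⟩, ⟨i + j, .inr (by rw [zpow_add, mul_assoc])⟩,
        ⟨i + -j, .inr (by rw [zpow_add, mul_assoc, mul_assoc, bpow])⟩, ⟨_, .inl (mb i j)⟩]
    | inv x _ hx =>
      obtain ⟨i, rfl | rfl⟩ := hx
      exacts [⟨-i, .inl (zpow_neg _ _).symm⟩, ⟨i + 2 ^ (m + 2), .inr
        (inv_eq_of_mul_eq_one_right (by rw [mb]; simp))⟩]
  have ne : ∀ i j : ℤ, a ^ i * b ≠ a ^ j := fun i j e => by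
    have e1 : b = a ^ (-i + j) := by rw [zpow_add, ← e, zpow_neg, inv_mul_cancel_left]
    rw [e1, (Commute.zpow_left (.refl a) _).eq, mul_inv_cancel_right, ← zpow_neg_one] at h3
    have := Int.le_of_dvd two_pos (Int.modEq_iff_dvd.1 ((inj (-1) 1).1 (by rw [← h3, zpow_one])))
    rw [pow_add] at this
    omega
  have sq : ∀ i : ℤ, a ^ i * b * (a ^ i * b) = zz m a := fun i => by rw [mb, hz, sub_self, zero_add]
  have z2 : zz m a * zz m a = 1 := by
    rw [← pow_add, ← two_mul, ← pow_succ', ← h1, pow_orderOf_eq_one]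
  have z1 : zz m a ≠ 1 := pow_ne_one_of_lt_orderOf (by positivity)
    (h1 ▸ Nat.pow_lt_pow_right one_lt_two (by omega))
  have invol : ∀ x ∈ RR a b, x * x = 1 → x = 1 ∨ x = zz m a := fun x hx e => by
    obtain ⟨i, rfl | rfl⟩ := (mem x).1 hx
    swap
    · exact absurd ((sq i).symm.trans e) z1
    obtain ⟨t, ht⟩ := Int.modEq_iff_dvd.1 ((inj 0 (i + i)).1 (by rw [zpow_add, e, zpow_zero]))
    obtain rfl : i = 2 ^ (m + 2) * t := by rw [pow_succ] at ht; linarith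
    rw [zpow_mul, ← hz]
    obtain ⟨s, rfl | rfl⟩ := Int.even_or_odd' t
    · exact .inl (by rw [zpow_mul, zpow_two, z2, one_zpow])
    · exact .inr (by rw [zpow_add, zpow_mul, zpow_two, z2, one_zpow, one_mul, zpow_one])
  have zmem : ∀ x ∈ RR a b, x ≠ 1 → zz m a ∈ zpowers x := fun x hx x1 => by
    obtain ⟨i, rfl | rfl⟩ := (mem x).1 hx
    swap
    · exact sq i ▸ mul_mem (mem_zpowers _) (mem_zpowers _)
    obtain ⟨y, y1, y2, y3⟩ := Q0.exists_invol (m + 3) _ (by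
      rw [← zpow_natCast, ← zpow_mul, mul_comm, zpow_mul, zpow_natCast, ← h1, pow_orderOf_eq_one,
        one_zpow]) x1
    exact (invol y (zpowers_le.2 hx y1) y3).resolve_left y2 ▸ y1
  refine ⟨inj, bpow, mem, ne, sq, z2, z1, by rw [← h2, mul_assoc], invol, zmem, fun x hx e => ?_, ?_⟩
  · obtain ⟨k, hk⟩ := zmem _ (mul_mem hx hx) e
    exact ⟨k, ((Commute.refl x).mul_zpow k).symm.trans hk⟩
  · rw [← ((zpowers a).subgroupOf (RR a b)).card_mul_index,
      Nat.card_congr (subgroupOfEquivOfLe (zpowers_le.2 (a_mem_RR a b))).toEquiv, Nat.card_zpowers,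
      h1, index_eq_two_iff.2 ⟨⟨b, b_mem_RR a b⟩, fun x => ?_⟩, ← pow_succ]
    simp only [mem_subgroupOf, coe_mul]
    obtain ⟨i, e | e⟩ := (mem x).1 x.2 <;> rw [e]
    · exact .inr ⟨⟨i, rfl⟩, fun ⟨j, e⟩ => ne i j e.symm⟩
    · refine .inl ⟨?_, fun ⟨j, e⟩ => ne i j e.symm⟩
      rw [mul_assoc, h2]
      exact mul_mem ⟨i, rfl⟩ (npow_mem_zpowers _ _)

end Cfsg.Lib.WQ
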