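import Cfsg.Agent.WQ.Q4

/-! Basic fusion facts for a weakly closed quaternion subgroup. -/

set_option autoImplicit false

namespace Cfsg.Lib.WQ

open Cfsg Cfsg.FusionSystem Subgroup Cfsg.Lib.Fus

variable {Ω : Type*} [Group Ω] {S : Subgroup Ω} [Finite S] {F : FusionSystem S} {m : ℕ}
  {a b w β : Ω}

namespace Q1

theorem ab (G : GB m a b) : a * b ≠ b * a := fun e => by
  have h := G.bpow 1
  rw [zpow_one, ← e, mul_left_inj] at h
  have := Int.le_of_dvd two_pos (Int.modEq_iff_dvd.1 ((G.inj (-1) 1).1 (by rw [← h, zpow_one])))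
  have hp : (0 : ℤ) < 2 ^ m := by positivity
  rw [pow_add] at this
  omega

omit [Finite S] in
theorem maps (H : Hyp F m a b) {P : Subgroup Ω} {f : Ω → Ω} (hf : Mor F P f) (hP : RR a b ≤ P)
    {x : Ω} (hx : x ∈ RR a b) : f x ∈ RR a b :=
  (weaklyClosed_iff.1 H.wc).2 f (hf.restrict hP) ▸ mem_img_of_mem f hx

omit [Finite S] in
theorem morR (H : Hyp F m a b) (G : GB m a b) (P : Subgroup Ω) (f : Ω → Ω) (hf : Mor F P f)
    (hP : RR a b ≤ P) : f (zz m a) = zz m a ∧ ∃ l : ℤ, Odd l ∧ f a = a ^ l := by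
  have aP := hP (a_mem_RR a b)
  have z1 : f a ^ 2 ^ (m + 2) ≠ 1 := by
    rw [← hf.map_pow aP, Ne, hf.eq_one_iff (pow_mem aP _)]
    exact G.z1
  obtain ⟨l, e | e⟩ := (G.mem _).1 (maps H hf hP (a_mem_RR a b))
  swap
  · refine absurd ?_ z1
    rw [e, pow_add, mul_comm, pow_mul, show 2 ^ 2 = 2 * 2 from rfl, pow_mul, pow_two (_ * b), G.sq,
      pow_two, G.z2, one_pow]
  have e1 : f a ^ 2 ^ (m + 2) = zz m a ^ l := by
    rw [e, ← zpow_natCast, ← zpow_mul, mul_comm, zpow_mul, zpow_natCast]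
  have hl : Odd l := by
    by_contra hl
    obtain ⟨t, rfl⟩ := Int.not_odd_iff_even.1 hl
    exact z1 (by rw [e1, ← two_mul, zpow_mul, zpow_two, G.z2, one_zpow])
  exact ⟨by rw [hf.map_pow aP, e1, Q4.z_zpow G hl], l, hl, e⟩

end Q1

open Q1 in
theorem q1 (H : Hyp F m a b) (G : GB m a b) : FB F m a b := by
  have hR : RR a b ≤ S := H.wc.1
  have zS : zz m a ∈ S := pow_mem H.aS _
  have zc : ∀ s ∈ S, s * zz m a = zz m a * s := fun s hs =>
    mul_inv_eq_iff_eq_mul.1 (morR H G _ _ (Mor.conj F le_rfl hs) hR).1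
  have f1 := H.f1 _ zS (zc a H.aS).symm G.zb G.z2 G.z1
  have psi : ∀ w, F.IsConjElt (zz m a) w →
      ∃ f : Equiv.Perm Ω, Mor F (CC S w) f ∧ f w = zz m a := fun w hw => by
    obtain ⟨k, k1, k2⟩ := isConjElt_iff.1 (isConjElt_symm hw)
    obtain ⟨g, g1, g2⟩ := k1.exists_perm
    have g3 := g1.piso
    rw [img_zpowers g1.mulOn (mem_zpowers w), g2 w (mem_zpowers w), k2] at g3
    obtain ⟨f, f1, f2⟩ := sat_ext_centralizer H.pg H.sat g3 (isFullyCentralized_of_le_centralizer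
      (zpowers_le.2 zS) fun s hs => ((mem_CC (S := S)).2 ⟨hs, zc s hs⟩).2)
    exact ⟨f, f1.restrict le_sup_right, by rw [f2 w (mem_zpowers w), g2 w (mem_zpowers w), k2]⟩
  refine ⟨fun s hs => ?_, zc, morR H G, fun P f hf hz e x hx => ⟨fun h => ?_, f1 P f hf hz e x hx⟩,
    psi, fun w hw h1 h2 => ?_, fun w hw => ?_⟩
  · obtain ⟨-, i, hi, e⟩ := morR H G _ _ (Mor.conj F le_rfl hs) hR
    obtain ⟨j, e' | e'⟩ := (G.mem _).1 (maps H (Mor.conj F le_rfl hs) hR (b_mem_RR a b))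
    · refine absurd ((MulAut.conj s).injective ?_) (ab G)
      simp only [map_mul, MulAut.conj_apply]
      rw [e, e', ← zpow_add, ← zpow_add, add_comm]
    · exact ⟨i, j, hi, e, e'⟩
  · obtain ⟨g, g1, g2, -⟩ := hf.exists_inv
    exact g2 x hx ▸ f1 _ g g1 (e ▸ mem_img_of_mem f hz) (by
      nth_rewrite 1 [← e]
      exact g2 _ hz) _ (mem_img_of_mem f hx) h
  · obtain ⟨f, h3, h4⟩ := psi w hw
    refine f.injective (h4.trans (morR H G _ f h3 ((closure_le _).2 ?_)).1.symm)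
    rintro _ (rfl | rfl)
    exacts [mem_CC.2 ⟨H.aS, h1.symm⟩, mem_CC.2 ⟨H.bS, h2.symm⟩]
  have wS := isConjElt_mem_right hw
  have zC : zz m a ∈ CC S w := mem_CC.2 ⟨zS, (zc w wS).symm⟩
  have hV : closure {zz m a, w} ≤ CC S w := by
    rw [closure_le]
    rintro _ (rfl | rfl)
    exacts [zC, mem_CC.2 ⟨wS, rfl⟩]
  obtain ⟨V, g, g1, g2⟩ := exists_piso_fullyCentralized F (hV.trans centralizerIn_le)
  obtain ⟨g', g3, g4⟩ := sat_ext_centralizer H.pg H.sat g1 g2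
  rw [Q4.cent_pair zc, sup_eq_right.2 hV] at g3
  have g5 := g3.piso_of_eqOn hV g1 g4
  obtain ⟨p, p1, p2⟩ := psi _ (g3.isConjElt zC)
  have zV : g' (zz m a) ∈ V := g5.maps (subset_closure (by simp))
  have c1 : centralizerIn S V ≤ CC S (g' (zz m a)) := centralizerIn_anti (zpowers_le.2 zV)
  have c2 : ∀ x ∈ CC S w, g' x ∈ centralizerIn S V := fun x hx =>
    g5.map_centralizer g3 hV hx (Q4.cent_pair zc ▸ hx)
  have c3 : V ≤ CC S (g' (zz m a)) := fun y hy =>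
    perm_apply_inv g' y ▸ mem_CC.2 ⟨g3.maps (hV (g5.inv_maps hy)), by
      rw [← g3.map_mul (hV (g5.inv_maps hy)) zC, ← g3.map_mul zC (hV (g5.inv_maps hy)),
        zc _ (hV (g5.inv_maps hy)).1]⟩
  have f2 := g3.pmul p1 fun x hx => c1 (c2 x hx)
  have p3 := (p1.restrict c3).piso
  have f3 := (g5.trans p3).img_eq
  rw [img_closure f2.mulOn hV, Set.image_pair, Equiv.Perm.mul_apply, p2] at f3
  refine ⟨p * g', f2, p2, f3 ▸ ⟨p3.le_right, fun Q hQ => (g2.2 Q (isConj_trans p3.isConj hQ)).trans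
    ((p1.restrict c1).card_le centralizerIn_le fun x hx => p3.map_centralizer p1 c3 (c1 hx) hx)⟩⟩

end Cfsg.Lib.WQ
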