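import Cfsg.Agent.WQ.Defs

/-! The groups `BB`. -/

set_option autoImplicit false

namespace Cfsg.Lib.WQ

open Cfsg Cfsg.FusionSystem Subgroup Cfsg.Lib.Fus

variable {Ω : Type*} [Group Ω] {S : Subgroup Ω} [Finite S] {F : FusionSystem S} {m : ℕ}
  {a b w β : Ω}

namespace Q2

omit [Finite S] in
theorem pair_le {P : Subgroup Ω} {x w : Ω} (hx : x ∈ P) (hw : w ∈ P) : closure {x, w} ≤ P := by
  rw [closure_le]
  rintro _ (rfl | rfl)
  exacts [hx, hw]

omit [Finite S] in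
theorem key (B : FB F m a b) {P : Subgroup Ω} {f g : Ω → Ω} {x : Ω} (hf : Mor F P f)
    (hg : Mor F P g) (hw : w ∈ P) (hx : x ∈ P) (e : f w = zz m a) (e' : g w = zz m a)
    (h : f x ∈ RR a b) : g x ∈ RR a b := by
  obtain ⟨k, k1, k2, -, k3, -⟩ := hf.exists_inv
  have := (B.fixz _ _ (k1.comp hg k3) (e ▸ mem_img_of_mem f hw) (by
    nth_rewrite 1 [← e]
    rw [Function.comp_apply, k2 w hw, e']) _ (mem_img_of_mem f hx)).2 h
  rwa [Function.comp_apply, k2 x hx] at this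

end Q2

open Q2 in
theorem q2 (H : Hyp F m a b) (G : GB m a b) (B : FB F m a b) : BF F m a b := by
  have zS : zz m a ∈ S := pow_mem H.aS _
  have l1 : ∀ x w : Ω, x ∈ closure {x, w} := fun x w => subset_closure (by simp)
  have l2 : ∀ x w : Ω, w ∈ closure {x, w} := fun x w => subset_closure (by simp)
  have iff : ∀ P f w x, Mor F P f → w ∈ P → x ∈ P → x * w = w * x → f w = zz m a →
      (x ∈ BB F m a b w ↔ f x ∈ RR a b) := fun P f w x hf hw hx c e => by
    have xC : x ∈ CC S w := mem_CC.2 ⟨hf.le hx, c⟩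
    have h1 := pair_le xC (mem_CC.2 ⟨hf.le hw, rfl⟩)
    have h2 := hf.restrict (pair_le hx hw)
    refine ⟨fun h => ?_, fun h => ⟨xC, fun g hg e' => key B h2 (hg.restrict h1) (l2 _ _) (l1 _ _) e e' h⟩⟩
    obtain ⟨p, p1, p2⟩ := B.psi w (isConjElt_symm (e ▸ hf.isConjElt hw))
    exact key B (p1.restrict h1) h2 (l2 _ _) (l1 _ _) p2 e (h.2 p p1 p2)
  have map : ∀ P f w x, Mor F P f → w ∈ P → x ∈ P → F.IsConjElt (zz m a) w →
      x ∈ BB F m a b w → f x ∈ BB F m a b (f w) := fun P f w x hf hw hx hc h => by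
    obtain ⟨p, p1, p2⟩ := B.psi _ (isConjElt_trans hc (hf.isConjElt hw))
    have c := (mem_CC.1 h.1).2
    have c' : f x * f w = f w * f x := by rw [← hf.map_mul hx hw, c, hf.map_mul hw hx]
    have xC : f x ∈ CC S (f w) := mem_CC.2 ⟨hf.maps hx, c'⟩
    have wC : f w ∈ CC S (f w) := mem_CC.2 ⟨hf.maps hw, rfl⟩
    have h2 := hf.restrict (pair_le hx hw)
    refine (iff _ p _ _ p1 wC xC c' p2).2 ((iff _ _ w x (h2.comp p1 (img_le_iff.1 ?_)) (l2 _ _)
      (l1 _ _) c p2).1 h)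
    rw [img_closure h2.mulOn le_rfl, Set.image_pair]
    exact pair_le xC wC
  have pw : ∀ w, F.IsConjElt (zz m a) w → ∀ y ∈ BB F m a b w, y ≠ 1 → w ∈ zpowers y :=
    fun w hw y hy y1 => by
      obtain ⟨p, p1, p2⟩ := B.psi w hw
      obtain ⟨k, hk⟩ := G.zmem _ (hy.2 p p1 p2) fun e => y1 ((p1.eq_one_iff hy.1).1 e)
      exact ⟨k, p.injective (by rw [p2, ← hk]; exact p1.map_zpow hy.1 k)⟩
  have infR : ∀ w, F.IsConjElt (zz m a) w → w ≠ zz m a → ∀ y ∈ BB F m a b w, y ∈ RR a b →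
      y = 1 := fun w hw hne y hy yR => by
    by_contra y1
    obtain ⟨f, hf, rfl⟩ := isConjElt_iff.1 hw
    refine (G.invol _ (zpowers_le.2 yR (pw _ hw y hy y1)) ?_).elim (fun e => G.z1
      ((hf.eq_one_iff (mem_zpowers _)).1 e)) hne
    rw [← hf.map_mul (mem_zpowers _) (mem_zpowers _), G.z2, hf.map_one]
  refine ⟨iff, map, fun P f x hf hz hx h => map P f _ x hf hz hx (isConjElt_refl F zS)
    ((iff S id _ x (Mor.id F le_rfl) zS (hf.le hx) (B.zc x (hf.le hx)) rfl).2 h), fun w hw =>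
    ⟨mem_CC.2 ⟨isConjElt_mem_right hw, rfl⟩, fun f _ e => e ▸ pow_mem (a_mem_RR a b) _⟩,
    fun w hw hne x hx c y hy => ?_, fun w hw hne y hy h1 h2 => ?_, infR⟩
  · have := map S _ w y (Mor.conj F le_rfl (H.wc.1 hx)) (isConjElt_mem_right hw) hy.1.1 hw hy
    rw [c, mul_inv_cancel_right] at this
    have e := infR w hw hne _ (mul_mem this (inv_mem hy)) (by
      rw [mul_assoc, mul_assoc, ← mul_assoc y]
      exact mul_mem hx (conj_mem_of_mem_normalizer (le_normalizer_of_weaklyClosed H.wc hy.1.1)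
        (inv_mem hx)))
    exact mul_inv_eq_iff_eq_mul.1 (mul_inv_eq_one.1 e)
  · by_contra y1
    obtain ⟨k, rfl⟩ := pw w hw y hy y1
    exact hne (B.zQ _ hw (Commute.zpow_left h1 k) (Commute.zpow_left h2 k))

end Cfsg.Lib.WQ
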