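import Cfsg.Agent.WQ.Defs

/-! Conjugates of `z` that are squares in their group `BB`. -/

set_option autoImplicit false

namespace Cfsg.Lib.WQ

open Cfsg Cfsg.FusionSystem Subgroup Cfsg.Lib.Fus

variable {Ω : Type*} [Group Ω] {S : Subgroup Ω} [Finite S] {F : FusionSystem S} {m : ℕ}
  {a b w β : Ω}

namespace Q3

theorem cz {s a : Ω} {i : ℤ} (h : s * a * s⁻¹ = a ^ i) (j : ℤ) : s * a ^ j * s⁻¹ = a ^ (i * j) := by
  rw [← conj_zpow, h, ← zpow_mul]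

theorem dvd_of_odd {u t : ℤ} (hu : Odd u) {k : ℕ} (h : 2 ^ k ∣ t * u) : 2 ^ k ∣ t :=
  (IsCoprime.pow_left (Int.isCoprime_two_left.2 hu)).dvd_of_dvd_mul_right h

omit [Finite S] in
theorem sq (G : GB m a b) (hw : F.IsConjElt (zz m a) w) : w * w = 1 := by
  obtain ⟨f, hf, rfl⟩ := isConjElt_iff.1 hw
  rw [← hf.map_mul (mem_zpowers _) (mem_zpowers _), G.z2, hf.map_one]

theorem conj2 {w x : Ω} (hw : w * w = 1) : w * (w * x * w⁻¹) * w⁻¹ = x :=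
  calc _ = w * w * x * (w * w)⁻¹ := by group
    _ = x := by rw [hw]; group

end Q3

open Q3 in
theorem q3 (D : Dat F m a b) : PSq F m a b := by
  intro w hw hne y hy yy
  have G := D.gb
  have ww := sq G hw
  have wC : w ∈ CC S w := mem_CC.2 ⟨isConjElt_mem_right hw, rfl⟩
  obtain ⟨p, p1, p2⟩ := D.fb.psi w hw
  obtain ⟨k, hk⟩ := G.root _ (hy.2 p p1 p2) (by
    rwa [← p1.map_mul hy.1 hy.1, Ne, p1.eq_one_iff (mul_mem hy.1 hy.1)])
  have y1 := zpow_mem hy k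
  rw [← p1.map_zpow hy.1, ← p1.map_mul y1.1 y1.1, ← p2, p.injective.eq_iff] at hk
  generalize y ^ k = u at y1 hk
  obtain ⟨_, -, ⟨t, rfl⟩, e1, -⟩ := D.fb.act u y1.1.1
  have e2 : w * a * w⁻¹ = a ^ ((2 * t + 1) * (2 * t + 1)) := by
    rw [← cz e1, ← e1, ← hk]
    group
  have e3 := conj2 (x := a) ww
  rw [e2, cz e2] at e3
  obtain ⟨c, hc⟩ := Int.modEq_iff_dvd.1 ((G.inj 1 _).1 ((zpow_one a).trans e3.symm))
  obtain ⟨s, hs⟩ := dvd_of_odd (t := 4 * (t * t + t)) (k := m + 2) ⟨t * t + t, rfl⟩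
    ⟨c, by rw [pow_succ] at hc; linarith⟩
  have e4 : w * a ^ (2 : ℤ) * w⁻¹ = a ^ (2 : ℤ) :=
    (cz e2 2).trans ((G.inj _ _).2 (Int.modEq_iff_dvd.2 ⟨-s, by rw [pow_succ]; linarith⟩))
  have e5 := D.bf.comm w hw hne _ (zpow_mem (a_mem_RR a b) 2) (mul_inv_eq_iff_eq_mul.1 e4).symm u y1
  obtain ⟨r, hr⟩ := Int.modEq_iff_dvd.1 ((G.inj _ _).1
    ((mul_inv_eq_iff_eq_mul.2 e5.symm).symm.trans (cz e1 2)))
  have e6 : w * a = a * w := mul_inv_eq_iff_eq_mul.1 (e2.trans (((G.inj _ 1).2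
    (Int.modEq_iff_dvd.2 ⟨-(r + r * r * 2 ^ (m + 1)), by
      have : 2 * t = 2 ^ (m + 2) * r := by rw [pow_succ] at hr; linarith
      rw [this]
      ring⟩)).trans (zpow_one a)))
  refine ⟨e6, ?_, fun y' hy' => (D.bf.comm w hw hne a (a_mem_RR a b) e6.symm y' hy').symm⟩
  obtain ⟨-, j, -, -, e7⟩ := D.fb.act w wC.1
  have e8 := conj2 (x := b) ww
  rw [e7, ← conj_mul, e7, (Commute.zpow_right e6 j).eq, mul_inv_cancel_right, ← mul_assoc,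
    mul_eq_right] at e8
  rcases G.invol _ (zpow_mem (a_mem_RR a b) j) e8 with e | e <;> rw [e] at e7
  · exact absurd (D.fb.zQ w hw e6 (by rw [mul_inv_eq_iff_eq_mul.1 e7, one_mul])) hne
  · exact e7

end Cfsg.Lib.WQ
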