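import Cfsg.Agent.WQ.Defs

/-! The two types of extremal conjugates of `z`. -/

set_option autoImplicit false

namespace Cfsg.Lib.WQ

open Cfsg Cfsg.FusionSystem Subgroup Cfsg.Lib.Fus

variable {Ω : Type*} [Group Ω] {S : Subgroup Ω} [Finite S] {F : FusionSystem S} {m : ℕ}
  {a b w β : Ω}

namespace Q4

omit [Finite S] in
theorem cent_pair {z u : Ω} (hz : ∀ s ∈ S, s * z = z * s) :
    centralizerIn S (closure {z, u}) = CC S u := by
  ext x
  rw [mem_QQ, mem_CC]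
  exact ⟨fun h => ⟨h.1, h.2.2⟩, fun h => ⟨h.1, hz x h.1, h.2⟩⟩

theorem exists_inv_odd {j : ℤ} (hj : Odd j) (k : ℕ) : ∃ l : ℤ, Odd l ∧ j * l ≡ 1 [ZMOD 2 ^ k] := by
  have h : IsCoprime j ((2 : ℤ) ^ (k + 1)) :=
    IsCoprime.pow_right (Int.isCoprime_two_right.2 hj)
  obtain ⟨u, v, e⟩ := h
  refine ⟨u, ?_, (Int.modEq_iff_dvd.2 ⟨2 * v, by rw [← e]; ring⟩)⟩
  by_contra hu
  obtain ⟨t, rfl⟩ := Int.not_odd_iff_even.1 hu
  have : (2 : ℤ) ∣ 1 := ⟨t * j + v * 2 ^ k, by rw [← e]; ring⟩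
  omega

theorem conj_zpow_act {s a b : Ω} {j : ℤ} (h1 : s * a = a * s) (h2 : s * b * s⁻¹ = a ^ j * b)
    (k : ℤ) : s ^ k * b * (s ^ k)⁻¹ = a ^ (j * k) * b := by
  have hc : ∀ i : ℤ, s * a ^ i * s⁻¹ = a ^ i := fun i => by
    rw [(Commute.zpow_right h1 i).eq, mul_inv_cancel_right]
  induction k using Int.induction_on with
  | zero => simp
  | succ k ih =>
    rw [add_comm, zpow_one_add, mul_inv_rev, show s * s ^ (k : ℤ) * b * ((s ^ (k : ℤ))⁻¹ * s⁻¹) =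
      s * (s ^ (k : ℤ) * b * (s ^ (k : ℤ))⁻¹) * s⁻¹ by group, ih, ← conj_mul, hc, h2, ← mul_assoc,
      ← zpow_add]
    congr 2; ring
  | pred k ih =>
    refine (MulAut.conj s).injective ?_
    simp only [MulAut.conj_apply]
    rw [show s * (s ^ (-(k : ℤ) - 1) * b * (s ^ (-(k : ℤ) - 1))⁻¹) * s⁻¹ =
      s ^ (-(k : ℤ)) * b * (s ^ (-(k : ℤ)))⁻¹ by group, ih, ← conj_mul, hc, h2, ← mul_assoc,
      ← zpow_add]
    congr 2; ring

theorem z_zpow (G : GB m a b) {l : ℤ} (hl : Odd l) : zz m a ^ l = zz m a := by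
  obtain ⟨t, rfl⟩ := hl
  rw [zpow_add, zpow_mul, zpow_two, G.z2, one_zpow, one_mul, zpow_one]

end Q4

open Q4 in
theorem q4 (D : Dat F m a b) (h : PSq F m a b) : PDi F m a b := by
  intro w hw hne hext
  have G := D.gb
  have hzc := D.fb.zc
  have hRS : RR a b ≤ S := D.hyp.wc.1
  have hwS := isConjElt_mem_right hw
  have hzS : zz m a ∈ S := pow_mem D.hyp.aS _
  have hwC : w ∈ CC S w := mem_CC.2 ⟨hwS, rfl⟩
  have hzC : ∀ u ∈ S, zz m a ∈ CC S u := fun u hu => mem_CC.2 ⟨hzS, (hzc u hu).symm⟩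
  obtain ⟨p, hp, hpw⟩ := D.fb.psi w hw
  set w' := p (zz m a) with hw'
  have hw'c : F.IsConjElt (zz m a) w' := hp.isConjElt (hzC w hwS)
  have hw'S := isConjElt_mem_right hw'c
  have hne' : w' ≠ zz m a := fun e => hne (p.injective (hpw.trans e.symm))
  have hV : closure {zz m a, w} ≤ CC S w := by
    rw [closure_le]; rintro _ (rfl | rfl); exacts [hzC w hwS, hwC]
  have hP : PIso F p (CC S w) (CC S w') := by
    refine hp.piso_of_card centralizerIn_le (fun x hx => mem_CC.2 ⟨hp.maps hx, ?_⟩) ?_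
    · rw [hw', ← hp.map_mul hx (hzC w hwS), ← hp.map_mul (hzC w hwS) hx, hzc x hx.1]
    · have h1 := (isFullyCentralized_iff.1 hext).2 p (hp.restrict hV)
      rwa [img_closure hp.mulOn hV, Set.image_pair, hpw, Set.pair_comm, cent_pair hzc,
        cent_pair hzc] at h1
  refine or_iff_not_imp_right.2 fun hx => ?_
  push Not at hx
  obtain ⟨x, hxR, hxw, hx1, hxz⟩ := hx
  have hxC : x ∈ CC S w := mem_CC.2 ⟨hRS hxR, hxw⟩
  have hxx : x * x ≠ 1 := fun e => (G.invol x hxR e).elim hx1 hxz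
  obtain ⟨h1, h2, -⟩ := h w' hw'c hne' (p x) (D.bf.mapR _ _ x hp (hzC w hwS) hxC hxR) (by
    rw [← hp.map_mul hxC hxC, Ne, hp.eq_one_iff (mul_mem hxC hxC)]; exact hxx)
  have haC : a ∈ CC S w' := mem_CC.2 ⟨D.hyp.aS, h1.symm⟩
  set b0 := p⁻¹ a with hb0
  have hb0C : b0 ∈ CC S w := hP.inv_maps haC
  have hpb0 : p b0 = a := perm_apply_inv _ _
  have hpow : ∀ i : ℤ, p (b0 ^ i) = a ^ i := fun i => by rw [hp.map_zpow hb0C, hpb0]
  have hiff : ∀ y ∈ CC S w, y ∈ BB F m a b w ↔ p y ∈ RR a b := fun y hy =>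
    D.bf.iff _ _ w y hp hwC hy (mem_CC.1 hy).2 hpw
  have hb0B : b0 ∈ BB F m a b w := (hiff _ hb0C).2 (hpb0.symm ▸ a_mem_RR a b)
  have hord0 : orderOf b0 = 2 ^ (m + 3) := by rw [← hp.orderOf_eq hb0C, hpb0, D.hyp.ord]
  have haa : a * a ≠ 1 := fun e => by
    have := orderOf_dvd_of_pow_eq_one (n := 2) (x := a) (by rw [pow_two, e])
    rw [D.hyp.ord] at this
    have h3 := Nat.le_of_dvd two_pos this
    have h4 : 1 ≤ 2 ^ m := Nat.one_le_two_pow
    rw [pow_add] at h3; omega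
  obtain ⟨h3, h4, h5⟩ := h w hw hne b0 hb0B (fun e => haa (by
    rw [← hpb0, ← hp.map_mul hb0C hb0C, e, hp.map_one]))
  have hgen : BB F m a b w = zpowers b0 := by
    refine le_antisymm (fun y hy => ?_) (zpowers_le.2 hb0B)
    obtain ⟨i, e | e⟩ := (G.mem _).1 ((hiff y hy.1).1 hy)
    · exact ⟨i, p.injective ((hpow i).trans e.symm)⟩
    · exfalso
      have h6 := (mem_CC.1 (hP.maps hy.1)).2
      rw [e] at h6
      have h7 : w' * (a ^ i * b) * w'⁻¹ = zz m a * (a ^ i * b) := by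
        rw [← conj_mul, (Commute.zpow_right h1 i).eq, mul_inv_cancel_right, h2, ← mul_assoc,
          hzc _ (zpow_mem D.hyp.aS i), mul_assoc]
      rw [← h6, mul_inv_cancel_right, eq_comm, mul_eq_right] at h7
      exact G.z1 h7
  obtain ⟨-, j, -, -, h6⟩ := D.fb.act b0 hb0C.1
  have hact := conj_zpow_act (h5 _ hb0B) h6
  have hj : Odd j := by
    by_contra hj
    obtain ⟨t, rfl⟩ := Int.not_odd_iff_even.1 hj
    have h7 : b0 ^ ((2 : ℤ) ^ (m + 2)) = 1 := D.bf.infQ w hw hne _ (zpow_mem hb0B _)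
      (Commute.zpow_left (h5 _ hb0B) _).eq (by
        have h8 : a ^ ((t + t) * 2 ^ (m + 2)) = a ^ (0 : ℤ) :=
          (G.inj _ _).2 (Int.modEq_iff_dvd.2 ⟨-t, by ring⟩)
        rw [← mul_inv_eq_iff_eq_mul, hact, h8, zpow_zero, one_mul])
    have h8 := hpow (2 ^ (m + 2))
    rw [h7, hp.map_one] at h8
    exact G.z1 (by rw [h8]; exact_mod_cast rfl)
  obtain ⟨l, hl, hjl⟩ := exists_inv_odd hj (m + 3)
  have hlj : (b0 ^ l) ^ j = b0 := by
    rw [← zpow_mul, mul_comm]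
    nth_rewrite 2 [← zpow_one b0]
    rw [zpow_eq_zpow_iff_modEq, hord0]
    exact_mod_cast hjl
  have hzp : zpowers (b0 ^ l) = zpowers b0 :=
    le_antisymm (zpowers_le.2 ⟨l, rfl⟩) (zpowers_le.2 ⟨j, hlj⟩)
  have hbw' : b * w' * b⁻¹ = zz m a * w' := by
    have e1 : w' * b = zz m a * b * w' := mul_inv_eq_iff_eq_mul.1 h2
    have e2 : zz m a * (w' * b) = b * w' := by
      rw [e1, ← mul_assoc, ← mul_assoc, G.z2, one_mul]
    rw [← e2]; group
  have hbN : b ∈ normalizerIn S (CC S w') := by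
    have : Finite (CC S w') := finite_of_le centralizerIn_le
    refine mem_normalizerIn_of_finite D.hyp.bS fun u hu => ?_
    have huS : b * u * b⁻¹ ∈ S := mul_mem (mul_mem D.hyp.bS hu.1) (inv_mem D.hyp.bS)
    have e1 : b * u * b⁻¹ * (b * w' * b⁻¹) = b * w' * b⁻¹ * (b * u * b⁻¹) := by
      rw [conj_mul, conj_mul, (mem_CC.1 hu).2]
    rw [hbw', ← mul_assoc, hzc _ huS, mul_assoc (zz m a), mul_assoc (zz m a), mul_right_inj] at e1
    exact mem_CC.2 ⟨huS, e1⟩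
  have hσ := (hP.trans (PIso.cj F centralizerIn_le hbN)).trans hP.symm
  refine ⟨b0 ^ l, hw, hne, h3, h4, ?_, hgen.trans hzp.symm, (Commute.zpow_left (h5 _ hb0B) l).eq,
    ?_, ?_, _, hσ, ?_, ?_, fun t ht => ?_⟩
  · rw [← Nat.card_zpowers, hzp, Nat.card_zpowers, hord0]
  · rw [hact, ((G.inj _ 1).2 hjl), zpow_one]
  · refine p.injective ?_
    rw [hp.map_pow (zpow_mem hb0C l), hpow, hpw, ← zpow_natCast, ← zpow_mul, mul_comm, zpow_mul,
      zpow_natCast, z_zpow G hl]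
  · refine p.injective ?_
    simp only [Equiv.Perm.mul_apply, perm_apply_inv, cj_apply]
    rw [hpw, hzc b D.hyp.bS, mul_inv_cancel_right]
  · refine p.injective ?_
    simp only [Equiv.Perm.mul_apply, perm_apply_inv, cj_apply]
    rw [← hw', hbw', hp.map_mul (hzC w hwS) hwC, hpw, hzc w' hw'S]
  · obtain ⟨-, i, -, -, h7⟩ := D.fb.act _ (inv_mem (hp.maps ht))
    rw [hzp]
    refine ⟨i, p.injective ?_⟩
    simp only
    rw [hpow, hp.map_mul (inv_mem ht) (hσ.maps ht), hp.map_inv ht]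
    simp only [Equiv.Perm.mul_apply, perm_apply_inv, cj_apply]
    rw [eq_mul_inv_of_mul_eq h7.symm]; group

end Cfsg.Lib.WQ
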