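import Cfsg.Agent.WQ.Q3
import Cfsg.Agent.WQ.Q4

/-! The conjugates of `z` centralize or invert `a`. -/

set_option autoImplicit false

namespace Cfsg.Lib.WQ

open Cfsg Cfsg.FusionSystem Subgroup Cfsg.Lib.Fus

variable {Ω : Type*} [Group Ω] {S : Subgroup Ω} [Finite S] {F : FusionSystem S} {m : ℕ}
  {a b w β : Ω}

namespace Q5a

theorem cases_i {i : ℤ} (hi : Odd i) (h : 1 ≡ i * i [ZMOD 2 ^ (m + 3)]) :
    ∃ s, i = 1 + 2 ^ (m + 2) * s ∨ i = -1 + 2 ^ (m + 2) * s := by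
  obtain ⟨t, rfl⟩ := hi
  obtain ⟨c, hc⟩ := Int.modEq_iff_dvd.1 h
  have e : 2 ^ (m + 1) ∣ t * (t + 1) := ⟨c, by rw [pow_succ, pow_succ] at hc; linarith⟩
  rcases Int.even_or_odd t with h1 | h1
  · obtain ⟨s, hs⟩ := Q3.dvd_of_odd h1.add_one e
    exact ⟨s, .inl (by rw [pow_succ]; linarith)⟩
  · obtain ⟨s, hs⟩ := Q3.dvd_of_odd h1 (mul_comm t _ ▸ e)
    exact ⟨s, .inr (by rw [pow_succ]; linarith)⟩

end Q5a

open Q3 in
theorem q5a (D : Dat F m a b) (h1 : PDi F m a b) (h2 : PX2 F m a b) : PX F m a := by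
  intro w hw
  have G := D.gb
  have zc := D.fb.zc
  have aS := D.hyp.aS
  have hz : zz m a = a ^ ((2 : ℤ) ^ (m + 2)) := by exact_mod_cast rfl
  by_cases hne : w = zz m a
  · exact .inl (by rw [hne, ← zc a aS, mul_inv_cancel_right])
  have wS := isConjElt_mem_right hw
  have wC : w ∈ CC S w := mem_CC.2 ⟨wS, rfl⟩
  have ww := sq G hw
  obtain ⟨i, j, hi, e1, e2⟩ := D.fb.act w wS
  have e3 := conj2 (x := a) ww
  rw [e1, cz e1] at e3
  have e4 := conj2 (x := b) ww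
  rw [e2, ← conj_mul, e2, cz e1, ← mul_assoc, mul_eq_right, ← zpow_add, ← zpow_zero a] at e4
  obtain ⟨c, hc⟩ := Int.modEq_iff_dvd.1 ((G.inj _ _).1 e4.symm)
  have cb : ∀ l, i * l + j ≡ l [ZMOD 2 ^ (m + 3)] → a ^ l * b * w = w * (a ^ l * b) := fun l hl => by
    rw [eq_comm, ← mul_inv_eq_iff_eq_mul, ← conj_mul, cz e1, e2, ← mul_assoc, ← zpow_add,
      (G.inj _ _).2 hl]
  obtain ⟨f, f1, f2, f3⟩ := D.fb.ext w hw
  have hw2 := isConjElt_trans hw (f1.isConjElt wC)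
  have ne2 : f w ≠ zz m a := fun e => hne (f.injective (e.trans f2.symm))
  have C : ∀ x ∈ RR a b, x * w = w * x → x ∈ CC S w := fun x hx e => mem_CC.2 ⟨D.hyp.wc.1 hx, e⟩
  have fR : ∀ x ∈ RR a b, x * w = w * x → f x ∈ RR a b ∧ f x * f w = f w * f x := fun x hx e =>
    ⟨(D.fb.fixz _ f f1 (C _ (pow_mem (a_mem_RR a b) _) (zc w wS).symm) f2 x (C x hx e)).2 hx, by
      rw [← f1.map_mul (C x hx e) wC, e, f1.map_mul wC (C x hx e)]⟩
  have T := h1 _ hw2 ne2 f3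
  have fa : ∀ x ∈ RR a b, x * w = w * x → ∃ e : ℤ, f x = a ^ e := fun x hx e => by
    obtain ⟨r1, r2⟩ := fR x hx e
    rcases T with ⟨β, T⟩ | T
    · obtain ⟨l, e | e⟩ := (G.mem _).1 r1
      · exact ⟨l, e⟩
      rw [e, eq_comm, ← mul_inv_eq_iff_eq_mul, ← conj_mul, (Commute.zpow_right T.wa l).eq,
        mul_inv_cancel_right, T.wb, mul_right_inj, mul_eq_right] at r2
      exact absurd r2 G.z1
    · rcases T _ r1 r2 with e | e
      exacts [⟨0, by rw [e, zpow_zero]⟩, ⟨_, e.trans hz⟩]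
  have mR := fun l : ℤ => mul_mem (zpow_mem (a_mem_RR a b) l) (b_mem_RR a b)
  obtain ⟨s, hs⟩ := Q5a.cases_i hi ((G.inj _ _).1 ((zpow_one a).trans e3.symm))
  obtain ⟨r, rfl | rfl⟩ := Int.even_or_odd' s
  · refine hs.imp (fun e => ?_) fun e => ?_
    · rw [e1, (G.inj _ 1).2 (Int.modEq_iff_dvd.2 ⟨-r, by rw [e]; ring⟩), zpow_one]
    · rw [e1, (G.inj _ (-1)).2 (Int.modEq_iff_dvd.2 ⟨-r, by rw [e]; ring⟩), zpow_neg_one]
  exfalso
  have od : ∀ x : ℤ, Odd (1 + 2 ^ (m + 1) * x) := fun x => ⟨2 ^ m * x, by ring⟩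
  rcases hs with rfl | rfl
  · obtain ⟨q, rfl⟩ := dvd_of_odd (t := j) (k := m + 2) (od (2 * r + 1))
      ⟨c, mul_left_cancel₀ two_ne_zero (by linear_combination hc)⟩
    obtain ⟨l, hl⟩ : ∃ l : ℤ, a ^ l * b * w = w * (a ^ l * b) := by
      obtain ⟨u, rfl | rfl⟩ := Int.even_or_odd' q
      exacts [⟨0, cb _ (Int.modEq_iff_dvd.2 ⟨-u, by ring⟩)⟩,
        ⟨1, cb _ (Int.modEq_iff_dvd.2 ⟨-(u + r + 1), by ring⟩)⟩]
    have c2 : a ^ (2 : ℤ) * w = w * a ^ (2 : ℤ) := (mul_inv_eq_iff_eq_mul.1 ((cz e1 2).trans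
      ((G.inj _ _).2 (Int.modEq_iff_dvd.2 ⟨-(2 * r + 1), by ring⟩)))).symm
    have m2 := zpow_mem (a_mem_RR a b) 2
    obtain ⟨x, hx⟩ := fa _ m2 c2
    obtain ⟨y, hy⟩ := fa _ (mR l) hl
    have : a ^ (2 : ℤ) * (a ^ l * b) = a ^ l * b * a ^ (2 : ℤ) := f.injective (by
      rw [f1.map_mul (C _ m2 c2) (C _ (mR l) hl), f1.map_mul (C _ (mR l) hl) (C _ m2 c2), hx, hy,
        ← zpow_add, ← zpow_add, add_comm])
    rw [mul_assoc, G.bpow, ← mul_assoc, ← mul_assoc, mul_left_inj, ← zpow_add, ← zpow_add] at this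
    have := Int.le_of_dvd (by omega) (Int.modEq_iff_dvd.1 ((G.inj _ _).1 this.symm))
    have hp : (0 : ℤ) < 2 ^ m := by positivity
    rw [pow_add] at this
    omega
  obtain ⟨j, rfl⟩ := dvd_of_odd (t := j) (k := 1) (u := 2 * r + 1) ⟨r, rfl⟩
    ⟨c, mul_left_cancel₀ (pow_ne_zero (m + 2) two_ne_zero) (by linear_combination hc)⟩
  obtain ⟨u, -, hu⟩ := Q4.exists_inv_odd (od (-(2 * r + 1))) (m + 3)
  obtain ⟨v, hv⟩ := Int.modEq_iff_dvd.1 hu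
  have hl := cb (u * j) (Int.modEq_iff_dvd.2 ⟨-(2 * j * v), by linear_combination (-2 * j) * hv⟩)
  have sr := G.sq (u * j)
  have ar : (a ^ (u * j) * b)⁻¹ * a⁻¹ * (a ^ (u * j) * b) = a := by
    rw [mul_assoc, inv_mul_eq_iff_eq_mul, mul_assoc, mul_inv_eq_iff_eq_mul.1 D.hyp.ba, ← mul_assoc,
      ← mul_assoc, (Commute.zpow_left (Commute.refl a).inv_right _).eq]
  have rR := mR (u * j)
  have rC := C _ rR hl
  obtain ⟨e, he⟩ := fa _ rR hl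
  have ee : a ^ e * a ^ e = zz m a := by rw [← he, ← f1.map_mul rC rC, sr, f2]
  obtain ⟨β, T⟩ := T.resolve_right fun T => G.z1 (by
    rcases T _ (fR _ rR hl).1 (fR _ rR hl).2 with e | e <;> rw [← ee, ← he, e]
    exacts [one_mul 1, G.z2])
  have zi : (zz m a)⁻¹ = zz m a := inv_eq_of_mul_eq_one_right G.z2
  have yC := mul_mem (inv_mem rC) wC
  have yy : (a ^ (u * j) * b)⁻¹ * w * ((a ^ (u * j) * b)⁻¹ * w) = zz m a := by
    rw [(Commute.inv_left hl).symm.mul_mul_mul_comm, ww, mul_one, ← mul_inv_rev, sr, zi]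
  have fy : f ((a ^ (u * j) * b)⁻¹ * w) = (a ^ e)⁻¹ * f w := by
    rw [f1.map_mul (inv_mem rC) wC, f1.map_inv rC, he]
  refine h2 _ yC.1 (u * j) _ yy ?_ ?_ ?_ ?_ (by rw [← f1.map_mul yC yC, yy, f2]) (f1.isConjElt yC)
  · rw [add_comm, zpow_add, zpow_mul, ← hz, Q4.z_zpow G ⟨r, rfl⟩, zpow_neg_one] at e1
    calc _ = (a ^ (u * j) * b)⁻¹ * (w * a * w⁻¹) * (a ^ (u * j) * b) := by group
      _ = _ := by
        rw [e1, ← mul_assoc _ (zz m a), zc _ (inv_mem rC.1), mul_assoc (zz m a), mul_assoc (zz m a),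
          ar]
  · rw [mul_assoc, ← hl, inv_mul_cancel_left, mul_inv_cancel_left]
  · rw [fy]
    exact ((Commute.zpow_left (.refl a) e).inv_left.mul_left T.wa).eq
  · rw [fy, mul_assoc, mul_inv_eq_iff_eq_mul.1 T.wb, ← ee, mul_assoc, mul_assoc, inv_mul_cancel_left,
      ← mul_assoc, ← mul_assoc, ← zpow_neg, G.bpow, neg_neg]

end Cfsg.Lib.WQ
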