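import Cfsg.Agent.WQ.Defs

/-! An element of order four of field type is not fused into `C_S(R)`. -/

set_option autoImplicit false

namespace Cfsg.Lib.WQ

open Cfsg Cfsg.FusionSystem Subgroup Cfsg.Lib.Fus

variable {Ω : Type*} [Group Ω] {S : Subgroup Ω} [Finite S] {F : FusionSystem S} {m : ℕ}
  {a b w β : Ω}

namespace Q5b

omit [Finite S] in
theorem comm_img (D : Dat F m a b) {P : Subgroup Ω} {f : Ω → Ω} (hf : Mor F P f)
    (hR : RR a b ≤ P) {u : Ω} (hu : u ∈ P) (h : ∀ x ∈ RR a b, u * x = x * u) :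
    ∀ x ∈ RR a b, f u * x = x * f u := by
  intro x hx
  have e := (weaklyClosed_iff.1 D.hyp.wc).2 f (hf.restrict hR)
  rw [← e] at hx
  obtain ⟨y, hy, rfl⟩ := (hf.restrict hR).mem_img.1 hx
  rw [← hf.map_mul hu (hR hy), ← hf.map_mul (hR hy) hu, h y hy]

theorem zpow_invol {z : Ω} (h : z * z = 1) (i : ℤ) : z ^ i = 1 ∨ z ^ i = z := by
  rcases Int.even_or_odd' i with ⟨k, rfl | rfl⟩
  · exact Or.inl (by rw [zpow_mul, zpow_two, h, one_zpow])
  · exact Or.inr (by rw [zpow_add, zpow_mul, zpow_two, h, one_zpow, one_mul, zpow_one])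

theorem conj_mem_of_card {A B : Subgroup Ω} [Finite B] (h : A ≤ B)
    (hc : Nat.card A * 2 = Nat.card B) {x u : Ω} (hx : x ∈ B) (hu : u ∈ A) : x * u * x⁻¹ ∈ A := by
  have h1 := (A.subgroupOf B).card_mul_index
  rw [Nat.card_congr (subgroupOfEquivOfLe h).toEquiv, ← hc] at h1
  have : Finite A := Finite.of_injective _ (inclusion_injective h)
  have h2 := normal_of_index_eq_two (Nat.eq_of_mul_eq_mul_left Nat.card_pos h1)
  exact h2.conj_mem ⟨u, h hu⟩ hu ⟨x, hx⟩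

theorem mem_sup_zpowers {A : Subgroup Ω} {y p : Ω} (h : ∀ q ∈ A, q * y = y * q)
    (hp : p ∈ A ⊔ zpowers y) : ∃ q ∈ A, ∃ e : ℤ, p = q * y ^ e := by
  have hc : ∀ q ∈ A, ∀ e : ℤ, y ^ e * q = q * y ^ e := fun q hq e =>
    (Commute.zpow_right (h q hq) e).eq.symm
  let K : Subgroup Ω :=
    { carrier := {p | ∃ q ∈ A, ∃ e : ℤ, p = q * y ^ e}
      mul_mem' := by
        rintro _ _ ⟨q, hq, e, rfl⟩ ⟨q', hq', e', rfl⟩
        exact ⟨q * q', mul_mem hq hq', e + e', by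
          rw [mul_assoc, ← mul_assoc (y ^ e), hc _ hq', zpow_add]; simp only [mul_assoc]⟩
      one_mem' := ⟨1, one_mem _, 0, by simp⟩
      inv_mem' := by
        rintro _ ⟨q, hq, e, rfl⟩
        exact ⟨q⁻¹, inv_mem hq, -e, by rw [mul_inv_rev, ← zpow_neg, hc _ (inv_mem hq)]⟩ }
  exact (sup_le (fun q hq => ⟨q, hq, 0, by simp⟩) (zpowers_le.2 ⟨1, one_mem _, 1, by simp⟩) :
    A ⊔ zpowers y ≤ K) hp

omit [Finite S] in
theorem center_le (G : GB m a b) {l : ℤ} {q : Ω} (hq : q ∈ RR a b)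
    (h1 : q * a ^ (2 : ℤ) = a ^ (2 : ℤ) * q) (h2 : q * (a ^ l * b) = a ^ l * b * q) :
    q = 1 ∨ q = zz m a := by
  obtain ⟨i, rfl | rfl⟩ := (G.mem q).1 hq
  · refine G.invol _ hq ?_
    rw [mul_assoc, G.bpow, ← mul_assoc, ← mul_assoc, mul_left_inj, ← zpow_add, ← zpow_add,
      add_comm, zpow_add, zpow_add, mul_right_inj] at h2
    rw [zpow_neg] at h2
    exact mul_eq_one_iff_eq_inv.2 h2
  · exfalso
    rw [mul_assoc, G.bpow, ← mul_assoc, ← mul_assoc, mul_left_inj, ← zpow_add, ← zpow_add,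
      G.inj] at h1
    have h3 : (2 : ℤ) ^ (m + 3) ∣ 4 := by
      have := h1.dvd
      rwa [show (2 : ℤ) + i - (i + -2) = 4 by ring] at this
    have h4 := Int.le_of_dvd (by norm_num) h3
    have h5 : (1 : ℤ) ≤ 2 ^ m := one_le_pow₀ (by norm_num)
    rw [pow_add] at h4
    omega

end Q5b

open Q5b in
theorem q5b (D : Dat F m a b) : PX2 F m a b := by
  intro y hyS l y₀ hyy hya hyr h0a h0b h00 hconj
  have hS := D.hyp.pg
  have hF := D.hyp.sat
  have G := D.gb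
  have hRS : RR a b ≤ S := D.hyp.wc.1
  have : Finite (RR a b) := finite_of_le hRS
  have hzR : zz m a ∈ RR a b := pow_mem (a_mem_RR a b) _
  have h0S := isConjElt_mem_right hconj
  have h0R : ∀ x ∈ RR a b, y₀ * x = x * y₀ := fun x hx =>
    ((mem_centralizerIn.1 (mem_QQ.2 ⟨h0S, h0a, h0b⟩)).2 x hx).symm
  have hR0 : RR a b ≤ zpowers y₀ ⊔ CC S y₀ := fun x hx =>
    mem_sup_right (mem_CC.2 ⟨hRS hx, (h0R x hx).symm⟩)
  -- (1)
  obtain ⟨Y, g, hg, hY⟩ := exists_piso_fullyCentralized F (zpowers_le.2 h0S)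
  obtain ⟨c1, hc1, e1⟩ := sat_ext_centralizer hS hF hg hY
  have m0 : y₀ ∈ zpowers y₀ ⊔ CC S y₀ := mem_sup_left (mem_zpowers _)
  have hsR := comm_img D hc1 hR0 m0 h0R
  have hss : c1 y₀ * c1 y₀ = zz m a := by
    rw [← hc1.map_mul m0 m0, h00, (D.fb.morR _ _ hc1 hR0).1]
  -- (2)
  obtain ⟨f₀, hf₀, e₀⟩ := isConjElt_iff.1 hconj
  obtain ⟨f, hf, ef⟩ := hf₀.exists_perm
  have hfy : f y = y₀ := (ef y (mem_zpowers y)).trans e₀
  have hf' : PIso F f (zpowers y) (zpowers y₀) := by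
    have := hf.piso
    rwa [img_zpowers hf.mulOn (mem_zpowers y), hfy] at this
  obtain ⟨c2, hc2', e2⟩ := sat_ext_centralizer hS hF (hf'.trans hg) hY
  have hc2 : Mor F (CC S y) c2 := hc2'.restrict le_sup_right
  have h2y : c2 y = c1 y₀ := by
    rw [e2 y (mem_zpowers y), e1 y₀ (mem_zpowers _), Equiv.Perm.mul_apply, hfy]
  have hyC : y ∈ CC S y := mem_CC.2 ⟨hyS, rfl⟩
  have hzC : zz m a ∈ CC S y := hyy ▸ mul_mem hyC hyC
  have h2z : c2 (zz m a) = zz m a := by rw [← hyy, hc2.map_mul hyC hyC, h2y, hss, hyy]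
  -- (3)
  have hzc := D.fb.zc
  have hact : ∀ x ∈ RR a b, y * x * y⁻¹ = x ∨ y * x * y⁻¹ = zz m a * x := by
    have k1 : ∀ i : ℤ, y * a ^ i * y⁻¹ = zz m a ^ i * a ^ i := fun i => by
      rw [← conj_zpow, hya, Commute.mul_zpow (hzc a D.hyp.aS).symm]
    have k2 : ∀ i : ℤ, y * a ^ i * y⁻¹ = a ^ i ∨ y * a ^ i * y⁻¹ = zz m a * a ^ i := fun i => by
      rcases zpow_invol G.z2 i with h | h
      · exact Or.inl (by rw [k1, h, one_mul])
      · exact Or.inr (by rw [k1, h])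
    intro x hx
    obtain ⟨i, rfl | rfl⟩ := (G.mem x).1 hx
    · exact k2 i
    · have e : a ^ i * b = a ^ (i - l) * (a ^ l * b) := by
        rw [← mul_assoc, ← zpow_add, sub_add_cancel]
      have e' : y * (a ^ i * b) * y⁻¹ = y * a ^ (i - l) * y⁻¹ * (a ^ l * b) := by
        rw [e, ← conj_mul, hyr, mul_inv_cancel_right]
      rcases k2 (i - l) with h | h
      · exact Or.inl (by rw [e', h, e])
      · exact Or.inr (by rw [e', h, e, mul_assoc])
  set Q0 : Subgroup Ω := RR a b ⊓ CC S y with hQ0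
  have mQ : ∀ x ∈ RR a b, x ∈ Q0 ↔ y * x * y⁻¹ = x := fun x hx =>
    ⟨fun h => by rw [← (mem_CC.1 h.2).2, mul_inv_cancel_right],
      fun h => ⟨hx, mem_CC.2 ⟨hRS hx, (mul_inv_eq_iff_eq_mul.1 h).symm⟩⟩⟩
  have hcard : Nat.card Q0 * 2 = Nat.card (RR a b) := by
    have h1 := (Q0.subgroupOf (RR a b)).card_mul_index
    rw [Nat.card_congr (subgroupOfEquivOfLe inf_le_left).toEquiv] at h1
    rw [← h1]
    congr 1
    symm
    refine index_eq_two_iff.2 ⟨⟨a, a_mem_RR a b⟩, fun x => ?_⟩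
    rw [mem_subgroupOf, mem_subgroupOf, mQ _ (x * _).2, mQ _ x.2]
    have e : y * ((x : Ω) * a) * y⁻¹ = y * x * y⁻¹ * (zz m a * a) := by rw [← conj_mul, hya]
    rcases hact x x.2 with h | h
    · refine Or.inr ⟨h, fun h' => G.z1 ?_⟩
      change y * ((x : Ω) * a) * y⁻¹ = x * a at h'
      rwa [e, h, mul_right_inj, mul_eq_right] at h'
    · refine Or.inl ⟨?_, fun h' => G.z1 ?_⟩
      · change y * ((x : Ω) * a) * y⁻¹ = x * a
        rw [e, h, ← hzc _ (hRS x.2), mul_assoc, ← mul_assoc (zz m a), G.z2, one_mul]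
      · rwa [h, mul_eq_right] at h'
  have hQy : ∀ q ∈ Q0, q * y = y * q := fun q hq => (mem_CC.1 hq.2).2
  set P : Subgroup Ω := Q0 ⊔ zpowers y with hP
  have hPC : P ≤ CC S y := sup_le inf_le_right (zpowers_le.2 hyC)
  have hyP : y ∈ P := mem_sup_right (mem_zpowers y)
  have hc2P : PIso F c2 P (img P c2) := (hc2.restrict hPC).piso
  have hQ' : img Q0 c2 ≤ RR a b := img_le_iff.2 fun x hx =>
    (D.fb.fixz _ _ hc2 hzC h2z x hx.2).2 hx.1
  have hcard' : Nat.card (img Q0 c2) * 2 = Nat.card (RR a b) := by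
    rw [(hc2.restrict inf_le_right).card_img, hcard]
  have hRN : RR a b ≤ normalizerIn S (img P c2) := fun x hx => by
    have := finite_of_le hc2P.le_right
    refine mem_normalizerIn_of_finite (hRS hx) fun u hu => ?_
    obtain ⟨p, hp, rfl⟩ := hc2P.mor.mem_img.1 hu
    obtain ⟨q, hq, e, rfl⟩ := mem_sup_zpowers hQy hp
    rw [hc2.map_mul hq.2 (zpow_mem hyC e), hc2.map_zpow hyC, ← conj_mul, ← conj_zpow, h2y,
      ← hsR x hx, mul_inv_cancel_right, ← h2y]
    exact mul_mem (img_mono _ le_sup_left (conj_mem_of_card hQ' hcard' hx (mem_img_of_mem _ hq)))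
      (zpow_mem (mem_img_of_mem _ hyP) e)
  -- (4)
  obtain ⟨Ps, th, hth, hthi, hPs⟩ := sat_exists_fullyNormalized hS hF hc2P.le_right
  have ms : c1 y₀ ∈ normalizerIn S (img P c2) :=
    le_normalizerIn hc2P.le_right (h2y ▸ mem_img_of_mem _ hyP)
  have htR := comm_img D hth hRN ms hsR
  have htt : th (c1 y₀) * th (c1 y₀) = zz m a := by
    rw [← hth.map_mul ms ms, hss, (D.fb.morR _ _ hth hRN).1]
  -- (5)
  have hk := hc2P.trans hthi
  obtain ⟨om, hom, homi⟩ := sat_normalizer_mor hS hF hk hPs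
  have hzQ : zz m a ∈ Q0 := ⟨hzR, hzC⟩
  have haN : a ∈ normalizerIn S P := by
    have := finite_of_le hc2P.le_left
    refine mem_normalizerIn_of_finite D.hyp.aS fun u hu => ?_
    obtain ⟨q, hq, e, rfl⟩ := mem_sup_zpowers hQy hu
    rw [← conj_mul, ← conj_zpow]
    refine mul_mem (mem_sup_left (conj_mem_of_card inf_le_left hcard (a_mem_RR a b) hq))
      (zpow_mem ?_ e)
    have e1 : a * y * a⁻¹ = zz m a * y := by
      have h1 : y * a = zz m a * a * y := mul_inv_eq_iff_eq_mul.1 hya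
      have h2 : zz m a * (y * a) = a * y := by
        rw [h1, ← mul_assoc, ← mul_assoc, G.z2, one_mul]
      rw [← h2]; group
    rw [e1]
    exact mul_mem (mem_sup_left hzQ) hyP
  -- (6)
  have hyc : ∀ p ∈ P, y * p = p * y := fun p hp => ((mem_CC.1 (hPC hp)).2).symm
  have h6 : ∀ p ∈ Ps, om y * p = p * om y := fun p hp => by
    have h1 := homi.inv_maps hp
    have h2 := congrArg om (hyc _ h1)
    rwa [homi.map_mul hyP h1, homi.map_mul h1 hyP, perm_apply_inv] at h2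
  have h7 := hk.inv_maps (homi.maps hyP)
  have h8 : ∀ p ∈ P, (th * c2)⁻¹ (om y) * p = p * (th * c2)⁻¹ (om y) := fun p hp =>
    (th * c2).injective (by
      rw [hk.map_mul h7 hp, hk.map_mul hp h7, perm_apply_inv, h6 _ (hk.maps hp)])
  obtain ⟨q, hq, e, h9⟩ := mem_sup_zpowers hQy h7
  have h10 : ∀ p ∈ P, q * p = p * q := fun p hp => by
    have h1 := h8 p hp
    rw [h9, mul_assoc, (Commute.zpow_left (hyc p hp) e).eq, ← mul_assoc, ← mul_assoc,
      mul_left_inj] at h1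
    exact h1
  have ha2 : a ^ (2 : ℤ) ∈ Q0 := (mQ _ (zpow_mem (a_mem_RR a b) _)).2 (by
    rw [← conj_zpow, hya, Commute.mul_zpow (hzc a D.hyp.aS).symm, zpow_two (zz m a), G.z2, one_mul])
  have hr : a ^ l * b ∈ Q0 := (mQ _ (mul_mem (zpow_mem (a_mem_RR a b) _) (b_mem_RR a b))).2 (by
    rw [hyr, mul_inv_cancel_right])
  obtain ⟨e', h11⟩ : ∃ e' : ℤ, (th * c2)⁻¹ (om y) = y ^ e' := by
    rcases center_le G hq.1 (h10 _ (mem_sup_left ha2)) (h10 _ (mem_sup_left hr)) with h | h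
    · exact ⟨e, by rw [h9, h, one_mul]⟩
    · exact ⟨2 + e, by rw [h9, h, zpow_add, zpow_two, hyy]⟩
  have h12 : om y = th (c1 y₀) ^ e' := by
    have := congrArg (th * c2) h11
    rwa [perm_apply_inv, hk.mor.map_zpow hyP, Equiv.Perm.mul_apply, h2y] at this
  have hyN : y ∈ normalizerIn S P := le_normalizerIn hc2P.le_left hyP
  have hzN : zz m a ∈ normalizerIn S P := hyy ▸ mul_mem hyN hyN
  have h13 : om (zz m a) = zz m a := by
    have h1 : om (zz m a) = zz m a ^ e' := by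
      rw [← hyy, hom.map_mul hyN hyN, h12, ← Commute.mul_zpow (Commute.refl _), htt, hyy]
    rcases zpow_invol G.z2 e' with h | h
    · exact absurd ((hom.eq_one_iff hzN).1 (h1.trans h)) G.z1
    · exact h1.trans h
  -- (7)
  have h14 := (D.fb.fixz _ _ hom hzN h13 a haN).2 (a_mem_RR a b)
  have h15 : y * a = a * y := om.injective (by
    rw [hom.map_mul hyN haN, hom.map_mul haN hyN, h12]
    exact (Commute.zpow_left (htR _ h14) e').eq)
  rw [h15, mul_inv_cancel_right, eq_comm, mul_eq_right] at hya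
  exact G.z1 hya

end Cfsg.Lib.WQ
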