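import Cfsg.Agent.WQ.Defs

/-! Alperin induction relative to a normal subgroup. -/

set_option autoImplicit false

namespace Cfsg.Lib.WQ

open Cfsg Cfsg.FusionSystem Subgroup Cfsg.Lib.Fus

variable {Ω : Type*} [Group Ω] {S : Subgroup Ω} [Finite S] {F : FusionSystem S} {m : ℕ}
  {a b w β : Ω}

open Ess in
theorem q6 {R : Subgroup Ω} (hS : IsPGroup 2 S) (hF : F.IsSaturated 2) (hR : R ≤ S)
    (hn : S ≤ normalizer (R : Set Ω)) : PG F R := by
  intro M Φ hM h1 h2 h3 h5 h6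
  refine alperin_essential hS hF h1 h2 h3 fun E hE ih f hf => ?_
  by_cases hRE : R ≤ E
  · exact h5 E f hf hRE
  have he := hE.resolve_left fun e => hRE (e ▸ hR)
  have ES := hf.le_left
  have := finite_of_le ES
  obtain ⟨r, r1, r2, r3⟩ := exists_step_of_not_le hS ES hR (ES.trans hn) hRE
  let K : Subgroup E := closure {y | ∃ α ∈ F.autGroup E, ∃ x : E, x.1 ∈ R ∧ y = α x}
  have hK : AInv (F.autGroup E) K := aInv_closure fun a ha _ ⟨α, h1, x, h2, e⟩ =>
    subset_closure ⟨a * α, mul_mem ha h1, x, h2, e ▸ rfl⟩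
  have KM : K ≤ M.subgroupOf E := (closure_le _).2 fun _ ⟨α, h1, x, h2, e⟩ => hM x h2 _ (by
    have := (piso_pext_of_mem ES h1).mor.isConjElt x.2
    rwa [pext_coe, ← e] at this)
  have nn : ∀ a ∈ F.autGroup E, ∀ β ∈ trivSub (A := F.autGroup E) aInv_top K,
      a * β * a⁻¹ ∈ trivSub (A := F.autGroup E) aInv_top K := fun a ha β hβ =>
    ⟨mul_mem (mul_mem ha hβ.1) (inv_mem ha), hβ.2.conj (fun _ _ => trivial) (hK a ha)⟩
  have tN : conjAut E r r2 ∈ trivSub (A := F.autGroup E) aInv_top K :=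
    ⟨conjAut_mem_autGroup F ES (hR r1) r2, fun x _ => subset_closure ⟨1, one_mem _, _, by
      simpa [mul_assoc] using mul_mem (inv_conj_mem_of_mem_normalizer (hn (ES x.2)) r1)
        (inv_mem r1), rfl⟩⟩
  obtain ⟨k, hk⟩ := conjAut_pelt hS (hR r1) r2
  obtain ⟨ν, ν1, ν2⟩ := ((sat_sylIn hS hF he.2.1).inf_normal
    (N := trivSub (A := F.autGroup E) aInv_top K) (fun _ h => h.1) fun a ha => mem_normalizer_of_finite (nn a ha)).exists_conj
    (zpowers_le.2 (nn _ hf.aut_mem _ tN)) (isPGroup_zpowers_of_pow (j := k) (by simp [hk]))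
  obtain ⟨Q, g, q1, q2, q3⟩ := (extendable_iff_of_isCentric hS hF he.1
    (mul_mem ν1.1 hf.aut_mem)).2 ⟨_, conjAut_mem_autInducedBy (hR r1) r2, fun h => r3
      ((conjAut_mem_inn_iff (isCentric_self he.1) ES ⟨hR r1, r2⟩).1 h),
      by simpa [mul_assoc] using (ν2 _ (mem_zpowers _)).1⟩
  have p1 := piso_pext_of_mem ES (mul_mem ν1.1 hf.aut_mem)
  have p2 := piso_pext_of_mem ES (inv_mem ν1).1
  have := q2.finite
  refine h1 _ _ _ (p1.trans p2).mor (h3 _ _ _ _ _ p1 p2 (h1 _ _ _ (q2.restrict q1.le)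
    (h2 _ _ _ q2 (ih _ _ (card_lt_card_of_lt q1) q2) q1.le) q3) (h6 _ _ p2 fun x hx => ?_))
    fun x hx => ?_
  · rw [pext_of_mem _ hx]
    exact KM ((inv_mem ν1).2 ⟨x, hx⟩ trivial)
  · rw [← map_mul, inv_mul_cancel_left, hf.pext_aut hx]

end Cfsg.Lib.WQ
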