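import Cfsg.Agent.WQ.Q4

/-! Every element of `S` centralizes or inverts `a`. -/

set_option autoImplicit false

namespace Cfsg.Lib.WQ

open Cfsg Cfsg.FusionSystem Subgroup Cfsg.Lib.Fus

variable {Ω : Type*} [Group Ω] {S : Subgroup Ω} [Finite S] {F : FusionSystem S} {m : ℕ}
  {a b w β : Ω}

namespace Q7

theorem exists_M (a : Ω) : ∃ M : Subgroup Ω, ∀ s, s ∈ M ↔ s * a * s⁻¹ = a ∨ s * a * s⁻¹ = a⁻¹ := by
  refine ⟨⟨⟨⟨{s | s * a * s⁻¹ = a ∨ s * a * s⁻¹ = a⁻¹}, fun {s t} hs ht => ?_⟩, .inl (by simp)⟩,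
    fun {s} hs => ?_⟩, fun _ => Iff.rfl⟩
  · have e : s * t * a * (s * t)⁻¹ = s * (t * a * t⁻¹) * s⁻¹ := by group
    rcases ht with ht | ht <;> rw [Set.mem_ofPred_eq, e, ht]
    · exact hs
    · rw [← conj_inv]
      exact hs.symm.imp (fun e => by rw [e, inv_inv]) fun e => by rw [e]
  · refine hs.imp (fun e => ?_) fun e => ?_
    · nth_rewrite 1 [← e]
      group
    · nth_rewrite 1 [← inv_inv a, ← e]
      group

end Q7

theorem q7 (D : Dat F m a b) (h1 : PSq F m a b) (h2 : PX F m a) (h3 : PG F (RR a b))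
    (foc : S ≤ F.focalSubgroup) : PA S a := by
  obtain ⟨M, hM⟩ := Q7.exists_M a
  have G := D.gb
  have := h3 M (fun P f => ∀ x ∈ P, x⁻¹ * f x ∈ M) (fun x hx y hy => ?_)
    (fun P f g _ h e x hx => e x hx ▸ h x hx) (fun P Q f _ h e x hx => h x (e hx))
    (fun P Q U f g hf _ h h' x hx => by
      simpa [mul_assoc] using mul_mem (h x hx) (h' _ (hf.maps hx)))
    (fun E f hf hE x hx => ?_) fun E f _ h => h
  · refine fun s hs => (hM s).1 (focalSubgroup_le_iff.2 (fun P f hf x hx => ?_) (foc hs))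
    obtain ⟨g, g1, g2⟩ := hf.exists_perm
    exact g2 x hx ▸ this P g g1 x hx
  · obtain ⟨f, hf, rfl⟩ := isConjElt_iff.1 hy
    by_cases x1 : x = 1
    · rw [(hf.eq_one_iff (mem_zpowers x)).2 x1]
      exact one_mem _
    have hz := G.zmem x hx x1
    by_cases e : f (zz m a) = zz m a
    · refine (closure_le _).2 ?_ ((D.fb.fixz _ f hf hz e x (mem_zpowers x)).2 hx)
      rintro _ (rfl | rfl)
      exacts [(hM _).2 (.inl (mul_inv_cancel_right _ _)), (hM _).2 (.inr D.hyp.ba)]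
    by_cases e' : f x * f x = 1
    · rw [← hf.map_mul (mem_zpowers x) (mem_zpowers x),
        hf.eq_one_iff (mul_mem (mem_zpowers x) (mem_zpowers x))] at e'
      exact (hM _).2 (h2 _ ((G.invol x hx e').resolve_left x1 ▸ hy))
    · have := D.bf.mapR _ f x hf hz (mem_zpowers x) hx
      exact (hM _).2 (.inl (mul_inv_eq_iff_eq_mul.2
        ((h1 _ (hf.isConjElt hz) e _ this e').2.2 _ this)))
  · obtain ⟨-, l, hl, e⟩ := D.fb.morR E f hf.mor hE
    obtain ⟨i, -, -, e1, -⟩ := D.fb.act x (hf.le_left hx)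
    obtain ⟨l', -, h⟩ := Q4.exists_inv_odd hl (m + 3)
    have aE := hE (a_mem_RR a b)
    have e2 := hf.map_conj hx aE
    rw [e1, hf.mor.map_zpow aE, e, ← zpow_mul] at e2
    have e3 : a = (a ^ l) ^ l' := by rw [← zpow_mul, (G.inj _ 1).2 h, zpow_one]
    have e4 : f x * a * (f x)⁻¹ = x * a * x⁻¹ := by
      rw [e1, e3, ← conj_zpow, ← e2, ← zpow_mul, ← zpow_mul, ← zpow_mul]
      congr 1
      ring
    refine (hM _).2 (.inl ?_)
    calc _ = x⁻¹ * (f x * a * (f x)⁻¹) * x := by group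
      _ = a := by rw [e4]; group

end Cfsg.Lib.WQ
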