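import Cfsg.Agent.WQ.Defs

/-! The torus case: the torus and the automorphism permuting its involutions. -/

set_option autoImplicit false

namespace Cfsg.Lib.WQ

open Cfsg Cfsg.FusionSystem Subgroup Cfsg.Lib.Fus

variable {Ω : Type*} [Group Ω] {S : Subgroup Ω} [Finite S] {F : FusionSystem S} {m : ℕ}
  {a b w β : Ω}

namespace T1

theorem mul_zpow (c : β * a = a * β) (i j i' j' : ℤ) :
    a ^ i * β ^ j * (a ^ i' * β ^ j') = a ^ (i + i') * β ^ (j + j') := by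
  rw [(Commute.zpow_zpow c j i').mul_mul_mul_comm, zpow_add, zpow_add]

theorem mem_HH (c : β * a = a * β) (x : Ω) : x ∈ HH a β ↔ ∃ i j : ℤ, x = a ^ i * β ^ j := by
  refine ⟨fun hx => ?_, ?_⟩
  · induction hx using closure_induction with
    | mem x hx =>
      rcases hx with rfl | rfl
      · exact ⟨1, 0, by simp⟩
      · exact ⟨0, 1, by simp⟩
    | one => exact ⟨0, 0, by simp⟩
    | mul x y _ _ h1 h2 =>
      obtain ⟨i, j, rfl⟩ := h1
      obtain ⟨i', j', rfl⟩ := h2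
      exact ⟨_, _, mul_zpow c ..⟩
    | inv x _ h1 =>
      obtain ⟨i, j, rfl⟩ := h1
      exact ⟨-i, -j, inv_eq_of_mul_eq_one_right (by rw [mul_zpow c]; simp)⟩
  · rintro ⟨i, j, rfl⟩
    exact mul_mem (zpow_mem (a_mem_RR a β) i) (zpow_mem (b_mem_RR a β) j)

theorem dvd_iff {g : Ω} (h : orderOf g = 2 ^ (m + 3)) {i : ℤ} :
    (2 : ℤ) ^ (m + 3) ∣ i ↔ g ^ i = 1 := by
  rw [← orderOf_dvd_iff_zpow_eq_one, h]; push_cast; rfl

theorem zz_sq {g : Ω} (h : orderOf g = 2 ^ (m + 3)) : zz m g * zz m g = 1 := by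
  rw [← pow_add, ← two_mul, ← pow_succ', ← h, pow_orderOf_eq_one]

theorem half {g : Ω} (h : orderOf g = 2 ^ (m + 3)) {i : ℤ} (e : (2 : ℤ) ^ (m + 3) ∣ i + i) :
    g ^ i = 1 ∨ g ^ i = zz m g := by
  obtain ⟨k, hk⟩ := e
  obtain rfl : i = ((2 ^ (m + 2) : ℕ) : ℤ) * k := by
    rw [pow_succ] at hk; push_cast; linarith
  rw [zpow_mul, zpow_natCast]
  obtain ⟨l, rfl | rfl⟩ := Int.even_or_odd' k
  · exact Or.inl (by rw [zpow_mul, zpow_two, zz_sq h, one_zpow])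
  · exact Or.inr (by rw [zpow_add, zpow_mul, zpow_two, zz_sq h, one_zpow, one_mul, zpow_one])

end T1

open T1 in
theorem t1 (D : Dat F m a b) (h : TFr F m a b w β) : TR F m a b w β := by
  have H := D.hyp
  have βB : β ∈ BB F m a b w := h.gen ▸ mem_zpowers β
  have βS := (mem_CC.1 βB.1).1
  have wS := isConjElt_mem_right h.conj
  have zS : zz m a ∈ S := pow_mem H.aS _
  have zi : (zz m a)⁻¹ = zz m a := inv_eq_of_mul_eq_one_right D.gb.z2
  have ww : w * w = 1 := h.βw ▸ zz_sq h.ord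
  have inj : ∀ i j : ℤ, a ^ i * β ^ j = 1 → (2 : ℤ) ^ (m + 3) ∣ i ∧ (2 : ℤ) ^ (m + 3) ∣ j :=
    fun i j e => by
      have := D.bf.infR w h.conj h.ne _ (zpow_mem βB j)
        (eq_inv_of_mul_eq_one_right e ▸ inv_mem (zpow_mem (a_mem_RR a b) i))
      exact ⟨(dvd_iff H.ord).2 (by rwa [this, mul_one] at e), (dvd_iff h.ord).2 this⟩
  have bβ : b * β * b⁻¹ = a⁻¹ * β := by
    rw [show b * β * b⁻¹ = a⁻¹ * (a * b) * β * b⁻¹ by group, ← h.βb]; group
  have bw : b * w * b⁻¹ = zz m a * w := by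
    rw [show b * w * b⁻¹ = (zz m a)⁻¹ * (zz m a * b) * w * b⁻¹ by group, ← h.wb, zi]; group
  have bz : b * zz m a * b⁻¹ = zz m a := by rw [← D.gb.zb, mul_inv_cancel_right]
  have bw' : b * (zz m a * w) * b⁻¹ = w := by
    rw [← conj_mul, bz, bw, ← mul_assoc, D.gb.z2, one_mul]
  have zC : zz m a ∈ CC S w := mem_CC.2 ⟨zS, (D.fb.zc w wS).symm⟩
  have wC : w ∈ CC S w := mem_CC.2 ⟨wS, rfl⟩
  have bT : PIso F (cj b) (CC S w) (CC S w) := by
    have : Finite (CC S w) := finite_of_le (centralizerIn_le (S := S))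
    refine PIso.cj F centralizerIn_le (mem_normalizerIn_of_finite H.bS fun x hx => ?_)
    rw [mem_CC] at hx ⊢
    refine ⟨mul_mem (mul_mem H.bS hx.1) (inv_mem H.bS), ?_⟩
    rw [← bw', conj_mul, conj_mul, ← mul_assoc x, D.fb.zc x hx.1, mul_assoc _ x, hx.2,
      ← mul_assoc _ w]
  have βt : ∀ t ∈ CC S w, ∃ j : ℤ, t * β * t⁻¹ = β ^ j := fun t ht => by
    have := D.bf.map S (cj t) w β (Mor.cj F le_rfl (mem_CC.1 ht).1) wS βS h.conj βB
    rw [cj_apply, cj_apply, (mem_CC.1 ht).2, mul_inv_cancel_right, h.gen] at this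
    exact this.imp fun _ => Eq.symm
  obtain ⟨σ, s1, s2, s3, s4⟩ := h.sig
  refine ⟨βS, mem_HH h.βa, inj, fun x hx e => ?_, bβ, bw, bT, (closure_le _).2 ?_,
    fun t ht => ?_, σ * cj b, bT.trans s1, ?_, ?_, ?_, fun t ht => ?_⟩
  · obtain ⟨i, j, rfl⟩ := (mem_HH h.βa x).1 hx
    rw [mul_zpow h.βa] at e
    rcases half H.ord (inj _ _ e).1 with e1 | e1 <;> rcases half h.ord (inj _ _ e).2 with e2 | e2 <;>
      simp [e1, e2, h.βw]
  · rintro x (rfl | rfl)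
    exacts [mem_CC.2 ⟨H.aS, h.wa.symm⟩, βB.1]
  · obtain ⟨i, -, -, e1, -⟩ := D.fb.act t (mem_CC.1 ht).1
    obtain ⟨j, e2⟩ := βt t ht
    obtain ⟨l, e3⟩ := βt _ (bT.inv_maps ht)
    rw [← map_inv, cj_apply] at e3
    have e4 : t * (b * β * b⁻¹) * t⁻¹ = (b * β * b⁻¹) ^ l := by rw [conj_zpow, ← e3]; group
    rw [bβ, ← conj_mul, ← conj_inv, e1, e2, (Commute.symm h.βa).inv_left.mul_zpow] at e4
    have := inj (l + -i) (j + -l) (by
      rw [← add_zero (l + -i), add_assoc, ← zero_add (j + -l), ← mul_zpow h.βa, ← mul_zpow h.βa,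
        zpow_neg a i, e4]
      group)
    refine ⟨i, e1, e2.trans ?_⟩
    rw [← mul_inv_eq_one, ← zpow_neg, ← zpow_add, ← dvd_iff h.ord]
    have := dvd_add this.1 this.2
    rwa [show l + -i + (j + -l) = j + -i by ring] at this
  · rw [Equiv.Perm.mul_apply, cj_apply, bz, s3]
  · rw [Equiv.Perm.mul_apply, cj_apply, bw', s2]
  · rw [Equiv.Perm.mul_apply, cj_apply, bw, s1.map_mul zC wC, s2, s3, mul_assoc, ww, mul_one]
  · obtain ⟨-, j, -, -, e⟩ := D.fb.act _ (inv_mem (mem_CC.1 ht).1)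
    have : t⁻¹ * (σ * cj b) t = a ^ j * ((cj b t)⁻¹ * σ (cj b t)) := by
      rw [← mul_inv_eq_iff_eq_mul.2 e, Equiv.Perm.mul_apply]
      simp only [cj_apply]
      group
    exact this ▸ mul_mem (zpow_mem (a_mem_RR a β) j)
      (zpowers_le.2 (b_mem_RR a β) (s4 _ (bT.maps ht)))

end Cfsg.Lib.WQ
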