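import Cfsg.Agent.WQ.T1

/-! The torus case: the torus is self-centralizing. -/

set_option autoImplicit false

namespace Cfsg.Lib.WQ

open Cfsg Cfsg.FusionSystem Subgroup Cfsg.Lib.Fus

variable {Ω : Type*} [Group Ω] {S : Subgroup Ω} [Finite S] {F : FusionSystem S} {m : ℕ}
  {a b w β : Ω}

namespace T2

omit [Finite S] in
theorem exists_invol (hS : IsPGroup 2 S) {x : Ω} (hx : x ∈ S) (h1 : x ≠ 1) :
    ∃ n : ℕ, x ^ n ≠ 1 ∧ x ^ n * x ^ n = 1 := by
  obtain ⟨k, hk⟩ := hS ⟨x, hx⟩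
  replace hk : x ^ 2 ^ k = 1 := congrArg Subtype.val hk
  induction k with
  | zero => exact absurd (by simpa using hk) h1
  | succ k ih =>
    by_cases h : x ^ 2 ^ k = 1
    · exact ih h
    · exact ⟨2 ^ k, h, by rw [← pow_add, ← two_mul, ← pow_succ', hk]⟩

theorem comm_HH {k x : Ω} (h1 : k * a = a * k) (h2 : k * β = β * k) (hx : x ∈ HH a β) :
    k * x = x * k := by
  have : HH a β ≤ centralizer {k} := (closure_le _).2 (by
    rintro y (rfl | rfl)
    exacts [mem_centralizer_singleton_iff.2 h1.symm, mem_centralizer_singleton_iff.2 h2.symm])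
  exact (mem_centralizer_singleton_iff.1 (this hx)).symm

omit [Finite S] in
theorem w_ne (D : Dat F m a b) (h : TFr F m a b w β) : w ≠ 1 := fun e => D.gb.z1 (by
  have := h.wb
  rwa [e, one_mul, inv_one, mul_one, right_eq_mul] at this)

omit [Finite S] in
theorem not_mem (D : Dat F m a b) (h : TFr F m a b w β) : w ∉ RR a b := fun e =>
  w_ne D h (D.bf.infR w h.conj h.ne w (D.bf.self w h.conj) e)

omit [Finite S] in
theorem no_fix (D : Dat F m a b) (h : TFr F m a b w β) (h' : TR F m a b w β) {ρ : Ω → Ω}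
    (r1 : ρ (zz m a) = zz m a * w) (r2 : ρ (zz m a * w) = w) (r3 : ρ w = zz m a) {u : Ω}
    (hu : u ∈ HH a β) (u2 : u * u = 1) (e : ρ u = u) : u = 1 := by
  rcases h'.invol u hu u2 with rfl | rfl | rfl | rfl
  · rfl
  · exact (w_ne D h (mul_eq_left.1 (r1.symm.trans e))).elim
  · exact (h.ne (e.symm.trans r3)).elim
  · exact (D.gb.z1 (mul_eq_right.1 (e.symm.trans r2))).elim

end T2

open T2 in
theorem t2 (D : Dat F m a b) (h : TFr F m a b w β) (h' : TR F m a b w β) : PC S a β := by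
  intro k hk ka kβ
  by_contra kH
  have H := D.hyp
  obtain ⟨ρ, r0, r1, r2, r3, r4⟩ := h'.rho
  have le : CC S w ≤ S := centralizerIn_le
  have : Finite (HH a β) := finite_of_le (h'.le.trans le)
  have wS := isConjElt_mem_right h.conj
  have zC : zz m a ∈ CC S w := mem_CC.2 ⟨pow_mem H.aS _, (D.fb.zc w wS).symm⟩
  have wC : w ∈ CC S w := mem_CC.2 ⟨wS, rfl⟩
  have ww : w * w = 1 := h.βw ▸ T1.zz_sq h.ord
  have ρH : ∀ u ∈ HH a β, ρ u ∈ HH a β := fun u hu =>
    (mul_mem_cancel_left (inv_mem hu)).1 (r4 u (h'.le hu))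
  have inj : Function.Injective fun u : HH a β =>
      (⟨u * (ρ u)⁻¹, mul_mem u.2 (inv_mem (ρH u u.2))⟩ : HH a β) := fun u v e => by
    have e1 : (u : Ω) * (ρ u)⁻¹ = v * (ρ v)⁻¹ := congrArg Subtype.val e
    have m1 := mul_mem (inv_mem v.2) u.2
    have e2 : ρ ((v : Ω)⁻¹ * u) = (v : Ω)⁻¹ * u := by
      rw [r0.map_mul (h'.le (inv_mem v.2)) (h'.le u.2), r0.mor.map_inv (h'.le v.2)]
      conv_rhs => rw [mul_inv_eq_iff_eq_mul.1 e1]
      group
    by_contra n
    obtain ⟨l, l1, l2⟩ := exists_invol H.pg (le (h'.le m1))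
      fun e => n (Subtype.ext (inv_mul_eq_one.1 e).symm)
    exact l1 (no_fix D h h' r1 r2 r3 (pow_mem m1 l) l2 (by rw [r0.mor.map_pow (h'.le m1), e2]))
  have kC : k ∈ CC S w := mem_CC.2 ⟨hk, h.βw ▸ (Commute.pow_right kβ _).eq⟩
  obtain ⟨u, e⟩ := Finite.surjective_of_injective inj ⟨_, r4 k kC⟩
  replace e : (u : Ω) * (ρ u)⁻¹ = k⁻¹ * ρ k := congrArg Subtype.val e
  have m1 := mul_mem kC (h'.le u.2)
  obtain ⟨l, q1, q2⟩ := exists_invol H.pg (le m1)
    fun e => kH (eq_inv_of_mul_eq_one_left e ▸ inv_mem u.2)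
  have qC := pow_mem m1 l
  have qρ : ρ ((k * u) ^ l) = (k * u) ^ l := by
    rw [r0.mor.map_pow m1, r0.map_mul kC (h'.le u.2), inv_mul_eq_iff_eq_mul.1 e.symm]
    group
  have qa : (k * u) ^ l * a = a * (k * u) ^ l := ((Commute.mul_left ka
    (comm_HH rfl h.βa.symm u.2).symm).pow_left l).eq
  generalize (k * u) ^ l = q at q1 q2 qC qρ qa
  have qz := D.fb.zc q (le qC)
  obtain ⟨-, j, -, -, qb⟩ := D.fb.act q (le qC)
  have a2 : a ^ j * a ^ j = 1 := by
    have : q * (q * b * q⁻¹) * q⁻¹ = b := by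
      rw [show q * (q * b * q⁻¹) * q⁻¹ = q * q * b * (q * q)⁻¹ by group, q2]; group
    rwa [qb, ← conj_mul, qb, (Commute.zpow_right qa j).eq, mul_inv_cancel_right, ← mul_assoc,
      mul_eq_right] at this
  rcases D.gb.invol _ (zpow_mem (a_mem_RR a b) j) a2 with e | e <;> rw [e] at qb
  · have := H.f1 q (le qC) qa (by rw [← mul_inv_eq_iff_eq_mul, qb, one_mul]) q2 q1 _ ρ r0.mor qC qρ
      _ zC (pow_mem (a_mem_RR a b) _)
    rw [r1] at this
    exact not_mem D h ((mul_mem_cancel_left (pow_mem (a_mem_RR a b) _)).1 this)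
  · have zi : (zz m a)⁻¹ = zz m a := inv_eq_of_mul_eq_one_right D.gb.z2
    have τ := (r0.symm.trans h'.bT).trans r0
    have y1 : ρ (q * (zz m a * w)) = q * w := by rw [r0.map_mul qC (mul_mem zC wC), qρ, r2]
    have bq : b * q * b⁻¹ = q * zz m a := by
      rw [show b * q * b⁻¹ = (zz m a)⁻¹ * (zz m a * b) * q * b⁻¹ by group, ← qb, zi, qz]; group
    have bw : b * (zz m a * w) * b⁻¹ = zz m a * (zz m a * w) := by
      rw [← conj_mul, h'.bw, ← D.gb.zb, mul_inv_cancel_right]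
    have := H.f1 (q * w) (mul_mem (le qC) wS) (Commute.mul_left qa h.wa)
      (by rw [← mul_inv_eq_iff_eq_mul, show q * w * b * (q * w)⁻¹ = q * (w * b * w⁻¹) * q⁻¹ by group,
        h.wb, ← conj_mul, qb, qz, mul_inv_cancel_right, ← mul_assoc, D.gb.z2, one_mul])
      (by rw [(Commute.symm (mem_CC.1 qC).2).mul_mul_mul_comm, q2, ww, mul_one])
      (fun e => h.ne (by
        rw [← r3, ← inv_eq_of_mul_eq_one_right e, inv_eq_of_mul_eq_one_right q2, qρ]))
      _ _ τ.mor (mul_mem qC wC) (by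
        rw [← y1, Equiv.Perm.mul_apply, Equiv.Perm.mul_apply, Equiv.Perm.coe_inv,
          Equiv.symm_apply_apply, cj_apply, ← conj_mul, bq, bw, mul_assoc q, ← mul_assoc (zz m a),
          D.gb.z2, one_mul]) _ zC (pow_mem (a_mem_RR a b) _)
    rw [← r3, Equiv.Perm.mul_apply, Equiv.Perm.mul_apply, Equiv.Perm.coe_inv,
      Equiv.symm_apply_apply, cj_apply, h'.bw, r2] at this
    exact not_mem D h this

end Cfsg.Lib.WQ
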