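import Cfsg.Agent.WQ.T2

/-! The torus case: the structure of `S`. -/

set_option autoImplicit false

namespace Cfsg.Lib.WQ

open Cfsg Cfsg.FusionSystem Subgroup Cfsg.Lib.Fus

variable {Ω : Type*} [Group Ω] {S : Subgroup Ω} [Finite S] {F : FusionSystem S} {m : ℕ}
  {a b w β : Ω}

namespace T3

theorem tr (h1 : orderOf a = 2 ^ (m + 3)) (h2 : orderOf β = 2 ^ (m + 3)) {i j : ℤ}
    (e : a ^ i = a ^ j) : β ^ i = β ^ j := by
  rw [← mul_inv_eq_one, ← zpow_sub] at e ⊢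
  exact (T1.dvd_iff h2).1 ((T1.dvd_iff h1).2 e)

theorem ne_inv (h1 : orderOf a = 2 ^ (m + 3)) : a ≠ a⁻¹ := fun e => by
  have := Nat.le_of_dvd two_pos (h1 ▸ orderOf_dvd_of_pow_eq_one
    (show a ^ 2 = 1 by rw [pow_two, ← eq_inv_iff_mul_eq_one, ← e]))
  have h2 : 0 < 2 ^ m := by positivity
  rw [pow_add] at this
  omega

theorem inverts (c : β * a = a * β) {t x : Ω} (h1 : t * a * t⁻¹ = a⁻¹) (h2 : t * β * t⁻¹ = β⁻¹)
    (hx : x ∈ HH a β) : t * x * t⁻¹ = x⁻¹ := by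
  obtain ⟨i, j, rfl⟩ := (T1.mem_HH c x).1 hx
  rw [← conj_mul, ← conj_zpow, ← conj_zpow, h1, h2, mul_inv_rev, inv_zpow, inv_zpow,
    (Commute.zpow_zpow c j i).inv_inv.eq]

theorem comm (c : β * a = a * β) {x y : Ω} (hx : x ∈ HH a β) (hy : y ∈ HH a β) : x * y = y * x :=
  T2.comm_HH (T2.comm_HH rfl c.symm hx).symm (T2.comm_HH c rfl hx).symm hy

end T3

open T3 in
theorem t3 (D : Dat F m a b) (h : TFr F m a b w β) (h' : TR F m a b w β) (hC : PC S a β)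
    (hA : PA S a) : TS S m a b β := by
  have H := D.hyp
  have ww : w * w = 1 := h.βw ▸ T1.zz_sq h.ord
  have na := ne_inv H.ord
  have hi : ∀ t ∈ S, t * w * t⁻¹ = w → t ∈ HH a β ∨ t * a * t⁻¹ = a⁻¹ ∧ t * β * t⁻¹ = β⁻¹ :=
    fun t ht e => by
      obtain ⟨i, e1, e2⟩ := h'.scal t (mem_CC.2 ⟨ht, mul_inv_eq_iff_eq_mul.1 e⟩)
      refine (hA t ht).imp (fun k => hC t ht (mul_inv_eq_iff_eq_mul.1 k)
        (mul_inv_eq_iff_eq_mul.1 ?_)) fun k => ⟨k, ?_⟩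
      · rw [e2, tr H.ord h.ord (j := 1) (by rw [← e1, k, zpow_one]), zpow_one]
      · rw [e2, tr H.ord h.ord (j := -1) (by rw [← e1, k, zpow_neg_one]), zpow_neg_one]
  have cz : ∀ s ∈ S, s * (zz m a * w) * s⁻¹ = zz m a * (s * w * s⁻¹) := fun s hs => by
    rw [← conj_mul, D.fb.zc s hs, mul_inv_cancel_right]
  have zzw : zz m a * (zz m a * w) = w := by rw [← mul_assoc, D.gb.z2, one_mul]
  have inv : ∀ s ∈ S, s * w * s⁻¹ = zz m a * w → s⁻¹ * w * s⁻¹⁻¹ = zz m a * w := fun s hs e => by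
    have := cz s hs
    rw [e, zzw] at this
    conv_lhs => rw [← this]
    group
  have two : ∀ s ∈ S, ∀ t, s * w * s⁻¹ = zz m a * w → t * w * t⁻¹ = zz m a * w →
      s * t * w * (s * t)⁻¹ = w := fun s hs t e e' => by
    rw [show s * t * w * (s * t)⁻¹ = s * (t * w * t⁻¹) * s⁻¹ by group, e', cz s hs, e, zzw]
  let N : Subgroup Ω :=
    { carrier := {s | s ∈ S ∧ (s * w * s⁻¹ = w ∨ s * w * s⁻¹ = zz m a * w)}
      one_mem' := ⟨one_mem _, Or.inl (by simp)⟩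
      mul_mem' := by
        rintro s t ⟨hs, e⟩ ⟨ht, e'⟩
        refine ⟨mul_mem hs ht, ?_⟩
        rw [show s * t * w * (s * t)⁻¹ = s * (t * w * t⁻¹) * s⁻¹ by group]
        rcases e' with e' | e' <;> rw [e']
        · exact e
        · rw [cz s hs]
          exact e.symm.imp (fun e => by rw [e, zzw]) fun e => by rw [e]
      inv_mem' := by
        rintro s ⟨hs, e⟩
        refine ⟨inv_mem hs, e.imp (fun e => ?_) (inv s hs)⟩
        conv_lhs => rw [← e]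
        group }
  have hN : S ≤ N := by
    by_contra n
    obtain ⟨s, hs, sN⟩ := SetLike.exists_of_lt
      (lt_normalizerIn (P := N) H.pg (lt_of_le_not_ge (fun _ h => h.1) n))
    obtain ⟨m1, m2⟩ := conj_mem_of_mem_normalizerIn hs
      (show β ∈ N from ⟨h'.βS, Or.inl (by rw [← h.βw]; group)⟩)
    have c1 : s * β * s⁻¹ * a * (s * β * s⁻¹)⁻¹ = a := by
      have : Commute β (s⁻¹ * a * s⁻¹⁻¹) := by
        rcases hA _ (inv_mem hs.1) with e | e <;> rw [e]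
        exacts [h.βa, Commute.inv_right h.βa]
      rw [show s * β * s⁻¹ * a * (s * β * s⁻¹)⁻¹ = s * (β * (s⁻¹ * a * s⁻¹⁻¹) * β⁻¹) * s⁻¹ by group,
        this.eq]
      group
    have c2 : (s * β * s⁻¹) ^ 2 ^ (m + 2) = s * w * s⁻¹ := by rw [conj_pow, h.βw]
    have c3 : s * w * s⁻¹ * (s * w * s⁻¹) = 1 := by rw [conj_mul, ww]; group
    have c4 : s * w * s⁻¹ ≠ 1 := fun e => T2.w_ne D h (by simpa using e)
    have c5 : s * w * s⁻¹ ≠ zz m a := fun e => h.ne (by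
      rwa [mul_inv_eq_iff_eq_mul, ← D.fb.zc s hs.1, mul_right_inj] at e)
    generalize s * β * s⁻¹ = c at m1 m2 c1 c2
    rcases m2 with e | e
    · rcases h'.invol _ (c2 ▸ pow_mem ((hi c m1 e).resolve_right fun k => na (c1.symm.trans k.1)) _)
        c3 with k | k | k | k
      exacts [c4 k, c5 k, sN ⟨hs.1, Or.inl k⟩, sN ⟨hs.1, Or.inr k⟩]
    have t1 : c * b⁻¹ * a * (c * b⁻¹)⁻¹ = a⁻¹ := by
      have : b⁻¹ * a * b = a⁻¹ := by
        rw [← inv_inj, inv_inv, show (b⁻¹ * a * b)⁻¹ = b⁻¹ * a⁻¹ * b by group, ← H.ba]; group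
      rw [show c * b⁻¹ * a * (c * b⁻¹)⁻¹ = c * (b⁻¹ * a * b) * c⁻¹ by group, this, ← conj_inv, c1]
    have t2 := ((hi _ (mul_mem m1 (inv_mem H.bS)) (two c m1 _ e (inv b H.bS h'.bw))).resolve_left
      fun k => na (by rw [← t1, comm h.βa k (a_mem_RR a β), mul_inv_cancel_right])).2
    have t3 : c * β * c⁻¹ = a * β⁻¹ := by
      rw [show c * β * c⁻¹ = c * b⁻¹ * (b * β * b⁻¹) * (c * b⁻¹)⁻¹ by group, h'.bβ, ← conj_mul,
        ← conj_inv, t1, t2, inv_inv]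
    obtain ⟨i, j, k⟩ := (h'.mem _).1 ((hi _ (mul_mem m1 m1) (two c m1 c e e)).resolve_right
      fun k => na (by
        rw [← k.1, show c * c * a * (c * c)⁻¹ = c * (c * a * c⁻¹) * c⁻¹ by group, c1, c1]))
    have k1 : c * (c * c) * c⁻¹ = c * c := by group
    rw [k, ← conj_mul, ← conj_zpow, ← conj_zpow, c1, t3, mul_right_inj,
      (Commute.symm h.βa).inv_right.mul_zpow] at k1
    have k2 := (T1.dvd_iff h.ord).1 (h'.inj j (-j + -j) (by
      rw [zpow_add, ← mul_assoc, ← inv_zpow', k1, inv_zpow, mul_inv_cancel])).1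
    rw [k2, mul_one] at k
    rw [pow_succ', pow_mul, pow_two, k] at c2
    exact (D.gb.invol _ (c2 ▸ pow_mem (zpow_mem (a_mem_RR a b) i) _) c3).elim c4 c5
  refine ⟨H.aS, H.bS, h'.βS, H.ord, h.ord, H.bb, H.ba, h.βa, h'.bβ, h'.mem, h'.inj, hC,
    fun s hs => ?_, fun t ht t1 t2 => ?_⟩
  · rcases (hN hs).2 with e | e
    · exact ⟨s, hs, Or.inl rfl, hi s hs e⟩
    · have := mul_mem hs (inv_mem H.bS)
      exact ⟨_, this, Or.inr (inv_mul_cancel_right s b).symm,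
        hi _ this (two s hs _ e (inv b H.bS h'.bw))⟩
  obtain ⟨ρ, r0, r1, r2, r3, r4⟩ := h'.rho
  have tC : t ∈ CC S w := mem_CC.2 ⟨ht, by
    rw [← mul_inv_eq_iff_eq_mul, ← h.βw, ← conj_pow, t2, inv_pow, h.βw,
      inv_eq_of_mul_eq_one_right ww]⟩
  have sq : ∀ x : Ω, t * x * t⁻¹ = x⁻¹ → t * t * x = x * (t * t) := fun x e => by
    rw [← mul_inv_eq_iff_eq_mul, show t * t * x * (t * t)⁻¹ = t * (t * x * t⁻¹) * t⁻¹ by group, e,
      ← conj_inv, e, inv_inv]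
  have vH := hC _ (mul_mem ht ht) (sq a t1) (sq β t2)
  have u := r4 t tC
  refine T2.no_fix D h h' r1 r2 r3 vH ?_ ?_
  · rw [← eq_inv_iff_mul_eq_one, ← inverts h.βa t1 t2 vH]; group
  · rw [r0.map_mul tC tC, ← mul_inv_cancel_left t (ρ t)]
    generalize t⁻¹ * ρ t = u' at u
    rw [show t * u' * (t * u') = t * u' * t⁻¹ * (t * t * u') by group, inverts h.βa t1 t2 u,
      comm h.βa vH u, inv_mul_cancel_left]

end Cfsg.Lib.WQ
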