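import Cfsg.Agent.WQ.T3
import Cfsg.Prelude.Def_CaseTheorems

/-! The torus case: `S` is wreathed or of type `G₂(q)`. -/

set_option autoImplicit false

namespace Cfsg.Lib.WQ

open Cfsg Cfsg.FusionSystem Subgroup Cfsg.Lib.Fus

variable {Ω : Type*} [Group Ω] {S : Subgroup Ω} [Finite S] {m : ℕ} {a b β g : Ω}

namespace T4

theorem p_int (h : orderOf g = 2 ^ (m + 3)) (i : ℤ) :
    g ^ (i : ZMod (2 ^ (m + 1 + 2))).val = g ^ i := by
  rw [← zpow_natCast, ZMod.val_intCast, ← zpow_mod_orderOf g i, h]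

theorem p_add (h : orderOf g = 2 ^ (m + 3)) (r r' : ZMod (2 ^ (m + 1 + 2))) :
    g ^ (r + r').val = g ^ r.val * g ^ r'.val := by
  obtain ⟨i, rfl⟩ := ZMod.intCast_surjective r
  obtain ⟨j, rfl⟩ := ZMod.intCast_surjective r'
  rw [← Int.cast_add, p_int h, p_int h, p_int h, zpow_add]

theorem p_neg (h : orderOf g = 2 ^ (m + 3)) (r : ZMod (2 ^ (m + 1 + 2))) :
    g ^ (-r).val = (g ^ r.val)⁻¹ := by
  obtain ⟨i, rfl⟩ := ZMod.intCast_surjective r
  rw [← Int.cast_neg, p_int h, p_int h, zpow_neg]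

omit [Finite S] in
theorem card (h : TS S m a b β) (hc : ∀ s ∈ S, s ∈ HH a β ∨ s * b⁻¹ ∈ HH a β) :
    Nat.card S = 2 ^ (2 * (m + 3) + 1) := by
  let f : ZMod (2 ^ (m + 1 + 2)) × ZMod (2 ^ (m + 1 + 2)) × Bool → S := fun x =>
    ⟨a ^ x.1.val * β ^ x.2.1.val * cond x.2.2 b 1, mul_mem (mul_mem (pow_mem h.aS _)
      (pow_mem h.βS _)) (by cases x.2.2; exacts [one_mem _, h.bS])⟩
  have nb : b ∉ HH a β := fun e => T3.ne_inv h.orda (by
    rw [← h.ba, T3.comm h.βa e (a_mem_RR a β), mul_inv_cancel_right])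
  have mem : ∀ i j : ℕ, a ^ i * β ^ j ∈ HH a β := fun i j =>
    mul_mem (pow_mem (a_mem_RR a β) i) (pow_mem (b_mem_RR a β) j)
  have hf : Function.Bijective f := by
    constructor
    · rintro ⟨r, s, e⟩ ⟨r', s', e'⟩ k
      replace k : a ^ r.val * β ^ s.val * cond e b 1 = a ^ r'.val * β ^ s'.val * cond e' b 1 :=
        congrArg Subtype.val k
      obtain rfl : e = e' := by
        cases e <;> cases e' <;> simp only [cond_true, cond_false, mul_one] at k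
        · rfl
        · exact (nb ((mul_mem_cancel_left (mem _ _)).1 (k ▸ mem _ _))).elim
        · exact (nb ((mul_mem_cancel_left (mem _ _)).1 (k.symm ▸ mem _ _))).elim
        · rfl
      obtain ⟨i, rfl⟩ := ZMod.intCast_surjective r
      obtain ⟨j, rfl⟩ := ZMod.intCast_surjective s
      obtain ⟨i', rfl⟩ := ZMod.intCast_surjective r'
      obtain ⟨j', rfl⟩ := ZMod.intCast_surjective s'
      rw [mul_left_inj, p_int h.orda, p_int h.orda, p_int h.ordβ, p_int h.ordβ] at k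
      have := h.inj (i' + -i) (j' + -j) (by
        rw [← T1.mul_zpow h.βa, ← k, T1.mul_zpow h.βa]; simp)
      rw [(ZMod.intCast_eq_intCast_iff_dvd_sub i i' _).2 (by exact_mod_cast this.1),
        (ZMod.intCast_eq_intCast_iff_dvd_sub j j' _).2 (by exact_mod_cast this.2)]
    · rintro ⟨s, hs⟩
      rcases hc s hs with k | k <;> obtain ⟨i, j, k⟩ := (h.mem _).1 k
      · exact ⟨((i : ℤ), (j : ℤ), false), Subtype.ext (by
          simp only [f, p_int h.orda, p_int h.ordβ, k, cond_false, mul_one])⟩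
      · exact ⟨((i : ℤ), (j : ℤ), true), Subtype.ext (by
          simp only [f, p_int h.orda, p_int h.ordβ, ← k, cond_true, inv_mul_cancel_right])⟩
  rw [← Nat.card_eq_of_bijective f hf, Nat.card_prod, Nat.card_prod, Nat.card_zmod,
    Nat.card_eq_fintype_card, Fintype.card_bool]
  ring

end T4

open T4 in
theorem t4 (h : TS S m a b β) :
    IsWreathed S ∨ Nonempty (S ≃* G2T.GM (ZMod (2 ^ (m + 1 + 2)))) := by
  have c : Commute β a := h.βa
  have aH := a_mem_RR a β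
  have βH := b_mem_RR a β
  have vH : a⁻¹ * β ∈ HH a β := mul_mem (inv_mem aH) βH
  have wH : zz m β ∈ HH a β := pow_mem βH _
  have cm : ∀ {x y}, x ∈ HH a β → y ∈ HH a β → Commute x y := T3.comm h.βa
  have HS : HH a β ≤ S := (closure_le _).2 (by rintro x (rfl | rfl); exacts [h.aS, h.βS])
  have z2 := T1.zz_sq h.orda
  have w2 := T1.zz_sq h.ordβ
  have vz : zz m (a⁻¹ * β) = zz m a * zz m β := by
    rw [zz, c.symm.inv_left.mul_pow, inv_pow, inv_eq_of_mul_eq_one_right z2]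
  have ordv : orderOf (a⁻¹ * β) = 2 ^ (m + 3) := by
    rw [← h.bβ, ← MulAut.conj_apply, MulEquiv.orderOf_eq, h.ordβ]
  have uv : ∀ i j : ℤ, β ^ i * (a⁻¹ * β) ^ j = a ^ (-j) * β ^ (i + j) := fun i j => by
    rw [c.symm.inv_left.mul_zpow, inv_zpow', ← mul_assoc, (c.zpow_zpow i _).eq, mul_assoc, zpow_add]
  have inj : ∀ i j : ℤ, β ^ i * (a⁻¹ * β) ^ j = 1 →
      (2 : ℤ) ^ (m + 3) ∣ i ∧ (2 : ℤ) ^ (m + 3) ∣ j := fun i j e => by
    obtain ⟨h1, h2⟩ := h.inj _ _ ((uv i j).symm.trans e)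
    exact ⟨(dvd_add_left (dvd_neg.1 h1)).1 h2, dvd_neg.1 h1⟩
  have mem : ∀ x ∈ HH a β, ∃ i j : ℤ, x = β ^ i * (a⁻¹ * β) ^ j := fun x hx => by
    obtain ⟨i, j, rfl⟩ := (h.mem x).1 hx
    exact ⟨j + i, -i, by rw [uv]; simp⟩
  obtain ⟨s, hs⟩ : ∃ s, s = zz m β * b := ⟨_, rfl⟩
  have sS : s ∈ S := hs ▸ mul_mem (HS wH) h.bS
  have sc : ∀ x, b * x * b⁻¹ ∈ HH a β → s * x * s⁻¹ = b * x * b⁻¹ := fun x k => by
    rw [hs, show zz m β * b * x * (zz m β * b)⁻¹ = zz m β * (b * x * b⁻¹) * (zz m β)⁻¹ by group,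
      (cm wH k).eq, mul_inv_cancel_right]
  have su : s * β * s⁻¹ = a⁻¹ * β := by rw [sc _ (h.bβ ▸ vH), h.bβ]
  have sa : s * a * s⁻¹ = a⁻¹ := by rw [sc _ (h.ba ▸ inv_mem aH), h.ba]
  have sv : s * (a⁻¹ * β) * s⁻¹ = β := by
    rw [← conj_mul, ← conj_inv, sa, su, inv_inv, mul_inv_cancel_left]
  have ss : s * s = 1 := by
    have : b * zz m β * b⁻¹ = zz m a * zz m β := by rw [zz, ← conj_pow, h.bβ, ← vz]
    rw [hs, show zz m β * b * (zz m β * b) = zz m β * (b * zz m β * b⁻¹) * (b * b) by group, this,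
      h.bb, (cm (pow_mem aH _) wH).eq, ← mul_assoc, w2, one_mul, z2]
  by_cases hd : ∃ d ∈ S, d * a * d⁻¹ = a⁻¹ ∧ d * β * d⁻¹ = β⁻¹
  swap
  · refine Or.inl ⟨m + 3, by omega, card h fun x hx => ?_, ⟨β, h.βS⟩, ⟨_, HS vH⟩, ⟨s, sS⟩,
      by rw [← h.ordβ, Subgroup.orderOf_mk], Subtype.ext (cm βH vH), ?_, ?_, Subtype.ext su⟩
    · obtain ⟨t, ht, k, k'⟩ := h.cov x hx
      have := k'.resolve_right fun e => hd ⟨t, ht, e⟩
      exact k.imp (fun e => by rwa [e]) fun e => by rwa [e, mul_inv_cancel_right]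
    · refine eq_bot_iff.2 ?_
      rintro _ ⟨⟨i, rfl⟩, j, e⟩
      replace e : (a⁻¹ * β) ^ j = β ^ i := congrArg Subtype.val e
      exact Subtype.ext ((T1.dvd_iff h.ordβ).1 (inj i (-j) (by rw [zpow_neg, e, mul_inv_cancel])).1)
    · refine orderOf_eq_prime (Subtype.ext (by simpa [pow_two] using ss)) fun e => ?_
      replace e : s = 1 := congrArg Subtype.val e
      exact T3.ne_inv h.orda (by simpa [e] using sa)
  obtain ⟨d, dS, da, dβ⟩ := hd
  have two : ∀ t ∈ S, ∀ d ∈ S, t * a * t⁻¹ = a⁻¹ → t * β * t⁻¹ = β⁻¹ → d * a * d⁻¹ = a⁻¹ →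
      d * β * d⁻¹ = β⁻¹ → t * d ∈ HH a β := fun t ht d hd t1 t2 d1 d2 => by
    have k : ∀ x, t * x * t⁻¹ = x⁻¹ → d * x * d⁻¹ = x⁻¹ → t * d * x = x * (t * d) := fun x e e' => by
      rw [← mul_inv_eq_iff_eq_mul, show t * d * x * (t * d)⁻¹ = t * (d * x * d⁻¹) * t⁻¹ by group, e',
        ← conj_inv, e, inv_inv]
    exact h.cen _ (mul_mem ht hd) (k a t1 d1) (k β t2 d2)
  have dd := h.inv2 d dS da dβ
  have si : ∀ x y, s * y * s⁻¹ = x → y ∈ HH a β →
      s * d * s⁻¹ * x * (s * d * s⁻¹)⁻¹ = x⁻¹ := fun x y e hy => by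
    rw [← e, conj_mul, conj_inv, conj_mul, T3.inverts h.βa da dβ hy, conj_inv]
  obtain ⟨i, j, e⟩ := mem _ (two _ (mul_mem (mul_mem sS dS) (inv_mem sS)) d dS
    (si a a⁻¹ (by rw [← conj_inv, sa, inv_inv]) (inv_mem aH)) (si β _ sv vH) da dβ)
  have e1 : s * d * s⁻¹ = β ^ i * (a⁻¹ * β) ^ j * d := by
    rw [← e, mul_assoc _ d d, dd, mul_one]
  have e2 : (a⁻¹ * β) ^ (i + j) = 1 := by
    have k : s * (s * d * s⁻¹) * s⁻¹ = d := by
      rw [show s * (s * d * s⁻¹) * s⁻¹ = s * s * d * (s * s)⁻¹ by group, ss]; group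
    rw [e1, ← conj_mul, e1, ← conj_mul, ← conj_zpow, ← conj_zpow, su, sv, ← mul_assoc,
      mul_eq_right, ((cm vH βH).zpow_zpow i j).eq, ((cm vH βH).zpow_zpow i i).mul_mul_mul_comm,
      ← zpow_add, ← zpow_add] at k
    exact (T1.dvd_iff ordv).1 (inj _ _ k).2
  obtain ⟨γ, hγ⟩ : ∃ γ, γ = β ^ i * d := ⟨_, rfl⟩
  have γS : γ ∈ S := hγ ▸ mul_mem (zpow_mem h.βS i) dS
  have γi : ∀ x ∈ HH a β, γ * x * γ⁻¹ = x⁻¹ := fun x hx => by
    rw [hγ, show β ^ i * d * x * (β ^ i * d)⁻¹ = β ^ i * (d * x * d⁻¹) * (β ^ i)⁻¹ by group,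
      T3.inverts h.βa da dβ hx, (cm (zpow_mem βH i) (inv_mem hx)).eq, mul_inv_cancel_right]
  have γγ := h.inv2 γ γS (γi a aH) (γi β βH)
  have R : G2T.GM.Rel (R := ZMod (2 ^ (m + 1 + 2))) (fun r => β ^ r.val)
      (fun r => (a⁻¹ * β) ^ r.val) s γ :=
    ⟨p_add h.ordβ, p_add ordv, fun r r' => ((cm vH βH).pow_pow _ _).eq,
      fun r => by rw [← mul_inv_eq_iff_eq_mul, ← conj_pow, su],
      fun r => by rw [← mul_inv_eq_iff_eq_mul, p_neg h.ordβ, γi _ (pow_mem βH _)], ss, γγ, by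
        rw [eq_comm, ← mul_inv_eq_iff_eq_mul, hγ, ← conj_mul, e1, ← conj_zpow, su, ← mul_assoc,
          ← mul_assoc, ((cm vH βH).zpow_zpow i i).eq, mul_assoc (β ^ i), ← zpow_add, e2, mul_one]⟩
  have hi := (G2T.Par.zmod (m + 1)).injective (G2T.isPGroup_GM (m + 1)) R.hom (by
    have k : ∀ g : Ω, orderOf g = 2 ^ (m + 3) → g ^ (G2T.Par.zmod (m + 1)).h.val = zz m g :=
      fun g o => by
        rw [zz, ← zpow_natCast g (2 ^ (m + 2)), ← p_int o, Int.cast_natCast]; rfl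
    simp only [R.hom_apply, cond_false, mul_one, k β h.ordβ, k _ ordv, vz]
    rw [(cm (pow_mem aH _) wH).eq, ← mul_assoc, w2, one_mul]
    exact pow_ne_one_of_lt_orderOf (by positivity)
      (h.orda ▸ Nat.pow_lt_pow_right one_lt_two (by omega)))
  have HR : HH a β ≤ R.hom.range := fun x hx => by
    obtain ⟨i, j, rfl⟩ := mem x hx
    exact ⟨⟨(i : ℤ), (j : ℤ), false, false⟩, by
      simp only [R.hom_apply, cond_false, mul_one, p_int h.ordβ, p_int ordv]⟩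
  have hr : S = R.hom.range := by
    refine le_antisymm (fun x hx => ?_) ?_
    · obtain ⟨t, ht, k, k'⟩ := h.cov x hx
      have tR : t ∈ R.hom.range := k'.elim (fun k => HR k) fun k =>
        (mul_mem_cancel_right (show γ ∈ R.hom.range from
          ⟨⟨0, 0, false, true⟩, by simp [R.hom_apply]⟩)).1
          (HR (two t ht γ γS k.1 k.2 (γi a aH) (γi β βH)))
      have bR : b ∈ R.hom.range := (mul_mem_cancel_left (HR wH)).1
        (hs ▸ ⟨⟨0, 0, true, false⟩, by simp [R.hom_apply]⟩)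
      rcases k with rfl | rfl
      exacts [tR, mul_mem tR bR]
    · rintro _ ⟨⟨i, k, e, f⟩, rfl⟩
      refine mul_mem (mul_mem (mul_mem (pow_mem h.βS _) (pow_mem (HS vH) _)) ?_) ?_
      · cases e; exacts [one_mem _, sS]
      · cases f; exacts [one_mem _, γS]
  exact Or.inr ⟨(MulEquiv.subgroupCongr hr).trans (MonoidHom.ofInjective hi).symm⟩

end Cfsg.Lib.WQ
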